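import Cfsg.Agent.RootSub.QP.Invertible

/-!
# Pairs which are not invertible: the bracket lands in a single class
-/

set_option autoImplicit false
set_option linter.unusedSimpArgs false

namespace Cfsg.Agent.RootSub.QP

open Cfsg

variable {k : Type*} [Field k] {M : Type*} [AddCommGroup M] [Module k M] [FiniteDimensional k M]

local notation "GLM" => LinearMap.GeneralLinearGroup k M
local notation "EndM" => M →ₗ[k] M

variable {G : Subgroup (LinearMap.GeneralLinearGroup k M)} {s t x y : M →ₗ[k] M}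

variable (h2 : (2 : k) ≠ 0) (h3 : Nat.card k ≠ 3)

/-- The expected range and kernel of a nonzero bracket depend only on the classes. -/
def zRange (s t : M →ₗ[k] M) : Submodule k M :=
  (LinearMap.range s ⊓ LinearMap.ker t) ⊔ (LinearMap.range t ⊓ LinearMap.ker s)

/-- The expected kernel of a bracket. -/
def zKer (s t : M →ₗ[k] M) : Submodule k M :=
  (LinearMap.range s ⊔ LinearMap.ker t) ⊓ (LinearMap.range t ⊔ LinearMap.ker s)

include h2 h3 in
theorem qel_z (hs : MinQ G s) (ht : MinQ G t) (h : ¬ Inv s t) : QEl G (s * t - t * s) :=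
  qel_bracket hs.1 ht.1 (sts_eq_zero h2 h3 hs ht h)
    (sts_eq_zero h2 h3 ht hs fun hi => h hi.symm)

include h2 h3 in
theorem z_spec (hs : MinQ G s) (ht : MinQ G t) (h : ¬ Inv s t) (hz : s * t - t * s ≠ 0) :
    MinQ G (s * t - t * s) ∧
      LinearMap.range (s * t - t * s) = zRange s t ∧
      LinearMap.ker (s * t - t * s) = zKer s t ∧
      Disjoint (LinearMap.range s ⊓ LinearMap.ker t) (LinearMap.range t ⊓ LinearMap.ker s) ∧
      LinearMap.range (s * t) = LinearMap.range s ⊓ LinearMap.ker t := by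
  have hsts := sts_eq_zero h2 h3 hs ht h
  have htst := sts_eq_zero h2 h3 ht hs fun hi => h hi.symm
  set P := LinearMap.range s ⊓ LinearMap.ker t with hP
  set Q := LinearMap.range t ⊓ LinearMap.ker s with hQ
  have hr1 : LinearMap.range (s * t) ≤ P := by
    rintro _ ⟨v, rfl⟩
    refine ⟨LinearMap.mem_range_self s (t v), ?_⟩
    exact LinearMap.congr_fun htst v
  have hr2 : LinearMap.range (t * s) ≤ Q := by
    rintro _ ⟨v, rfl⟩
    refine ⟨LinearMap.mem_range_self t (s v), ?_⟩
    exact LinearMap.congr_fun hsts v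
  have e1 : rk (s * t) + Module.finrank k Q = rk t := rk_mul s t
  have e2 : rk (t * s) + Module.finrank k P = rk s := rk_mul t s
  have hd := hs.rk_eq ht
  have hle1 : rk (s * t) ≤ Module.finrank k P := Submodule.finrank_mono hr1
  have hle2 : rk (t * s) ≤ Module.finrank k Q := Submodule.finrank_mono hr2
  have hq := qel_z h2 h3 hs ht h
  have hge := hs.2.2 _ hq hz
  have hrange : LinearMap.range (s * t - t * s) ≤ LinearMap.range (s * t) ⊔ LinearMap.range (t * s) := by
    rintro _ ⟨v, rfl⟩
    exact sub_mem (Submodule.mem_sup_left (LinearMap.mem_range_self (s * t) v))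
      (Submodule.mem_sup_right (LinearMap.mem_range_self (t * s) v))
  have hzle : rk (s * t - t * s) ≤
      Module.finrank k (LinearMap.range (s * t) ⊔ LinearMap.range (t * s) : Submodule k M) :=
    Submodule.finrank_mono hrange
  have hsum := Submodule.finrank_sup_add_finrank_inf_eq (LinearMap.range (s * t)) (LinearMap.range (t * s))
  simp only [rk] at e1 e2 hd hle1 hle2 hge hzle
  have p1 : LinearMap.range (s * t) = P := Submodule.eq_of_le_of_finrank_le hr1 (by omega)
  have p2 : LinearMap.range (t * s) = Q := Submodule.eq_of_le_of_finrank_le hr2 (by omega)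
  have p3 : Disjoint P Q := by
    rw [disjoint_iff, ← p1, ← p2, ← Submodule.finrank_eq_zero]; omega
  have hmin : MinQ G (s * t - t * s) := hs.of_rk_le hq hz (by simp only [rk]; omega)
  have p4 : LinearMap.range (s * t - t * s) = zRange s t := by
    show _ = P ⊔ Q
    rw [← p1, ← p2]
    exact Submodule.eq_of_le_of_finrank_le hrange (by omega)
  refine ⟨hmin, p4, ?_, p3, p1⟩
  have hker : ∀ {a b : EndM}, a * a = 0 → b * b = 0 →
      LinearMap.range b ⊓ LinearMap.ker a = LinearMap.range (b * a) →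
      LinearMap.ker (a * b) = LinearMap.range a ⊔ LinearMap.ker b := by
    intro a b ha hb hQ'
    refine le_antisymm (fun v hv => ?_) (sup_le ?_ ?_)
    · have : b v ∈ LinearMap.range b ⊓ LinearMap.ker a := ⟨LinearMap.mem_range_self b v, hv⟩
      rw [hQ'] at this
      obtain ⟨w, hw⟩ := this
      refine Submodule.mem_sup.2 ⟨a w, LinearMap.mem_range_self a w, v - a w, ?_, by abel⟩
      rw [LinearMap.mem_ker, map_sub, ← hw]; exact sub_self _
    · rintro _ ⟨w, rfl⟩
      have : b (a w) ∈ LinearMap.range b ⊓ LinearMap.ker a := hQ' ▸ LinearMap.mem_range_self (b * a) w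
      exact this.2
    · intro v hv
      simp [LinearMap.mem_ker.1 hv]
  have k1 : LinearMap.ker (s * t) = LinearMap.range s ⊔ LinearMap.ker t :=
    hker hs.sq ht.sq (hQ ▸ p2.symm)
  have k2 : LinearMap.ker (t * s) = LinearMap.range t ⊔ LinearMap.ker s :=
    hker ht.sq hs.sq (hP ▸ p1.symm)
  show _ = (LinearMap.range s ⊔ LinearMap.ker t) ⊓ (LinearMap.range t ⊔ LinearMap.ker s)
  rw [← k1, ← k2]
  refine le_antisymm (fun v hv => ?_) (fun v hv => ?_)
  · have he : (s * t) v = (t * s) v := sub_eq_zero.1 hv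
    have h0 : (s * t) v = 0 := by
      have hm : (s * t) v ∈ P ⊓ Q :=
        ⟨p1.le (LinearMap.mem_range_self _ v), he ▸ p2.le (LinearMap.mem_range_self _ v)⟩
      rwa [p3.eq_bot, Submodule.mem_bot] at hm
    exact ⟨h0, LinearMap.mem_ker.2 (he.symm.trans h0)⟩
  · rw [LinearMap.mem_ker, LinearMap.sub_apply, LinearMap.mem_ker.1 hv.1, LinearMap.mem_ker.1 hv.2,
      sub_zero]

include h2 h3 in
theorem commute_step (hs : MinQ G s) (ht : MinQ G t) (h : ¬ Inv s t) (hc : s * t = t * s)
    (hx : x ∈ classSpace G s) : x * t = t * x := by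
  by_contra hne
  have hx0 : x ≠ 0 := fun h0 => hne (by rw [h0, zero_mul, mul_zero])
  obtain ⟨hxm, hxk, hxr⟩ := hs.class_spec hx hx0
  have hni : ¬ Inv x t := fun hi => h ((inv_congr hxk hxr rfl rfl).1 hi)
  obtain ⟨-, -, -, hdis, hxt⟩ := z_spec h2 h3 hxm ht hni (sub_ne_zero.2 hne)
  rw [hxk, hxr] at hdis
  have hsts := sts_eq_zero h2 h3 hs ht h
  have htst := sts_eq_zero h2 h3 ht hs fun hi => h hi.symm
  have h0 : s * t = 0 := by
    ext v
    have hm : (s * t) v ∈ (LinearMap.range s ⊓ LinearMap.ker t) ⊓ (LinearMap.range t ⊓ LinearMap.ker s) := by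
      refine ⟨⟨LinearMap.mem_range_self s (t v), LinearMap.congr_fun htst v⟩, ?_⟩
      rw [hc]
      exact ⟨LinearMap.mem_range_self t (s v), LinearMap.congr_fun hsts v⟩
    rwa [hdis.eq_bot, Submodule.mem_bot] at hm
  have htT : ∀ v, s (t v) = 0 := fun v => LinearMap.congr_fun h0 v
  have hxt0 : x * t = 0 := by
    ext v
    have : t v ∈ LinearMap.ker x := hxk ▸ LinearMap.mem_ker.2 (htT v)
    exact LinearMap.mem_ker.1 this
  have htx0 : t * x = 0 := by
    ext v
    obtain ⟨w, hw⟩ : x v ∈ LinearMap.range s := hxr ▸ LinearMap.mem_range_self x v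
    have h0' : t * s = 0 := hc ▸ h0
    show t (x v) = 0
    rw [← hw]; exact LinearMap.congr_fun h0' w
  exact hne (hxt0.trans htx0.symm)

include h2 h3 in
/-- One commuting pair forces the classes to commute. -/
theorem commute_all (hs : MinQ G s) (ht : MinQ G t) (hc : s * t = t * s)
    (hx : x ∈ classSpace G s) (hy : y ∈ classSpace G t) : x * y = y * x := by
  have h : ¬ Inv s t := fun hi => by
    have h1 := hi.range_sts hs ht
    rw [mul_assoc, ← hc, ← mul_assoc, hs.sq, zero_mul, LinearMap.range_zero] at h1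
    exact hs.ne_zero (LinearMap.range_eq_bot.1 h1.symm)
  rcases eq_or_ne x 0 with rfl | hx0
  · simp
  obtain ⟨hxm, hxk, hxr⟩ := hs.class_spec hx hx0
  have h1 : x * t = t * x := commute_step h2 h3 hs ht h hc hx
  exact (commute_step h2 h3 ht hxm (fun hi => h ((inv_congr hxk hxr rfl rfl).1 hi.symm)) h1.symm hy).symm

include h2 h3 in
/-- The bracket of two classes which do not commute: every nonzero pair has nonzero bracket in one
class. -/
theorem bracket_mem (hs : MinQ G s) (ht : MinQ G t) (h : ¬ Inv s t) (hz : s * t ≠ t * s)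
    (hx : x ∈ classSpace G s) (hy : y ∈ classSpace G t) :
    x * y - y * x ∈ classSpace G (s * t - t * s) ∧ (x ≠ 0 → y ≠ 0 → x * y - y * x ≠ 0) := by
  have hne : x ≠ 0 → y ≠ 0 → x * y - y * x ≠ 0 := by
    intro hx0 hy0 h0
    obtain ⟨hxm, -, -⟩ := hs.class_spec hx hx0
    obtain ⟨hym, -, -⟩ := ht.class_spec hy hy0
    refine hz (commute_all h2 h3 hxm hym (sub_eq_zero.1 h0) ?_ ?_)
    · rw [hs.classSpace_eq hx hx0]; exact self_mem_classSpace hs.1
    · rw [ht.classSpace_eq hy hy0]; exact self_mem_classSpace ht.1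
  refine ⟨?_, hne⟩
  rcases eq_or_ne x 0 with rfl | hx0
  · simp
  rcases eq_or_ne y 0 with rfl | hy0
  · simp
  obtain ⟨hxm, hxk, hxr⟩ := hs.class_spec hx hx0
  obtain ⟨hym, hyk, hyr⟩ := ht.class_spec hy hy0
  obtain ⟨hm, hr, hk, -⟩ := z_spec h2 h3 hxm hym
    (fun hi => h ((inv_congr hxk hxr hyk hyr).1 hi)) (hne hx0 hy0)
  obtain ⟨-, hr', hk', -⟩ := z_spec h2 h3 hs ht h (sub_ne_zero.2 hz)
  have e1 : LinearMap.range (x * y - y * x) = LinearMap.range (s * t - t * s) := by
    rw [hr, hr', zRange, zRange, hxk, hxr, hyk, hyr]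
  have e2 : LinearMap.ker (x * y - y * x) = LinearMap.ker (s * t - t * s) := by
    rw [hk, hk', zKer, zKer, hxk, hxr, hyk, hyr]
  rw [← classSpace_congr (G := G) e2 e1]
  exact self_mem_classSpace hm.1

include h2 h3 in
/-- Bracketing with a fixed nonzero element is injective on the partner class. -/
theorem finrank_le_bracket (hs : MinQ G s) (ht : MinQ G t) (h : ¬ Inv s t) (hz : s * t ≠ t * s) :
    Module.finrank k (classSpace G t) ≤ Module.finrank k (classSpace G (s * t - t * s)) := by
  let f : classSpace G t →ₗ[k] classSpace G (s * t - t * s) :=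
    { toFun := fun y => ⟨s * y - y * s, (bracket_mem h2 h3 hs ht h hz (self_mem_classSpace hs.1) y.2).1⟩
      map_add' := fun a b => Subtype.ext (by simp [mul_add, add_mul]; abel)
      map_smul' := fun c a => Subtype.ext (by simp [smul_sub]) }
  refine LinearMap.finrank_le_finrank_of_injective (f := f) ((injective_iff_map_eq_zero f).2 ?_)
  intro a ha
  by_contra ha0
  exact (bracket_mem h2 h3 hs ht h hz (self_mem_classSpace hs.1) a.2).2 hs.ne_zero
    (fun h0 => ha0 (Subtype.ext h0)) (congrArg Subtype.val ha)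

omit [FiniteDimensional k M] in
/-- `s = [z, [y, s]]`. -/
theorem eq_double_bracket {z : EndM} (hzz : z * z = 0) (hzs : z * s = 0) (hsz : s * z = 0)
    (hzyz : z * y * z = z) (hyzy : y * z * y = y) (hysy : y * s * y = 0)
    (hflag : ∀ v, z v = 0 → s v ∈ LinearMap.range z) :
    z * (y * s - s * y) - (y * s - s * y) * z = s := by
  have hzQ : z * (1 - z * y - y * z) = 0 := by
    simp only [mul_sub, mul_one, ← mul_assoc, hzz, zero_mul, sub_zero, hzyz, sub_self]
  have hQz : (1 - z * y - y * z) * z = 0 := by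
    rw [sub_mul, sub_mul, one_mul, hzyz, mul_assoc y z z, hzz, mul_zero, sub_zero, sub_self]
  have hQsQ : (1 - z * y - y * z) * s * (1 - z * y - y * z) = 0 := by
    ext v
    obtain ⟨w, hw⟩ := hflag _ (LinearMap.congr_fun hzQ v)
    simp only [Module.End.mul_apply, LinearMap.zero_apply]
    rw [← hw]
    exact LinearMap.congr_fun hQz w
  have e1 : ∀ x : EndM, x * z * s = 0 := fun x => by rw [mul_assoc, hzs, mul_zero]
  have e2 : ∀ x : EndM, x * s * z = 0 := fun x => by rw [mul_assoc, hsz, mul_zero]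
  have e3 : ∀ x : EndM, x * y * s * y = 0 := fun x => by
    rw [show x * y * s * y = x * (y * s * y) by simp only [mul_assoc], hysy, mul_zero]
  simp only [sub_mul, mul_sub, one_mul, mul_one, ← mul_assoc, hzs, hsz, hysy, e1, e2, e3, zero_mul,
    mul_zero, sub_zero, zero_sub] at hQsQ ⊢
  rw [← sub_eq_zero, ← neg_eq_zero, ← hQsQ]
  abel

include h2 h3 in
/-- The classes of `s` and of the bracket have the same dimension. -/
theorem finrank_bracket_le_left (hirr : IsIrreducibleFor G) (hs : MinQ G s) (ht : MinQ G t)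
    (h : ¬ Inv s t) (hz : s * t ≠ t * s) :
    Module.finrank k (classSpace G (s * t - t * s)) ≤ Module.finrank k (classSpace G s) := by
  obtain ⟨hzm, hzr, hzk, -, hst⟩ := z_spec h2 h3 hs ht h (sub_ne_zero.2 hz)
  set z := s * t - t * s with hzdef
  have hsts := sts_eq_zero h2 h3 hs ht h
  have hzs : z * s = 0 := by
    rw [hzdef, sub_mul, hsts, mul_assoc t s s, hs.sq, mul_zero, sub_zero]
  have hsz : s * z = 0 := by
    rw [hzdef, mul_sub, ← mul_assoc, ← mul_assoc, hs.sq, zero_mul, hsts, sub_zero]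
  obtain ⟨y0, hy0, hi0⟩ := exists_inv_partner h2 h3 hirr hzm
  obtain ⟨y, hy, hzyz, hyzy⟩ := hi0.exists_partner h2 h3 hzm hy0
  have hyne : y ≠ 0 := fun h0 => hzm.ne_zero (by rw [← hzyz, h0, mul_zero, zero_mul])
  obtain ⟨hym, hyk, hyr⟩ := hy0.class_spec hy hyne
  have hi : Inv z y := (inv_congr rfl rfl hyk hyr).2 hi0
  by_cases hsy : Inv s y
  · exact ((hi.finrank_eq h2 h3 hzm hym).trans (hsy.finrank_eq h2 h3 hs hym).symm).le
  have hysy := sts_eq_zero h2 h3 hym hs fun hh => hsy hh.symm
  have hflag : ∀ v, z v = 0 → s v ∈ LinearMap.range z := by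
    intro v hv
    have hv' : v ∈ zKer s t := hzk ▸ LinearMap.mem_ker.2 hv
    obtain ⟨a, ⟨w, rfl⟩, c, hc, rfl⟩ := Submodule.mem_sup.1 hv'.2
    rw [map_add, LinearMap.mem_ker.1 hc, add_zero, hzr]
    exact Submodule.mem_sup_left (hst ▸ LinearMap.mem_range_self (s * t) w)
  have hwe := eq_double_bracket hzm.sq hzs hsz hzyz hyzy hysy hflag
  have hne : y * s ≠ s * y := by
    intro he
    rw [sub_eq_zero.2 he, mul_zero, zero_mul, sub_zero] at hwe
    exact hs.ne_zero hwe.symm
  obtain ⟨hqm, -, -, -, -⟩ := z_spec h2 h3 hym hs (fun hh => hsy hh.symm) (sub_ne_zero.2 hne)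
  have hzq : ¬ Inv z (y * s - s * y) := by
    intro hh
    have h1 := hh.range_sts hzm hqm
    have e0 : z * (y * s - s * y) * z = 0 := by
      simp only [mul_sub, sub_mul, ← mul_assoc, hzs, mul_assoc (z * y) s z, hsz, zero_mul, mul_zero,
        sub_zero]
    rw [e0, LinearMap.range_zero] at h1
    exact hzm.ne_zero (LinearMap.range_eq_bot.1 h1.symm)
  have hne2 : z * (y * s - s * y) ≠ (y * s - s * y) * z := by
    intro he
    rw [sub_eq_zero.2 he] at hwe
    exact hs.ne_zero hwe.symm
  -- `q ↦ [z, q]` and `x ↦ [x, q]`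
  have key := finrank_le_bracket h2 h3 hqm hzm (fun hh => hzq hh.symm) hne2.symm
  have he : (y * s - s * y) * z - z * (y * s - s * y) = -s := by rw [← neg_sub, hwe]
  rw [he, classSpace_congr (G := G) (LinearMap.ker_neg s) (LinearMap.range_neg s)] at key
  exact key

include h2 h3 in
/-- Bracketing with a fixed nonzero element maps the partner class onto the class of the bracket. -/
theorem exists_bracket_eq (hirr : IsIrreducibleFor G) (hs : MinQ G s) (ht : MinQ G t)
    (h : ¬ Inv s t) (hz : s * t ≠ t * s) {w : EndM} (hw : w ∈ classSpace G (s * t - t * s)) :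
    ∃ y ∈ classSpace G t, s * y - y * s = w := by
  have h' : ¬ Inv t s := fun hi => h hi.symm
  have he : classSpace G (t * s - s * t) = classSpace G (s * t - t * s) := by
    rw [← neg_sub (s * t) (t * s)]
    exact classSpace_congr (LinearMap.ker_neg _) (LinearMap.range_neg _)
  have hle := finrank_bracket_le_left h2 h3 hirr ht hs h' (Ne.symm hz)
  rw [he] at hle
  let f : classSpace G t →ₗ[k] classSpace G (s * t - t * s) :=
    { toFun := fun y => ⟨s * y - y * s, (bracket_mem h2 h3 hs ht h hz (self_mem_classSpace hs.1) y.2).1⟩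
      map_add' := fun a b => Subtype.ext (by simp [mul_add, add_mul]; abel)
      map_smul' := fun c a => Subtype.ext (by simp [smul_sub]) }
  have hinj : Function.Injective f := (injective_iff_map_eq_zero f).2 fun a ha => by
    by_contra ha0
    exact (bracket_mem h2 h3 hs ht h hz (self_mem_classSpace hs.1) a.2).2 hs.ne_zero
      (fun h0 => ha0 (Subtype.ext h0)) (congrArg Subtype.val ha)
  obtain ⟨a, ha⟩ := (LinearMap.injective_iff_surjective_of_finrank_eq_finrank
    (le_antisymm (LinearMap.finrank_le_finrank_of_injective hinj) hle)).1 hinj ⟨w, hw⟩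
  exact ⟨a, a.2, congrArg Subtype.val ha⟩

end Cfsg.Agent.RootSub.QP
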