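import Cfsg.Agent.RootSub.QP.Quasisimple

/-!
# A quadratic pair is a central product of quasisimple groups

The quadratic elements commuting with all minimal ones form, on a minimal invariant subspace, a
quadratic pair of smaller dimension.
-/

set_option autoImplicit false
set_option linter.unusedSimpArgs false

namespace Cfsg.Agent.RootSub.QP

open Cfsg
open scoped commutatorElement

section General

variable {k : Type*} [Field k] {M : Type*} [AddCommGroup M] [Module k M] [FiniteDimensional k M]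

local notation "GLM" => LinearMap.GeneralLinearGroup k M
local notation "EndM" => M →ₗ[k] M

variable (G : Subgroup (LinearMap.GeneralLinearGroup k M))

/-- The group of the quadratic elements commuting with all minimal ones. -/
noncomputable def cqGroup : Subgroup (LinearMap.GeneralLinearGroup k M) :=
  Subgroup.closure (qunit '' {u : M →ₗ[k] M | QEl G u ∧ ∀ s, MinQ G s → s * u = u * s})

variable {G}

omit [FiniteDimensional k M] in
theorem qunit_mem_cqGroup {u : EndM} (hu : QEl G u) (hc : ∀ s, MinQ G s → s * u = u * s) :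
    qunit u ∈ cqGroup G := Subgroup.subset_closure ⟨u, ⟨hu, hc⟩, rfl⟩

omit [FiniteDimensional k M] in
theorem cqGroup_le : cqGroup G ≤ G := by
  rw [cqGroup, Subgroup.closure_le]
  rintro _ ⟨u, hu, rfl⟩
  exact hu.1.qunit_mem

omit [FiniteDimensional k M] in
theorem commute_cqGroup {s : EndM} (hs : MinQ G s) {g : GLM} (hg : g ∈ cqGroup G) :
    g * qunit s = qunit s * g := by
  have : cqGroup G ≤ Subgroup.centralizer {(qunit s : GLM)} := by
    rw [cqGroup, Subgroup.closure_le]
    rintro _ ⟨u, hu, rfl⟩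
    exact Subgroup.mem_centralizer_singleton_iff.2 ((qunit_commute_iff hu.1.1 hs.sq).2 (hu.2 s hs).symm)
  exact Subgroup.mem_centralizer_singleton_iff.1 (this hg)

omit [FiniteDimensional k M] in
theorem coe_commute_cqGroup {s : EndM} (hs : MinQ G s) {g : GLM} (hg : g ∈ cqGroup G) :
    (g : EndM) * s = s * (g : EndM) := by
  have h := congrArg (fun g : GLM => (g : EndM)) (commute_cqGroup hs hg)
  simpa [Units.val_mul, coe_qunit hs.sq, mul_add, add_mul] using h

omit [FiniteDimensional k M] in
theorem exists_minQ {u : EndM} (hu : QEl G u) (h0 : u ≠ 0) : ∃ s, MinQ G s := by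
  classical
  have hex : ∃ n, ∃ t, QEl G t ∧ t ≠ 0 ∧ rk t = n := ⟨_, u, hu, h0, rfl⟩
  obtain ⟨t, ht, ht0, htn⟩ := Nat.find_spec hex
  exact ⟨t, ht, ht0, fun v hv hv0 => htn ▸ Nat.find_min' hex ⟨v, hv, hv0, rfl⟩⟩

variable (h2 : (2 : k) ≠ 0) (h3 : Nat.card k ≠ 3) (hirr : IsIrreducibleFor G)

include h2 h3 hirr in
/-- A quadratic element lies in a component group or commutes with all minimal ones. -/
theorem mem_comp_or_central (hgen : Subgroup.closure (quadraticElements G) = G) {u : EndM}
    (hu : QEl G u) (h0 : u ≠ 0) :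
    (∀ s, MinQ G s → s * u = u * s) ∨ ∃ a, MinQ G a ∧ qunit u ∈ compGroup G a := by
  suffices H : ∀ n : ℕ, ∀ u : EndM, QEl G u → u ≠ 0 → rk u = n →
      (∀ s, MinQ G s → s * u = u * s) ∨ ∃ a, MinQ G a ∧ qunit u ∈ compGroup G a from H _ u hu h0 rfl
  intro n
  induction n using Nat.strong_induction_on with
  | _ n ih =>
  intro u hu h0 hn
  by_cases hex : ∃ s, MinQ G s ∧ s * u * s ≠ 0
  swap
  · push Not at hex
    exact Or.inl fun s hs => commute_of_forall_sus h2 h3 hirr hu hex hs
  right
  obtain ⟨s, hs, hne⟩ := hex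
  obtain ⟨y, t, hy, ht, hyt, hty, rfl, hlt, -⟩ := exists_split h2 h3 hs hu hne
  rcases eq_or_ne t 0 with rfl | ht0
  · exact ⟨y, hy, by rw [add_zero]; exact qunit_mem_compGroup (self_mem_comp hy)⟩
  rw [← qunit_mul hy.sq ht.1 hyt hty]
  rcases ih _ (hn ▸ hlt) t ht ht0 rfl with hc | ⟨b, hb, htb⟩
  · exact absurd (eq_zero_of_mul_comp h2 h3 hirr hgen hy (fun x hx => (hc x hx.1).symm) hty) ht0
  · by_cases hyb : Conn G b y
    · exact ⟨b, hb, mul_mem (qunit_mem_compGroup ⟨hy, hyb⟩) htb⟩
    · refine absurd (eq_zero_of_mul_comp h2 h3 hirr hgen hy (fun x hx => ?_) hty) ht0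
      have h := commutator_eq_bot_iff_forall.1 (commutator_compGroup h2 h3 hirr hyb) _ htb _
        (qunit_mem_compGroup hx)
      rwa [qunit_commute_iff ht.1 hx.1.sq] at h

include h2 h3 hirr in
/-- An endomorphism commuting with all minimal ones and killing an invariant subspace of
`cqGroup` is zero. -/
theorem eq_zero_of_kills (hgen : Subgroup.closure (quadraticElements G) = G) {W : Submodule k M}
    (hW : W ≠ ⊥) (hWinv : ∀ g ∈ cqGroup G, ∀ w ∈ W, (g : EndM) w ∈ W) {f : EndM}
    (hf : ∀ s, MinQ G s → f * s = s * f) (hk : W ≤ LinearMap.ker f) : f = 0 := by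
  set E : Submodule k M :=
    sInf {U | W ≤ U ∧ ∀ s, MinQ G s → ∀ v ∈ U, s v ∈ U} with hE
  have hWE : W ≤ E := le_sInf fun U hU => hU.1
  have hEs : ∀ s, MinQ G s → ∀ v ∈ E, s v ∈ E := by
    intro s hs v hv
    rw [hE, Submodule.mem_sInf] at hv ⊢
    exact fun U hU => hU.2 s hs v (hv U hU)
  have hEc : ∀ g ∈ cqGroup G, ∀ v ∈ E, (g : EndM) v ∈ E := by
    intro g hg v hv
    have hle : E ≤ E.comap (g : EndM) := sInf_le ⟨fun w hw => hWE (hWinv g hg w hw),
      fun s hs w hw => by
        rw [Submodule.mem_comap] at hw ⊢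
        rw [← Module.End.mul_apply, coe_commute_cqGroup hs hg]
        exact hEs s hs _ hw⟩
    exact hle hv
  let St : Subgroup GLM :=
    { carrier := {g | ∀ v ∈ E, (g : EndM) v ∈ E ∧ ((g⁻¹ : GLM) : EndM) v ∈ E}
      one_mem' := fun v hv => by simpa using hv
      mul_mem' := fun {p q} hp hq v hv => by
        rw [mul_inv_rev, apply_mul, apply_mul]
        exact ⟨(hp _ (hq v hv).1).1, (hq _ (hp v hv).2).2⟩
      inv_mem' := fun {p} hp v hv => ⟨(hp v hv).2, by rw [inv_inv]; exact (hp v hv).1⟩ }
  have hs : ∀ s, MinQ G s → qunit s ∈ St := by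
    intro s hs v hv
    rw [coe_qunit hs.sq, coe_qunit_inv hs.sq]
    exact ⟨add_mem hv (hEs s hs v hv), sub_mem hv (hEs s hs v hv)⟩
  have hG : G ≤ St := by
    refine le_trans (le_of_eq hgen.symm) ((Subgroup.closure_le _).2 fun σ hσ => ?_)
    obtain ⟨hq, h0⟩ := mem_quadraticElements_iff.1 hσ
    rw [eq_qunit hq.1]
    rcases mem_comp_or_central h2 h3 hirr hgen hq h0 with hc | ⟨a, -, ha⟩
    · have := qunit_mem_cqGroup hq hc
      exact fun v hv => ⟨hEc _ this v hv, hEc _ (inv_mem this) v hv⟩
    · refine (Subgroup.closure_le _).2 ?_ ha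
      rintro _ ⟨x, hx, rfl⟩
      exact hs x hx.1
  rcases hirr.2 E (fun g hg v hv => (hG hg v hv).1) with h | h
  · exact absurd (eq_bot_iff.2 (h ▸ hWE)) hW
  · refine LinearMap.ker_eq_top.1 (eq_top_iff.2 (h ▸ sInf_le ⟨hk, fun s hs v hv => ?_⟩))
    rw [LinearMap.mem_ker] at hv ⊢
    rw [← Module.End.mul_apply, hf s hs, Module.End.mul_apply, hv, map_zero]

end General

section Restrict

variable {k : Type*} [Field k] {M : Type*} [AddCommGroup M] [Module k M]

/-- Restriction of a group to an invariant subspace. -/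
noncomputable def resHom (C : Subgroup (LinearMap.GeneralLinearGroup k M)) (W : Submodule k M)
    (h : ∀ g ∈ C, ∀ w ∈ W, (g : M →ₗ[k] M) w ∈ W) : C →* LinearMap.GeneralLinearGroup k W :=
  MonoidHom.toHomUnits
    { toFun := fun g => ((g : LinearMap.GeneralLinearGroup k M) : M →ₗ[k] M).restrict (h g g.2)
      map_one' := by ext w; rfl
      map_mul' := fun p q => by ext w; rfl }

theorem resHom_apply (C : Subgroup (LinearMap.GeneralLinearGroup k M)) (W : Submodule k M)
    (h : ∀ g ∈ C, ∀ w ∈ W, (g : M →ₗ[k] M) w ∈ W) (g : C) (w : W) :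
    (((resHom C W h g : LinearMap.GeneralLinearGroup k W) : W →ₗ[k] W) w : M) =
      ((g : LinearMap.GeneralLinearGroup k M) : M →ₗ[k] M) w := rfl

theorem devMap_resHom (C : Subgroup (LinearMap.GeneralLinearGroup k M)) (W : Submodule k M)
    (h : ∀ g ∈ C, ∀ w ∈ W, (g : M →ₗ[k] M) w ∈ W) (g : C) (w : W) :
    (devMap (resHom C W h g) w : M) = devMap (g : LinearMap.GeneralLinearGroup k M) w := by
  rw [devMap_apply, devMap_apply, Submodule.coe_sub, resHom_apply]

end Restrict

universe u

variable {k : Type u} [Field k]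

/-- **The central product decomposition** of a quadratic pair. -/
theorem central_product (h2 : (2 : k) ≠ 0) (h3 : Nat.card k ≠ 3) :
    ∀ (n : ℕ) {M : Type u} [AddCommGroup M] [Module k M] [FiniteDimensional k M]
      (G : Subgroup (LinearMap.GeneralLinearGroup k M)), Module.finrank k M = n → IsQuadraticPair G →
    ∃ (s : ℕ) (Gi : Fin s → Subgroup (LinearMap.GeneralLinearGroup k M)),
      (∀ i, Gi i ≤ G ∧ ∀ g ∈ G, conjBy (Gi i) g = Gi i) ∧ (∀ i j, i ≠ j → ⁅Gi i, Gi j⁆ = ⊥) ∧
      (⨆ i, Gi i) = G ∧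
      (∀ i, IsQuasisimple ↥(Gi i) ∧ Subgroup.closure
        (quadraticElements G ∩ (Gi i : Set (LinearMap.GeneralLinearGroup k M))) = Gi i) ∧
      quadraticElements G ⊆ ⋃ i, (Gi i : Set (LinearMap.GeneralLinearGroup k M)) := by
  intro n
  induction n using Nat.strong_induction_on with
  | _ n ih =>
  intro M _ _ _ G hn hG
  obtain ⟨hirr, hgen⟩ := hG
  by_cases hmin : ∃ a, MinQ G a
  swap
  · have hempty : quadraticElements G = ∅ := Set.eq_empty_iff_forall_notMem.2 fun σ hσ => by
      obtain ⟨hq, h0⟩ := mem_quadraticElements_iff.1 hσ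
      exact hmin (exists_minQ hq h0)
    refine ⟨0, Fin.elim0, fun i => i.elim0, fun i => i.elim0, ?_, fun i => i.elim0, by simp [hempty]⟩
    rw [← hgen, hempty, Subgroup.closure_empty, iSup_of_empty]
  obtain ⟨a, ha⟩ := hmin
  obtain ⟨r, f, hf, hfne, hall⟩ := exists_component_reps h2 h3 hirr hgen
  set C := cqGroup G with hC
  -- a minimal invariant subspace
  let Cand : Submodule k M → Prop := fun U =>
    U ≠ ⊥ ∧ U ≤ LinearMap.ker a ∧ ∀ g ∈ C, ∀ w ∈ U, (g : M →ₗ[k] M) w ∈ U
  have hcand : Cand (LinearMap.ker a) := by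
    refine ⟨fun h => ha.ne_zero (LinearMap.range_eq_bot.1 (le_bot_iff.1 (h ▸ range_le_ker ha.sq))),
      le_rfl, fun g hg w hw => ?_⟩
    rw [LinearMap.mem_ker] at hw ⊢
    rw [← Module.End.mul_apply, ← coe_commute_cqGroup ha hg, Module.End.mul_apply, hw, map_zero]
  classical
  have hexn : ∃ d, ∃ U, Cand U ∧ Module.finrank k U = d := ⟨_, _, hcand, rfl⟩
  obtain ⟨W, ⟨hW0, hWa, hWinv⟩, hWd⟩ := Nat.find_spec hexn
  have hWlt : Module.finrank k W < n := hn ▸ Submodule.finrank_lt fun h =>
    ha.ne_zero (LinearMap.ker_eq_top.1 (eq_top_iff.2 (h ▸ hWa)))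
  set ρ := resHom C W hWinv with hρ
  have hkill : ∀ {e : M →ₗ[k] M}, (∀ s, MinQ G s → e * s = s * e) → (∀ w : W, e w = 0) → e = 0 :=
    fun he hw => eq_zero_of_kills h2 h3 hirr hgen hW0 hWinv he fun w hw' => hw ⟨w, hw'⟩
  have hdevc : ∀ (c : C) s, MinQ G s → devMap (c : LinearMap.GeneralLinearGroup k M) * s =
      s * devMap (c : LinearMap.GeneralLinearGroup k M) := fun c s hs => by
    rw [devMap, sub_mul, mul_sub, one_mul, mul_one, coe_commute_cqGroup hs c.2]
  have hinj : Function.Injective ρ := by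
    refine (injective_iff_map_eq_one ρ).2 fun c hc => Subtype.ext (Units.ext ?_)
    have h0 := hkill (hdevc c) fun w => by
      rw [← devMap_resHom C W hWinv c w, ← hρ, hc, devMap_one]; rfl
    exact sub_eq_zero.1 h0
  -- quadratic elements correspond
  have hback : ∀ c : C, ρ c ∈ quadraticElements ρ.range →
      (c : LinearMap.GeneralLinearGroup k M) ∈ quadraticElements G := by
    intro c hc
    obtain ⟨⟨hsq, hfam⟩, hne⟩ := mem_quadraticElements_iff.1 hc
    set e := devMap (c : LinearMap.GeneralLinearGroup k M)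
    have he2 : e * e = 0 := by
      refine hkill (fun s hs => by rw [mul_assoc, hdevc c s hs, ← mul_assoc, hdevc c s hs, mul_assoc]) fun w => ?_
      rw [Module.End.mul_apply, ← devMap_resHom C W hWinv c w, ← devMap_resHom C W hWinv c (devMap (ρ c) w)]
      show ((devMap (ρ c) * devMap (ρ c)) w : M) = 0
      rw [hsq]; rfl
    refine mem_quadraticElements_iff.2 ⟨⟨he2, fun x => ?_⟩, fun h => hne ?_⟩
    · obtain ⟨h', hh'⟩ := hfam x
      have h1 : devMap (h' : LinearMap.GeneralLinearGroup k M) - x • e = 0 := by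
        refine hkill (fun s hs => by
          rw [sub_mul, mul_sub, hdevc h' s hs, smul_mul_assoc, mul_smul_comm, hdevc c s hs]) fun w => ?_
        rw [LinearMap.sub_apply, LinearMap.smul_apply, ← devMap_resHom C W hWinv h' w,
          ← devMap_resHom C W hWinv c w, ← hρ, hh', devMap_qunit (smul_sq_zero hsq x)]
        simp
      have e1 : qunit (x • e) = (h' : LinearMap.GeneralLinearGroup k M) := by
        apply Units.ext
        rw [coe_qunit (smul_sq_zero he2 x), ← sub_eq_zero.1 h1, devMap]; abel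
      rw [e1]; exact cqGroup_le h'.2
    · refine LinearMap.ext fun w => Subtype.ext ?_
      rw [devMap_resHom, show devMap (c : LinearMap.GeneralLinearGroup k M) = 0 from h]; rfl
  have hfwd : ∀ c : C, (c : LinearMap.GeneralLinearGroup k M) ∈ quadraticElements G →
      (∀ s, MinQ G s → s * devMap (c : LinearMap.GeneralLinearGroup k M) =
        devMap (c : LinearMap.GeneralLinearGroup k M) * s) → ρ c ∈ quadraticElements ρ.range := by
    intro c hc hcent
    obtain ⟨hq, hne⟩ := mem_quadraticElements_iff.1 hc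
    set e := devMap (c : LinearMap.GeneralLinearGroup k M)
    have hsq : devMap (ρ c) * devMap (ρ c) = 0 := by
      refine LinearMap.ext fun w => Subtype.ext ?_
      rw [Module.End.mul_apply, devMap_resHom, devMap_resHom, ← Module.End.mul_apply, hq.1]; rfl
    refine mem_quadraticElements_iff.2 ⟨⟨hsq, fun x => ⟨⟨qunit (x • e),
      qunit_mem_cqGroup (hq.smul x) fun s hs => by
        rw [mul_smul_comm, smul_mul_assoc, hcent s hs]⟩, ?_⟩⟩, fun h => hne ?_⟩
    · apply Units.ext
      refine LinearMap.ext fun w => Subtype.ext ?_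
      rw [resHom_apply, coe_qunit (smul_sq_zero hq.1 x), coe_qunit (smul_sq_zero hsq x)]
      simp only [LinearMap.add_apply, Module.End.one_apply, LinearMap.smul_apply, Submodule.coe_add,
        Submodule.coe_smul, ρ, devMap_resHom]
      rfl
    · refine hkill (fun s hs => (hcent s hs).symm) fun w => ?_
      rw [← devMap_resHom C W hWinv c w, ← hρ, h]; rfl
  have hpair : IsQuadraticPair ρ.range := by
    refine ⟨⟨?_, fun U hU => ?_⟩, le_antisymm ((Subgroup.closure_le _).2 fun x hx => hx.1) ?_⟩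
    · obtain ⟨w, hw, hw0⟩ := Submodule.exists_mem_ne_zero_of_ne_bot hW0
      exact ⟨⟨w, hw⟩, fun h => hw0 (congrArg Subtype.val h)⟩
    · rcases eq_or_ne U ⊥ with h | h
      · exact Or.inl h
      right
      have hc : Cand (U.map W.subtype) := by
        refine ⟨fun h0 => h ?_, (Submodule.map_subtype_le W U).trans hWa, fun g hg w hw => ?_⟩
        · exact Submodule.map_injective_of_injective W.injective_subtype (by rw [h0, Submodule.map_bot])
        · obtain ⟨v, hv, rfl⟩ := hw
          exact ⟨_, hU _ ⟨⟨g, hg⟩, rfl⟩ v hv, rfl⟩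
      have hle := Nat.find_min' hexn ⟨_, hc, rfl⟩
      rw [← hWd, Submodule.finrank_map_subtype_eq] at hle
      exact Submodule.eq_top_of_finrank_eq (le_antisymm (Submodule.finrank_le U) hle)
    · rintro _ ⟨⟨c, hc⟩, rfl⟩
      show ρ ⟨c, hc⟩ ∈ Subgroup.closure (quadraticElements ρ.range)
      have key : ∀ c (hc : c ∈ C), ρ ⟨c, hc⟩ ∈ Subgroup.closure (quadraticElements ρ.range) := by
        intro c hc
        induction hc using Subgroup.closure_induction with
        | mem x hx =>
          obtain ⟨u, ⟨hu, hcu⟩, rfl⟩ := hx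
          rcases eq_or_ne u 0 with rfl | hu0
          · have e : ∀ h : qunit (0 : M →ₗ[k] M) ∈ C, ρ ⟨qunit 0, h⟩ = 1 := fun h => by
              rw [← map_one ρ]; exact congrArg ρ (Subtype.ext qunit_zero)
            exact (e _).symm ▸ one_mem _
          · refine Subgroup.subset_closure ?_
            refine hfwd _ (mem_quadraticElements_iff.2 ?_) ?_
            · rw [devMap_qunit hu.1]; exact ⟨hu, hu0⟩
            · rw [devMap_qunit hu.1]; exact hcu
        | one => exact (congrArg (· ∈ _) (map_one ρ)).mpr (one_mem _)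
        | mul x y hx hy hx' hy' =>
          rw [show (⟨x * y, _⟩ : C) = ⟨x, hx⟩ * ⟨y, hy⟩ from rfl, map_mul]; exact mul_mem hx' hy'
        | inv x hx hx' =>
          rw [show (⟨x⁻¹, _⟩ : C) = (⟨x, hx⟩ : C)⁻¹ from rfl, map_inv]; exact inv_mem hx'
      exact key c hc
  obtain ⟨m, Gi', hGi1, hGi2, -, hGi4, hGi5⟩ := ih _ hWlt ρ.range rfl hpair
  let P : Fin m → Subgroup (LinearMap.GeneralLinearGroup k M) := fun i => ((Gi' i).comap ρ).map C.subtype
  have hPC : ∀ i, P i ≤ C := fun i => Subgroup.map_subtype_le _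
  have hPH : ∀ i j, ⁅P i, compGroup G (f j)⁆ = ⊥ := fun i j => commutator_eq_bot_iff_forall.2
    fun p hp q hq => commute_compGroup (fun x hx => commute_cqGroup hx.1 (hPC i hp)) q hq
  -- every quadratic element lies in a member
  have hcover : ∀ σ ∈ quadraticElements G,
      (∃ j, σ ∈ compGroup G (f j)) ∨ ∃ i, σ ∈ P i := by
    intro σ hσ
    obtain ⟨hq, h0⟩ := mem_quadraticElements_iff.1 hσ
    rcases mem_comp_or_central h2 h3 hirr hgen hq h0 with hc | ⟨b, hb, hσb⟩
    · right
      have hσC : σ ∈ C := by rw [eq_qunit hq.1]; exact qunit_mem_cqGroup hq hc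
      obtain ⟨i, hi⟩ := Set.mem_iUnion.1 (hGi5 (hfwd ⟨σ, hσC⟩ hσ hc))
      exact ⟨i, ⟨⟨σ, hσC⟩, hi, rfl⟩⟩
    · left
      obtain ⟨j, hj⟩ := hall b hb
      refine ⟨j, ?_⟩
      rw [eq_qunit hq.1]
      rwa [compGroup, comp_congr hj.symm] at hσb
  have hHgen : ∀ j, Subgroup.closure (quadraticElements G ∩
      (compGroup G (f j) : Set (LinearMap.GeneralLinearGroup k M))) = compGroup G (f j) := by
    intro j
    refine le_antisymm ((Subgroup.closure_le _).2 Set.inter_subset_right) ?_
    conv_lhs => rw [compGroup]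
    refine (Subgroup.closure_le _).2 ?_
    rintro _ ⟨x, hx, rfl⟩
    exact Subgroup.subset_closure ⟨mem_quadraticElements_iff.2
      (by rw [devMap_qunit hx.1.sq]; exact ⟨hx.1.1, hx.1.ne_zero⟩), qunit_mem_compGroup hx⟩
  refine ⟨r + m, Fin.append (fun j => compGroup G (f j)) P, ?_, ?_, ?_, ?_, ?_⟩
  · intro i
    induction i using Fin.addCases with
    | left j =>
      rw [Fin.append_left]
      exact ⟨compGroup_le _, fun g hg => conjBy_compGroup h2 h3 hirr hgen _ hg⟩
    | right i =>
      rw [Fin.append_right]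
      refine ⟨(hPC i).trans cqGroup_le, fun g hg => conjBy_eq_self_iff.2 ?_⟩
      revert g
      show G ≤ Subgroup.normalizer (P i : Set (LinearMap.GeneralLinearGroup k M))
      refine le_trans (le_of_eq hgen.symm) ((Subgroup.closure_le _).2 fun σ hσ => ?_)
      rcases hcover σ hσ with ⟨j, hj⟩ | ⟨i', hi'⟩
      · exact conjBy_eq_self_iff.1 (conjBy_of_commute fun p hp =>
          (commutator_eq_bot_iff_forall.1 (hPH i j) p hp σ hj).symm)
      · have hle : ∀ c : C, conjBy (P i) (c : LinearMap.GeneralLinearGroup k M) ≤ P i := by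
          rintro c _ ⟨_, ⟨p, hp, rfl⟩, rfl⟩
          refine ⟨c * p * c⁻¹, ?_, rfl⟩
          show ρ (c * p * c⁻¹) ∈ Gi' i
          rw [map_mul, map_mul, map_inv, ← (hGi1 i).2 (ρ c) ⟨c, rfl⟩]
          exact conj_mem_conjBy (ρ c) hp
        have hσC := hPC i' hi'
        refine conjBy_eq_self_iff.1 (le_antisymm (hle ⟨σ, hσC⟩) ?_)
        have := (conjBy_le_iff (g := σ)).2 (hle ⟨σ, hσC⟩⁻¹)
        rwa [conjBy_conjBy, InvMemClass.coe_inv, mul_inv_cancel, conjBy_one] at this
  · intro i j hij
    induction i using Fin.addCases with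
    | left i =>
      induction j using Fin.addCases with
      | left j =>
        rw [Fin.append_left, Fin.append_left]
        exact commutator_compGroup h2 h3 hirr (hfne i j fun e => hij (by rw [e]))
      | right j => rw [Fin.append_left, Fin.append_right, Subgroup.commutator_comm]; exact hPH j i
    | right i =>
      induction j using Fin.addCases with
      | left j => rw [Fin.append_left, Fin.append_right]; exact hPH i j
      | right j =>
        rw [Fin.append_right, Fin.append_right]
        have h := hGi2 i j fun e => hij (by rw [e])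
        rw [commutator_eq_bot_iff_forall] at h ⊢
        rintro _ ⟨p, hp, rfl⟩ _ ⟨q, hq, rfl⟩
        exact congrArg Subtype.val (hinj (show ρ (p * q) = ρ (q * p) by
          rw [map_mul, map_mul]; exact h _ hp _ hq))
  · refine le_antisymm (iSup_le fun i => ?_) (le_trans (le_of_eq hgen.symm)
      ((Subgroup.closure_le _).2 fun σ hσ => ?_))
    · induction i using Fin.addCases with
      | left j => rw [Fin.append_left]; exact compGroup_le _
      | right i => rw [Fin.append_right]; exact (hPC i).trans cqGroup_le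
    · rcases hcover σ hσ with ⟨j, hj⟩ | ⟨i, hi⟩
      · exact Subgroup.mem_iSup_of_mem (Fin.castAdd m j) (by rwa [Fin.append_left])
      · exact Subgroup.mem_iSup_of_mem (Fin.natAdd r i) (by rwa [Fin.append_right])
  · intro i
    induction i using Fin.addCases with
    | left j =>
      rw [Fin.append_left]
      exact ⟨isQuasisimple_compGroup h2 h3 hirr hgen (hf j), hHgen j⟩
    | right i =>
      rw [Fin.append_right]
      have hmap : ((Gi' i).comap ρ).map ρ = Gi' i := Subgroup.map_comap_eq_self (hGi1 i).1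
      refine ⟨Cfsg.Agent.Components.quasisimple_of_mulEquiv
        ((MulEquiv.subgroupCongr hmap.symm).trans ((Subgroup.equivMapOfInjective _ ρ hinj).symm.trans
          (Subgroup.equivMapOfInjective _ C.subtype C.subtype_injective))) (hGi4 i).1, ?_⟩
      refine le_antisymm ((Subgroup.closure_le _).2 Set.inter_subset_right) ?_
      rintro _ ⟨p, hp, rfl⟩
      have hp' : ρ p ∈ Subgroup.closure (quadraticElements ρ.range ∩ (Gi' i : Set _)) :=
        (hGi4 i).2.symm ▸ hp
      have hle : Subgroup.closure (quadraticElements ρ.range ∩ (Gi' i : Set _)) ≤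
          ((Subgroup.closure (quadraticElements G ∩
            (P i : Set (LinearMap.GeneralLinearGroup k M)))).comap C.subtype).map ρ := by
        rw [Subgroup.closure_le]
        rintro x ⟨hx, hxi⟩
        obtain ⟨c, rfl⟩ := hx.1
        exact ⟨c, Subgroup.subset_closure ⟨hback c hx, ⟨c, hxi, rfl⟩⟩, rfl⟩
      obtain ⟨q, hq, hqp⟩ := hle hp'
      exact hinj hqp ▸ hq
  · intro σ hσ
    rcases hcover σ hσ with ⟨j, hj⟩ | ⟨i, hi⟩
    · exact Set.mem_iUnion.2 ⟨Fin.castAdd m j, by rwa [Fin.append_left]⟩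
    · exact Set.mem_iUnion.2 ⟨Fin.natAdd r i, by rwa [Fin.append_right]⟩

end Cfsg.Agent.RootSub.QP
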