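import Cfsg.Agent.RootSub.QP.Commute
import Cfsg.Agent.RootSub.Config

/-! Root groups which are not invertible: commuting, or class two with commutator a root group. -/

set_option autoImplicit false
set_option linter.unusedSimpArgs false

namespace Cfsg.Agent.RootSub.QP

open Cfsg
open scoped commutatorElement

variable {k : Type*} [Field k] {M : Type*} [AddCommGroup M] [Module k M] [FiniteDimensional k M]

local notation "GLM" => LinearMap.GeneralLinearGroup k M
local notation "EndM" => M →ₗ[k] M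

variable {G : Subgroup (LinearMap.GeneralLinearGroup k M)} {s t x y : M →ₗ[k] M}

omit [FiniteDimensional k M] in
theorem commutator_qunit (hx : x * x = 0) (hy : y * y = 0) (h1 : x * y * x = 0)
    (h2' : y * x * y = 0) :
    (⁅qunit x, qunit y⁆ : GLM) = qunit (x * y - y * x) := by
  have e1 : ∀ v : EndM, v * x * x = 0 := fun v => by rw [mul_assoc, hx, mul_zero]
  have e2 : ∀ v : EndM, v * y * y = 0 := fun v => by rw [mul_assoc, hy, mul_zero]
  have e3 : ∀ v : EndM, v * x * y * x = 0 := fun v => by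
    rw [show v * x * y * x = v * (x * y * x) by simp only [mul_assoc], h1, mul_zero]
  have e4 : ∀ v : EndM, v * y * x * y = 0 := fun v => by
    rw [show v * y * x * y = v * (y * x * y) by simp only [mul_assoc], h2', mul_zero]
  have hsq : (x * y - y * x) * (x * y - y * x) = 0 := by
    simp only [mul_sub, sub_mul, ← mul_assoc, h1, h2', e1, e2, zero_mul, sub_zero, zero_sub,
      neg_zero, sub_self]
  apply Units.ext
  rw [commutatorElement_def, Units.val_mul, Units.val_mul, Units.val_mul, coe_qunit hx,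
    coe_qunit hy, coe_qunit_inv hx, coe_qunit_inv hy, coe_qunit hsq]
  simp only [mul_sub, sub_mul, mul_add, add_mul, one_mul, mul_one, ← mul_assoc, hx, hy, h1, h2', e1,
    e2, e3, e4, zero_mul, sub_zero, add_zero, zero_add, zero_sub, neg_zero]
  abel

omit [FiniteDimensional k M] in
theorem sup_eq_closure_root (s t : M →ₗ[k] M) : rootGroup G s ⊔ rootGroup G t =
    Subgroup.closure ((rootGroup G s : Set GLM) ∪ (rootGroup G t : Set GLM)) := by
  rw [Subgroup.sup_eq_closure]

omit [FiniteDimensional k M] in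
theorem commutator_sup_eq_bot (h : ⁅rootGroup G s, rootGroup G t⁆ = ⊥) :
    ⁅rootGroup G s ⊔ rootGroup G t, rootGroup G s ⊔ rootGroup G t⁆ = ⊥ := by
  rw [eq_bot_iff, sup_eq_closure_root]
  refine commutator_closure_le (fun a _ => ?_) (fun a _ => ?_) ?_
  · rw [Subgroup.normalizer_eq_top]; exact Subgroup.mem_top a
  · rw [Subgroup.normalizer_eq_top]; exact Subgroup.mem_top a
  have hc := commutator_eq_bot_iff_forall.1 h
  have hself : ∀ {u : EndM}, ∀ a ∈ rootGroup G u, ∀ b ∈ rootGroup G u, a * b = b * a :=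
    fun {u} a ha b hb => by
      rw [eq_qunit_of_mem ha, eq_qunit_of_mem hb, qunit_commute_iff ha.1.1 hb.1.1,
        mul_eq_zero_of_mem ha hb, mul_eq_zero_of_mem hb ha]
  rintro a (ha | ha) b (hb | hb) <;>
    rw [Subgroup.mem_bot, commutatorElement_eq_one_iff_commute]
  exacts [hself a ha b hb, hc a ha b hb, (hc b hb a ha).symm, hself a ha b hb]

variable (h2 : (2 : k) ≠ 0) (h3 : Nat.card k ≠ 3)

include h2 h3 in
/-- An invertible pair does not generate a nilpotent group of class two. -/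
theorem not_class_two_of_inv (hs : MinQ G s) (ht : MinQ G t) (h : Inv s t)
    (hc : ⁅⁅rootGroup G s ⊔ rootGroup G t, rootGroup G s ⊔ rootGroup G t⁆,
      rootGroup G s ⊔ rootGroup G t⁆ = ⊥) : False := by
  obtain ⟨m, -, he⟩ := h.exists_exact_model hs ht
  set X := rootGroup G s ⊔ rootGroup G t
  set H := (SL2Gen.gam k m.root).map m.glHom
  have hle : H ≤ X := by
    rw [show H = _ from Model.Exact.map_gam (m := m) he hs.sq ht.sq, Subgroup.closure_le]
    rintro _ (⟨c, rfl⟩ | ⟨c, rfl⟩)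
    · exact Subgroup.mem_sup_left
        (qunit_mem_rootGroup (Submodule.smul_mem _ c (self_mem_classSpace hs.1)))
    · exact Subgroup.mem_sup_right
        (qunit_mem_rootGroup (Submodule.smul_mem _ c (self_mem_classSpace ht.1)))
  have hperf : H ≤ ⁅H, H⁆ := by
    rw [← Subgroup.map_commutator]
    exact Subgroup.map_mono
      (SL2Gen.gam_le_commutator h2 h3 m.isUnit_root (m.upperSet_root h2 h3))
  have hbot : H ≤ ⊥ := hc ▸ hperf.trans
    (Subgroup.commutator_mono (hperf.trans (Subgroup.commutator_mono hle hle)) hle)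
  have hmem : (qunit ((1 : k) • s) : GLM) ∈ H :=
    ⟨_, SL2Gen.uu_mem_gam k m.root 1, Model.Exact.map_gen_uu (m := m) he hs.sq 1⟩
  have := Subgroup.mem_bot.1 (hbot hmem)
  rw [one_smul] at this
  exact hs.ne_zero (by rw [← devMap_qunit hs.sq, this, devMap_one])

include h2 h3 in
/-- The annihilation and flag properties of a class against the bracket class. -/
theorem bracket_flag (hirr : IsIrreducibleFor G) (hs : MinQ G s) (ht : MinQ G t) (h : ¬ Inv s t)
    (hz : s * t ≠ t * s) (hx : x ∈ classSpace G s) {w : EndM}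
    (hw : w ∈ classSpace G (s * t - t * s)) :
    x * w = 0 ∧ w * x = 0 ∧
      ∀ v, (s * t - t * s) v = 0 → x v ∈ LinearMap.range (s * t - t * s) := by
  rcases eq_or_ne x 0 with rfl | hx0
  · simp
  obtain ⟨hxm, hxk, hxr⟩ := hs.class_spec hx hx0
  have hni : ¬ Inv x t := fun hi => h ((inv_congr hxk hxr rfl rfl).1 hi)
  have hne := (bracket_mem h2 h3 hs ht h hz hx (self_mem_classSpace ht.1)).2 hx0 ht.ne_zero
  have hxz : x * t ≠ t * x := fun e => hne (sub_eq_zero.2 e)
  obtain ⟨hzm, -⟩ := z_spec h2 h3 hs ht h (sub_ne_zero.2 hz)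
  have hcs : classSpace G (x * t - t * x) = classSpace G (s * t - t * s) :=
    hzm.classSpace_eq (bracket_mem h2 h3 hs ht h hz hx (self_mem_classSpace ht.1)).1 hne
  obtain ⟨y, hy, rfl⟩ := exists_bracket_eq h2 h3 hirr hxm ht hni hxz (hcs.symm ▸ hw)
  have hxx : x ∈ classSpace G x := self_mem_classSpace hxm.1
  have h0 := xyx_eq_zero h2 h3 hxm ht hni hxx hxx hy
  refine ⟨?_, ?_, fun v hv => ?_⟩
  · rw [mul_sub, ← mul_assoc, ← mul_assoc, hxm.sq, zero_mul, h0, sub_zero]
  · rw [sub_mul, h0, mul_assoc y x x, hxm.sq, mul_zero, sub_zero]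
  · obtain ⟨-, hr, hk, -⟩ := z_spec h2 h3 hs ht h (sub_ne_zero.2 hz)
    obtain ⟨-, -, -, -, hxt⟩ := z_spec h2 h3 hxm ht hni (sub_ne_zero.2 hxz)
    have hv' : v ∈ zKer s t := hk ▸ LinearMap.mem_ker.2 hv
    obtain ⟨a, ⟨u, rfl⟩, c, hc, rfl⟩ := Submodule.mem_sup.1 hv'.2
    rw [map_add, LinearMap.mem_ker.1 (hxk ▸ hc : c ∈ LinearMap.ker x), add_zero, hr]
    refine Submodule.mem_sup_left ?_
    rw [← hxr, ← hxt]
    exact LinearMap.mem_range_self (x * t) u

include h2 h3 in
/-- The commutator of the two root groups is the root group of the bracket, and the pair lies in its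
unipotent core. -/
theorem commutator_case (hirr : IsIrreducibleFor G) (hs : MinQ G s) (ht : MinQ G t)
    (h : ¬ Inv s t) (hz : s * t ≠ t * s) :
    ⁅rootGroup G s, rootGroup G t⁆ = rootGroup G (s * t - t * s) ∧
    (∀ e ∈ rootGroup G s, e ≠ 1 → Subgroup.closure
      ((fun f : GLM => e * f * e⁻¹ * f⁻¹) '' (rootGroup G t : Set GLM)) = ⁅rootGroup G s, rootGroup G t⁆) ∧
    (∀ f ∈ rootGroup G t, f ≠ 1 → Subgroup.closure
      ((fun e : GLM => e * f * e⁻¹ * f⁻¹) '' (rootGroup G s : Set GLM)) = ⁅rootGroup G s, rootGroup G t⁆) ∧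
    (∀ c ∈ ⁅rootGroup G s, rootGroup G t⁆, ∀ g ∈ rootGroup G s ⊔ rootGroup G t, c * g = g * c) ∧
    ⁅rootGroup G s ⊔ rootGroup G t, rootGroup G s ⊔ rootGroup G t⁆ ≠ ⊥ ∧
    ⁅⁅rootGroup G s ⊔ rootGroup G t, rootGroup G s ⊔ rootGroup G t⁆,
      rootGroup G s ⊔ rootGroup G t⁆ = ⊥ ∧
    ((rootGroup G s ⊔ rootGroup G t : Subgroup GLM) : Set GLM) ⊆
      quadraticUnipotentCore G ⁅rootGroup G s, rootGroup G t⁆ := by
  obtain ⟨hzm, -⟩ := z_spec h2 h3 hs ht h (sub_ne_zero.2 hz)
  have h' : ¬ Inv t s := fun hi => h hi.symm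
  set z := s * t - t * s with hzdef
  have hzneg : classSpace G (t * s - s * t) = classSpace G z := by
    rw [hzdef, ← neg_sub (s * t) (t * s)]
    exact classSpace_congr (LinearMap.ker_neg _) (LinearMap.range_neg _)
  have hcomm : ∀ a ∈ rootGroup G s, ∀ b ∈ rootGroup G t,
      ⁅a, b⁆ = qunit (devMap a * devMap b - devMap b * devMap a) ∧ ⁅a, b⁆ ∈ rootGroup G z := by
    intro a ha b hb
    have e := commutator_qunit (k := k) (M := M) ha.1.1 hb.1.1
      (xyx_eq_zero h2 h3 hs ht h ha ha hb) (xyx_eq_zero h2 h3 ht hs h' hb hb ha)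
    rw [← eq_qunit_of_mem ha, ← eq_qunit_of_mem hb] at e
    exact ⟨e, e ▸ qunit_mem_rootGroup (bracket_mem h2 h3 hs ht h hz ha hb).1⟩
  have hLle : ⁅rootGroup G s, rootGroup G t⁆ ≤ rootGroup G z :=
    Subgroup.commutator_le.2 fun a ha b hb => (hcomm a ha b hb).2
  have hleft : ∀ e ∈ rootGroup G s, e ≠ 1 → ∀ w ∈ rootGroup G z,
      ∃ f ∈ rootGroup G t, e * f * e⁻¹ * f⁻¹ = w := by
    intro e he he1 w hw
    have hx0 : devMap e ≠ 0 := fun h0 => he1 (by rw [eq_qunit_of_mem he, h0, qunit_zero])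
    obtain ⟨hxm, hxk, hxr⟩ := hs.class_spec he hx0
    have hni : ¬ Inv (devMap e) t := fun hi => h ((inv_congr hxk hxr rfl rfl).1 hi)
    have hb := bracket_mem h2 h3 hs ht h hz he (self_mem_classSpace ht.1)
    have hne := hb.2 hx0 ht.ne_zero
    have hcs : classSpace G (devMap e * t - t * devMap e) = classSpace G z :=
      hzm.classSpace_eq hb.1 hne
    obtain ⟨y, hy, hyw⟩ := exists_bracket_eq h2 h3 hirr hxm ht hni
      (fun he' => hne (sub_eq_zero.2 he')) (w := devMap w) (hcs.symm ▸ hw)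
    refine ⟨qunit y, qunit_mem_rootGroup hy, ?_⟩
    rw [← commutatorElement_def, (hcomm e he _ (qunit_mem_rootGroup hy)).1, devMap_qunit hy.1.1, hyw,
      ← eq_qunit_of_mem hw]
  have hright : ∀ f ∈ rootGroup G t, f ≠ 1 → ∀ w ∈ rootGroup G z,
      ∃ e ∈ rootGroup G s, e * f * e⁻¹ * f⁻¹ = w := by
    intro f hf hf1 w hw
    have hy0 : devMap f ≠ 0 := fun h0 => hf1 (by rw [eq_qunit_of_mem hf, h0, qunit_zero])
    obtain ⟨hym, hyk, hyr⟩ := ht.class_spec hf hy0
    have hni : ¬ Inv (devMap f) s := fun hi => h' ((inv_congr hyk hyr rfl rfl).1 hi)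
    have hb := bracket_mem h2 h3 ht hs h' (Ne.symm hz) hf (self_mem_classSpace hs.1)
    rw [hzneg] at hb
    have hne := hb.2 hy0 hs.ne_zero
    have hcs : classSpace G (devMap f * s - s * devMap f) = classSpace G z :=
      hzm.classSpace_eq hb.1 hne
    have hw' : -devMap w ∈ classSpace G (devMap f * s - s * devMap f) := hcs.symm ▸ neg_mem hw
    obtain ⟨x, hx, hxw⟩ := exists_bracket_eq h2 h3 hirr hym hs hni
      (fun he' => hne (sub_eq_zero.2 he')) hw'
    refine ⟨qunit x, qunit_mem_rootGroup hx, ?_⟩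
    rw [← commutatorElement_def, (hcomm _ (qunit_mem_rootGroup hx) f hf).1, devMap_qunit hx.1.1,
      ← neg_sub (devMap f * x) (x * devMap f), hxw, neg_neg, ← eq_qunit_of_mem hw]
  obtain ⟨a, ha, ha1⟩ := Pair.exists_ne_one (rootGroup_ne_bot hs)
  have hL : ⁅rootGroup G s, rootGroup G t⁆ = rootGroup G z := by
    refine le_antisymm hLle fun w hw => ?_
    obtain ⟨b, hb, rfl⟩ := hleft a ha ha1 w hw
    rw [← commutatorElement_def]
    exact Subgroup.commutator_mem_commutator ha hb
  have hflag : ∀ g ∈ (rootGroup G s : Set GLM) ∪ (rootGroup G t : Set GLM), ∀ w ∈ classSpace G z,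
      devMap g * w = 0 ∧ w * devMap g = 0 ∧ ∀ v, z v = 0 → devMap g v ∈ LinearMap.range z := by
    rintro g (hg | hg) w hw
    · exact bracket_flag h2 h3 hirr hs ht h hz hg hw
    · obtain ⟨a1, a2, a3⟩ := bracket_flag h2 h3 hirr ht hs h' (Ne.symm hz) hg (hzneg.symm ▸ hw)
      refine ⟨a1, a2, fun v hv => ?_⟩
      have e : t * s - s * t = -z := by rw [hzdef, neg_sub]
      rw [e, LinearMap.range_neg] at a3
      exact a3 v (by simp [hv])
  have hcent : ∀ c ∈ rootGroup G z, ∀ g ∈ rootGroup G s ⊔ rootGroup G t, c * g = g * c := by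
    intro c hc
    refine forall_sup_commute (fun g hg => ?_) fun g hg => ?_ <;>
      rw [eq_qunit_of_mem hc, eq_qunit_of_mem hg, qunit_commute_iff hc.1.1 hg.1.1]
    · obtain ⟨a1, a2, -⟩ := hflag g (Or.inl hg) _ hc; rw [a1, a2]
    · obtain ⟨a1, a2, -⟩ := hflag g (Or.inr hg) _ hc; rw [a1, a2]
  refine ⟨hL, fun e he he1 => ?_, fun f hf hf1 => ?_, hL ▸ hcent, ?_, ?_, ?_⟩
  · refine le_antisymm ((Subgroup.closure_le _).2 ?_) fun w hw => ?_
    · rintro _ ⟨f, hf, rfl⟩
      exact Subgroup.commutator_mem_commutator he hf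
    · exact Subgroup.subset_closure (hleft e he he1 w (hL ▸ hw))
  · refine le_antisymm ((Subgroup.closure_le _).2 ?_) fun w hw => ?_
    · rintro _ ⟨e, he, rfl⟩
      exact Subgroup.commutator_mem_commutator he hf
    · exact Subgroup.subset_closure (hright f hf hf1 w (hL ▸ hw))
  · intro h0
    refine rootGroup_ne_bot hzm ?_
    rw [← hL, eq_bot_iff, ← h0]
    exact Subgroup.commutator_mono le_sup_left le_sup_right
  · have hXX : ⁅rootGroup G s ⊔ rootGroup G t, rootGroup G s ⊔ rootGroup G t⁆ ≤ rootGroup G z := by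
      rw [sup_eq_closure_root]
      have hn : ∀ g ∈ (rootGroup G s : Set GLM) ∪ (rootGroup G t : Set GLM),
          g ∈ Subgroup.normalizer (rootGroup G z : Set GLM) := by
        intro g hg
        refine conjBy_eq_self_iff.1 (conjBy_of_commute fun c hc => (hcent c hc g ?_).symm)
        rw [sup_eq_closure_root]; exact Subgroup.subset_closure hg
      have hself : ∀ {u : EndM}, ∀ p ∈ rootGroup G u, ∀ q ∈ rootGroup G u, ⁅p, q⁆ ∈ rootGroup G z :=
        fun {u} p hp q hq => by
          rw [commutatorElement_eq_one_iff_commute.2 (by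
            show p * q = q * p
            rw [eq_qunit_of_mem hp, eq_qunit_of_mem hq, qunit_commute_iff hp.1.1 hq.1.1,
              mul_eq_zero_of_mem hp hq, mul_eq_zero_of_mem hq hp])]
          exact one_mem _
      refine commutator_closure_le hn hn ?_
      rintro p (hp | hp) q (hq | hq)
      · exact hself p hp q hq
      · exact (hcomm p hp q hq).2
      · rw [← commutatorElement_inv]; exact inv_mem (hcomm q hq p hp).2
      · exact hself p hp q hq
    rw [eq_bot_iff]
    refine (Subgroup.commutator_mono hXX le_rfl).trans (le_of_eq ?_)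
    rw [commutator_eq_bot_iff_forall]
    exact hcent
  · rw [hL]
    intro g hg
    show g ∈ G ∧ g ∈ Subgroup.normalizer (rootGroup G z : Set GLM) ∧
      (∀ m : M, (g : EndM) m - m ∈ fixedSubmodule (rootGroup G z)) ∧
      (∀ m ∈ fixedSubmodule (rootGroup G z), (g : EndM) m - m ∈ commutatorSubmodule (rootGroup G z)) ∧
      ∀ m ∈ commutatorSubmodule (rootGroup G z), (g : EndM) m = m
    rw [fixedSubmodule_rootGroup hzm.1, commutatorSubmodule_rootGroup hzm.1]
    refine ⟨sup_le (rootGroup_le s) (rootGroup_le t) hg,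
      conjBy_eq_self_iff.1 (conjBy_of_commute fun c hc => (hcent c hc g hg).symm), ?_⟩
    have hgen : ∀ g ∈ (rootGroup G s : Set GLM) ∪ (rootGroup G t : Set GLM),
        (∀ m : M, (g : EndM) m - m ∈ LinearMap.ker z) ∧
        (∀ m ∈ LinearMap.ker z, (g : EndM) m - m ∈ LinearMap.range z) ∧
        ∀ m ∈ LinearMap.range z, (g : EndM) m = m := by
      intro g hg
      obtain ⟨a1, a2, a3⟩ := hflag g hg z (self_mem_classSpace hzm.1)
      refine ⟨fun m => ?_, fun m hm => ?_, ?_⟩
      · rw [← devMap_apply]; exact LinearMap.congr_fun a2 m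
      · rw [← devMap_apply]; exact a3 m hm
      · rintro _ ⟨u, rfl⟩
        rw [← sub_eq_zero, ← devMap_apply]; exact LinearMap.congr_fun a1 u
    rw [sup_eq_closure_root] at hg
    induction hg using Subgroup.closure_induction'' with
    | mem g hg => exact hgen g hg
    | inv_mem g hg =>
      refine hgen _ ?_
      rcases hg with hg | hg
      exacts [Or.inl (inv_mem hg), Or.inr (inv_mem hg)]
    | one => simp
    | mul p q _ _ hp hq =>
      refine ⟨fun m => ?_, fun m hm => ?_, fun m hm => ?_⟩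
      · rw [← sub_add_sub_cancel _ ((q : EndM) m) m]
        exact add_mem (hp.1 _) (hq.1 m)
      · rw [← sub_add_sub_cancel _ ((q : EndM) m) m]
        refine add_mem (hp.2.1 _ ?_) (hq.2.1 m hm)
        have := add_mem (range_le_ker hzm.sq (hq.2.1 m hm)) hm
        rwa [sub_add_cancel] at this
      · rw [apply_mul, hq.2.2 m hm, hp.2.2 m hm]

end Cfsg.Agent.RootSub.QP
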