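import Cfsg.Agent.RootSub.QP.Model

/-!
# Classes of minimal quadratic endomorphisms

The class of `s` consists of the quadratic endomorphisms with the same kernel and range, and `0`.
-/

set_option autoImplicit false
set_option linter.unusedSimpArgs false

namespace Cfsg.Agent.RootSub.QP

open Cfsg

variable {k : Type*} [Field k] {M : Type*} [AddCommGroup M] [Module k M]

local notation "GLM" => LinearMap.GeneralLinearGroup k M
local notation "EndM" => M →ₗ[k] M

variable (G : Subgroup (LinearMap.GeneralLinearGroup k M))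

/-- The class of `s` with `0`, as a subspace of endomorphisms. -/
def classSpace (s : M →ₗ[k] M) : Submodule k (M →ₗ[k] M) where
  carrier := {x | QEl G x ∧ LinearMap.ker s ⊔ LinearMap.range s ≤ LinearMap.ker x ∧
    LinearMap.range x ≤ LinearMap.range s}
  zero_mem' := ⟨QEl.zero, by simp, by simp⟩
  add_mem' := by
    rintro x y ⟨hx, hxk, hxr⟩ ⟨hy, hyk, hyr⟩
    have h0 : ∀ {a b : M →ₗ[k] M}, LinearMap.ker s ⊔ LinearMap.range s ≤ LinearMap.ker a →
        LinearMap.range b ≤ LinearMap.range s → a * b = 0 := fun {a b} ha hb =>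
      LinearMap.range_le_ker_iff.1 (hb.trans (le_sup_right.trans ha))
    refine ⟨hx.add hy (h0 hxk hyr) (h0 hyk hxr), fun v hv => ?_, ?_⟩
    · simp [LinearMap.mem_ker.1 (hxk hv), LinearMap.mem_ker.1 (hyk hv)]
    · rintro _ ⟨v, rfl⟩
      exact add_mem (hxr (LinearMap.mem_range_self x v)) (hyr (LinearMap.mem_range_self y v))
  smul_mem' := by
    rintro c x ⟨hx, hxk, hxr⟩
    refine ⟨hx.smul c, fun v hv => ?_, ?_⟩
    · simp [LinearMap.mem_ker.1 (hxk hv)]
    · rintro _ ⟨v, rfl⟩
      exact Submodule.smul_mem _ c (hxr (LinearMap.mem_range_self x v))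

/-- The root group of `s`. -/
def rootGroup (s : M →ₗ[k] M) : Subgroup (LinearMap.GeneralLinearGroup k M) where
  carrier := {g | devMap g ∈ classSpace G s}
  one_mem' := by simp only [Set.mem_setOf_eq, devMap_one]; exact zero_mem _
  mul_mem' := fun {a b} ha hb => by
    have h0 : devMap a * devMap b = 0 :=
      LinearMap.range_le_ker_iff.1 (hb.2.2.trans (le_sup_right.trans ha.2.1))
    have e : devMap (a * b) = devMap a * devMap b + devMap a + devMap b := by
      simp only [devMap, Units.val_mul, sub_mul, mul_sub, one_mul, mul_one]; abel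
    show devMap (a * b) ∈ classSpace G s
    rw [e, h0, zero_add]
    exact add_mem ha hb
  inv_mem' := fun {a} ha => by
    show devMap a⁻¹ ∈ classSpace G s
    rw [devMap, sub_one_inv ha.1.1]
    exact neg_mem ha

variable {G}

theorem mem_rootGroup {s : EndM} {g : GLM} : g ∈ rootGroup G s ↔ devMap g ∈ classSpace G s :=
  Iff.rfl

theorem qunit_mem_rootGroup {s x : EndM} (hx : x ∈ classSpace G s) : qunit x ∈ rootGroup G s := by
  rw [mem_rootGroup, devMap_qunit hx.1.1]; exact hx

theorem eq_qunit_of_mem {s : EndM} {g : GLM} (hg : g ∈ rootGroup G s) : g = qunit (devMap g) :=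
  eq_qunit hg.1.1

theorem rootGroup_le (s : EndM) : rootGroup G s ≤ G := fun g hg => by
  rw [eq_qunit_of_mem hg]; exact hg.1.qunit_mem

theorem mul_eq_zero_of_mem {s x y : EndM} (hx : x ∈ classSpace G s) (hy : y ∈ classSpace G s) :
    x * y = 0 := LinearMap.range_le_ker_iff.1 (hy.2.2.trans (le_sup_right.trans hx.2.1))

theorem range_le_ker {s : EndM} (h : s * s = 0) : LinearMap.range s ≤ LinearMap.ker s :=
  LinearMap.range_le_ker_iff.2 h

theorem self_mem_classSpace {s : EndM} (hs : QEl G s) : s ∈ classSpace G s :=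
  ⟨hs, sup_le le_rfl (range_le_ker hs.1), le_rfl⟩

theorem classSpace_congr {s t : EndM} (hk : LinearMap.ker t = LinearMap.ker s)
    (hr : LinearMap.range t = LinearMap.range s) : classSpace G t = classSpace G s := by
  ext x
  show _ ∧ _ ∧ _ ↔ _ ∧ _ ∧ _
  rw [hk, hr]

theorem rootGroup_congr {s t : EndM} (hk : LinearMap.ker t = LinearMap.ker s)
    (hr : LinearMap.range t = LinearMap.range s) : rootGroup G t = rootGroup G s := by
  ext g; rw [mem_rootGroup, mem_rootGroup, classSpace_congr hk hr]

theorem mem_rootGroup_iff {s : EndM} {g : GLM} :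
    g ∈ rootGroup G s ↔ ∃ x ∈ classSpace G s, qunit x = g :=
  ⟨fun hg => ⟨_, hg, (eq_qunit_of_mem hg).symm⟩, by rintro ⟨x, hx, rfl⟩; exact qunit_mem_rootGroup hx⟩

/-- Conjugation moves the class. -/
theorem conj_mem_classSpace {s x : EndM} {g : GLM} (hg : g ∈ G) (hx : x ∈ classSpace G s) :
    (g : EndM) * x * ((g⁻¹ : GLM) : EndM) ∈
      classSpace G ((g : EndM) * s * ((g⁻¹ : GLM) : EndM)) := by
  refine ⟨hx.1.conj hg, ?_, ?_⟩
  · rw [ker_conj, ker_conj, range_conj, ← Submodule.map_sup]
    exact Submodule.map_mono hx.2.1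
  · rw [range_conj, range_conj]; exact Submodule.map_mono hx.2.2

theorem conj_conj_inv (g : GLM) (x : EndM) :
    ((g⁻¹ : GLM) : EndM) * ((g : EndM) * x * ((g⁻¹ : GLM) : EndM)) * ((g⁻¹⁻¹ : GLM) : EndM) = x := by
  have h : ((g⁻¹ : GLM) : EndM) * (g : EndM) = 1 := g.inv_mul
  rw [inv_inv, ← mul_assoc, ← mul_assoc, h, one_mul, mul_assoc, h, mul_one]

theorem conjBy_rootGroup (s : EndM) {g : GLM} (hg : g ∈ G) :
    conjBy (rootGroup G s) g = rootGroup G ((g : EndM) * s * ((g⁻¹ : GLM) : EndM)) := by
  ext a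
  rw [mem_conjBy]
  constructor
  · intro ha
    obtain ⟨x, hx, hxa⟩ := mem_rootGroup_iff.1 ha
    refine mem_rootGroup_iff.2 ⟨_, conj_mem_classSpace hg hx, ?_⟩
    rw [← qunit_conj hx.1.1, hxa]; group
  · intro ha
    obtain ⟨x, hx, rfl⟩ := mem_rootGroup_iff.1 ha
    have h := conj_mem_classSpace (inv_mem hg) hx
    rw [conj_conj_inv] at h
    refine mem_rootGroup_iff.2 ⟨_, h, ?_⟩
    rw [← qunit_conj hx.1.1]; group

variable [FiniteDimensional k M]

theorem MinQ.class_spec {s x : EndM} (hs : MinQ G s) (hx : x ∈ classSpace G s) (h0 : x ≠ 0) :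
    MinQ G x ∧ LinearMap.ker x = LinearMap.ker s ∧ LinearMap.range x = LinearMap.range s := by
  have hle : rk x ≤ rk s := Submodule.finrank_mono hx.2.2
  have hm := hs.of_rk_le hx.1 h0 hle
  refine ⟨hm, (Submodule.eq_of_le_of_finrank_le (le_sup_left.trans hx.2.1) ?_).symm,
    Submodule.eq_of_le_of_finrank_le hx.2.2 (hs.rk_eq hm).le⟩
  have h1 := LinearMap.finrank_range_add_finrank_ker x
  have h2 := LinearMap.finrank_range_add_finrank_ker s
  have h3 : rk s = rk x := hs.rk_eq hm
  simp only [rk] at h3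
  omega

theorem MinQ.classSpace_eq {s x : EndM} (hs : MinQ G s) (hx : x ∈ classSpace G s) (h0 : x ≠ 0) :
    classSpace G x = classSpace G s :=
  classSpace_congr (hs.class_spec hx h0).2.1 (hs.class_spec hx h0).2.2

theorem MinQ.rootGroup_eq {s x : EndM} (hs : MinQ G s) (hx : x ∈ classSpace G s) (h0 : x ≠ 0) :
    rootGroup G x = rootGroup G s :=
  rootGroup_congr (hs.class_spec hx h0).2.1 (hs.class_spec hx h0).2.2

theorem sameActionSubgroup_eq {σ : GLM} (hσ : σ ∈ minimalQuadraticElements G) :
    sameActionSubgroup G σ = rootGroup G (devMap σ) := by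
  have hs := mem_minimalQuadraticElements_iff.1 hσ
  apply SetLike.coe_injective
  rw [sameActionSubgroup_coe hσ]
  ext g
  constructor
  · rintro (⟨hg, hk, hr⟩ | rfl)
    · have := self_mem_classSpace (mem_minimalQuadraticElements_iff.1 hg).1
      exact mem_rootGroup.2 ((classSpace_congr (G := G) (s := devMap σ) (t := devMap g) hk hr) ▸ this)
    · exact one_mem _
  · intro hg
    rcases eq_or_ne (devMap g) 0 with h0 | h0
    · exact Or.inr (Units.ext (sub_eq_zero.1 h0))
    · obtain ⟨hm, hk, hr⟩ := hs.class_spec hg h0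
      exact Or.inl ⟨mem_minimalQuadraticElements_iff.2 hm, hk, hr⟩

theorem mem_quadraticRootSubgroups_iff {A : Subgroup (LinearMap.GeneralLinearGroup k M)} :
    A ∈ quadraticRootSubgroups G ↔ ∃ s, MinQ G s ∧ A = rootGroup G s := by
  constructor
  · rintro ⟨σ, hσ, rfl⟩
    exact ⟨_, mem_minimalQuadraticElements_iff.1 hσ, sameActionSubgroup_eq hσ⟩
  · rintro ⟨s, hs, rfl⟩
    have hσ : qunit s ∈ minimalQuadraticElements G :=
      mem_minimalQuadraticElements_iff.2 (by rwa [devMap_qunit hs.sq])
    exact ⟨_, hσ, by rw [sameActionSubgroup_eq hσ, devMap_qunit hs.sq]⟩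

theorem rootGroup_ne_bot {s : EndM} (hs : MinQ G s) : rootGroup G s ≠ ⊥ := fun h => by
  have := h ▸ qunit_mem_rootGroup (self_mem_classSpace hs.1)
  rw [Subgroup.mem_bot] at this
  exact hs.ne_zero (by rw [← devMap_qunit hs.sq, this, devMap_one])

omit [FiniteDimensional k M] in
theorem mem_fixedSubmodule {H : Subgroup (LinearMap.GeneralLinearGroup k M)} {v : M} :
    v ∈ fixedSubmodule H ↔ ∀ g ∈ H, devMap g v = 0 := by
  simp [fixedSubmodule, devMap, Submodule.mem_iInf]

omit [FiniteDimensional k M] in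
theorem fixedSubmodule_rootGroup {s : EndM} (hs : QEl G s) :
    fixedSubmodule (rootGroup G s) = LinearMap.ker s := by
  ext v
  rw [mem_fixedSubmodule]
  refine ⟨fun h => ?_, fun hv g hg => hg.2.1 (Submodule.mem_sup_left hv)⟩
  have := h _ (qunit_mem_rootGroup (self_mem_classSpace hs))
  rwa [devMap_qunit hs.1] at this

omit [FiniteDimensional k M] in
theorem commutatorSubmodule_rootGroup {s : EndM} (hs : QEl G s) :
    commutatorSubmodule (rootGroup G s) = LinearMap.range s := by
  refine le_antisymm (iSup₂_le fun g hg => hg.2.2) ?_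
  refine le_trans (le_of_eq ?_) (le_iSup₂ (f := fun (g : GLM) (_ : g ∈ rootGroup G s) =>
    LinearMap.range ((g : EndM) - 1)) _ (qunit_mem_rootGroup (self_mem_classSpace hs)))
  show _ = LinearMap.range (devMap (qunit s : GLM))
  rw [devMap_qunit hs.1]

/-- The product of the two restrictions: rank of a product. -/
theorem rk_mul (a b : EndM) :
    rk (a * b) + Module.finrank k (LinearMap.range b ⊓ LinearMap.ker a : Submodule k M) = rk b := by
  have h := LinearMap.finrank_range_add_finrank_ker (a.domRestrict (LinearMap.range b))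
  have e1 : LinearMap.range (a.domRestrict (LinearMap.range b)) = LinearMap.range (a * b) := by
    rw [LinearMap.range_domRestrict, Module.End.mul_eq_comp, LinearMap.range_comp]
  have e2 : LinearMap.ker (a.domRestrict (LinearMap.range b)) =
      (LinearMap.range b ⊓ LinearMap.ker a : Submodule k M).comap (LinearMap.range b).subtype := by
    ext x
    simp only [LinearMap.mem_ker, LinearMap.domRestrict_apply, Submodule.mem_comap,
      Submodule.subtype_apply, Submodule.mem_inf, SetLike.coe_mem, true_and]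
  have e3 := (Submodule.comapSubtypeEquivOfLe (inf_le_left : LinearMap.range b ⊓ LinearMap.ker a ≤
    LinearMap.range b)).finrank_eq
  rw [e1, e2, e3] at h
  exact h

/-- An invertible pair. -/
def Inv (s t : EndM) : Prop :=
  LinearMap.range s ⊓ LinearMap.ker t = ⊥ ∧ LinearMap.range t ⊓ LinearMap.ker s = ⊥

omit [FiniteDimensional k M] in
theorem Inv.symm {s t : EndM} (h : Inv s t) : Inv t s := ⟨h.2, h.1⟩

omit [FiniteDimensional k M] in
theorem inv_congr {s t s' t' : EndM} (hsk : LinearMap.ker s' = LinearMap.ker s)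
    (hsr : LinearMap.range s' = LinearMap.range s) (htk : LinearMap.ker t' = LinearMap.ker t)
    (htr : LinearMap.range t' = LinearMap.range t) : Inv s' t' ↔ Inv s t := by
  rw [Inv, Inv, hsk, hsr, htk, htr]

theorem Inv.map_range {s t : EndM} (hs : MinQ G s) (ht : MinQ G t) (h : Inv s t) :
    LinearMap.range (t * s) = LinearMap.range t := by
  refine Submodule.eq_of_le_of_finrank_le (LinearMap.range_comp_le_range s t) ?_
  have h1 := rk_mul t s
  rw [h.1, finrank_bot, add_zero] at h1
  exact ((ht.rk_eq hs).trans h1.symm).le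

theorem Inv.range_sts {s t : EndM} (hs : MinQ G s) (ht : MinQ G t) (h : Inv s t) :
    LinearMap.range (s * t * s) = LinearMap.range s := by
  rw [mul_assoc, Module.End.mul_eq_comp s (t * s), LinearMap.range_comp, h.map_range hs ht,
    ← LinearMap.range_comp, ← Module.End.mul_eq_comp, h.symm.map_range ht hs]

theorem inv_of_range_sts {s t : EndM} (hs : MinQ G s) (ht : MinQ G t)
    (h : LinearMap.range (s * t * s) = LinearMap.range s) : Inv s t := by
  have h1 := rk_mul (s * t) s
  have h2 := rk_mul t s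
  have h3 := rk_mul s (t * s)
  have hr : rk (s * t * s) = rk s := by rw [rk, h]; rfl
  rw [show s * (t * s) = s * t * s from (mul_assoc _ _ _).symm, hr] at h3
  have hts : rk (t * s) ≤ rk t := Submodule.finrank_mono (LinearMap.range_comp_le_range s t)
  have hst := hs.rk_eq ht
  have e1 : Module.finrank k (LinearMap.range s ⊓ LinearMap.ker t : Submodule k M) = 0 := by omega
  have e2 : Module.finrank k (LinearMap.range (t * s) ⊓ LinearMap.ker s : Submodule k M) = 0 := by omega
  have e3 : LinearMap.range (t * s) = LinearMap.range t :=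
    Submodule.eq_of_le_of_finrank_le (LinearMap.range_comp_le_range s t)
      (show rk t ≤ rk (t * s) by omega)
  rw [e3] at e2
  exact ⟨Submodule.finrank_eq_zero.1 e1, Submodule.finrank_eq_zero.1 e2⟩

variable (h2 : (2 : k) ≠ 0) (h3 : Nat.card k ≠ 3)

include h2 h3 in
/-- A pair which is not invertible has `s t s = 0`. -/
theorem sts_eq_zero {s t : EndM} (hs : MinQ G s) (ht : MinQ G t) (h : ¬ Inv s t) :
    s * t * s = 0 :=
  (sts_eq_zero_or_range h2 h3 hs ht).resolve_right fun hr => h (inv_of_range_sts hs ht hr)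

include h2 h3 in
/-- Three alternating members of two classes multiply to zero. -/
theorem xyx_eq_zero {s t : EndM} (hs : MinQ G s) (ht : MinQ G t) (h : ¬ Inv s t) {x x' y : EndM}
    (hx : x ∈ classSpace G s) (hx' : x' ∈ classSpace G s) (hy : y ∈ classSpace G t) :
    x * y * x' = 0 := by
  rcases eq_or_ne y 0 with rfl | hy0
  · simp
  obtain ⟨hym, hyk, hyr⟩ := ht.class_spec hy hy0
  have h0 := sts_eq_zero h2 h3 hs hym (fun hi => h ((inv_congr rfl rfl hyk hyr).1 hi))
  ext v
  obtain ⟨w, hw⟩ := hx'.2.2 (LinearMap.mem_range_self x' v)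
  simp only [Module.End.mul_apply, LinearMap.zero_apply, ← hw]
  refine LinearMap.mem_ker.1 (hx.2.1 (Submodule.mem_sup_left ?_))
  exact LinearMap.congr_fun h0 w

include h2 h3 in
/-- Classes which are not invertible generate a unipotent group. -/
theorem isUnipotentOn_of_not_inv {s t : EndM} (hs : MinQ G s) (ht : MinQ G t) (h : ¬ Inv s t) :
    IsUnipotentOn (rootGroup G s ⊔ rootGroup G t) := by
  rw [Subgroup.sup_eq_closure]
  refine isUnipotentOn_closure _ 3 fun l hl hlen => ?_
  obtain ⟨a, b, c, rfl⟩ := List.length_eq_three.1 hlen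
  have ha := hl a (by simp); have hb := hl b (by simp); have hc := hl c (by simp)
  simp only [List.map_cons, List.map_nil, List.prod_cons, List.prod_nil, mul_one, ← mul_assoc]
  have h' : ¬ Inv t s := fun hi => h hi.symm
  rcases ha with ha | ha <;> rcases hb with hb | hb <;> rcases hc with hc | hc
  · rw [mul_eq_zero_of_mem ha hb, zero_mul]
  · rw [mul_eq_zero_of_mem ha hb, zero_mul]
  · exact xyx_eq_zero h2 h3 hs ht h ha hc hb
  · rw [mul_assoc, mul_eq_zero_of_mem hb hc, mul_zero]
  · rw [mul_assoc, mul_eq_zero_of_mem hb hc, mul_zero]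
  · exact xyx_eq_zero h2 h3 ht hs h' ha hc hb
  · rw [mul_eq_zero_of_mem ha hb, zero_mul]
  · rw [mul_eq_zero_of_mem ha hb, zero_mul]

omit [FiniteDimensional k M] in
/-- A unipotent group cannot contain an invertible pair. -/
theorem not_inv_of_isUnipotentOn [FiniteDimensional k M] {H : Subgroup (LinearMap.GeneralLinearGroup k M)}
    {s t : EndM} (hs : MinQ G s) (ht : MinQ G t) (hsH : qunit s ∈ H) (htH : qunit t ∈ H)
    (hH : IsUnipotentOn H) : ¬ Inv s t := by
  intro h
  obtain ⟨n, hn⟩ := (isUnipotentOn_iff_commIter H).1 hH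
  have key : ∀ i, LinearMap.range s ≤ commIter (H : Set GLM) i := by
    intro i
    induction i with
    | zero => exact le_top
    | succ i ih =>
      rw [← h.range_sts hs ht]
      rintro _ ⟨v, rfl⟩
      have h1 := devMap_mem_commIter htH (ih (LinearMap.mem_range_self s v))
      rw [devMap_qunit ht.sq] at h1
      have h2' := devMap_mem_commIter hsH h1
      rw [devMap_qunit hs.sq] at h2'
      exact commIter_antitone _ _ h2'
  have := key n
  rw [hn, le_bot_iff, LinearMap.range_eq_bot] at this
  exact hs.ne_zero this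

include h2 h3 in
/-- Every class has an invertible partner. -/
theorem exists_inv_partner (hirr : IsIrreducibleFor G) {z : EndM} (hz : MinQ G z) :
    ∃ y, MinQ G y ∧ Inv z y := by
  by_contra hno
  push Not at hno
  let W : Set (Subgroup (LinearMap.GeneralLinearGroup k M)) :=
    {A | ∃ g ∈ G, A = rootGroup G ((g : EndM) * z * ((g⁻¹ : GLM) : EndM))}
  have hWconj : ∀ A ∈ W, ∀ g ∈ G, conjBy A g ∈ W := by
    rintro _ ⟨h, hh, rfl⟩ g hg
    refine ⟨g * h, mul_mem hg hh, ?_⟩
    rw [conjBy_rootGroup _ hg]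
    simp only [mul_inv_rev, Units.val_mul, mul_assoc]
  have hWW : ∀ A ∈ W, ∀ B ∈ W, IsUnipotentOn (A ⊔ B) := by
    rintro _ ⟨g, hg, rfl⟩ _ ⟨h, hh, rfl⟩
    refine isUnipotentOn_of_not_inv h2 h3 (hz.conj hg) (hz.conj hh) fun hi => ?_
    have hgh : g⁻¹ * h ∈ G := mul_mem (inv_mem hg) hh
    refine hno _ (hz.conj hgh) ?_
    obtain ⟨i1, i2⟩ := hi
    simp only [range_conj, ker_conj] at i1 i2
    have hinj : Function.Injective ((g : GLM) : EndM) :=
      Function.LeftInverse.injective (inv_apply_apply g)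
    have e : ∀ N : Submodule k M, (N.map ((g⁻¹ * h : GLM) : EndM)).map (g : EndM) = N.map (h : EndM) := by
      intro N
      rw [← Submodule.map_comp, ← Module.End.mul_eq_comp, ← Units.val_mul, mul_inv_cancel_left]
    constructor <;> apply Submodule.map_injective_of_injective hinj <;>
      simp only [range_conj, ker_conj, Submodule.map_inf _ hinj, e, Submodule.map_bot]
    exacts [i1, i2]
  have hN : IsUnipotentOn (⨆ A ∈ W, A) := by
    refine isUnipotentOn_family hWW fun A hA B hB g hg => hWconj B hB g ?_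
    obtain ⟨h, hh, rfl⟩ := hA
    exact rootGroup_le _ hg
  obtain ⟨n, hn⟩ := (isUnipotentOn_iff_commIter _).1 hN
  set N := ⨆ A ∈ W, A with hNdef
  obtain ⟨⟨v0, hv0⟩, hirr'⟩ := hirr
  have hfix : fixedSubmodule N ≠ ⊥ := by
    have hex : ∃ i, commIter (N : Set GLM) i ≠ ⊥ ∧ commIter (N : Set GLM) (i + 1) = ⊥ := by
      by_contra hh
      push Not at hh
      have : ∀ i, commIter (N : Set GLM) i ≠ ⊥ := by
        intro i
        induction i with
        | zero => exact fun h => hv0 ((Submodule.mem_bot k).1 (h ▸ Submodule.mem_top))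
        | succ i ih => exact hh i ih
      exact this n hn
    obtain ⟨i, hi, hi1⟩ := hex
    refine fun h => hi (eq_bot_iff.2 fun v hv => h ▸ ?_)
    rw [mem_fixedSubmodule]
    intro g hg
    have := devMap_mem_commIter (s := (N : Set GLM)) hg hv
    rwa [hi1, Submodule.mem_bot] at this
  have hinv : ∀ g ∈ G, ∀ v ∈ fixedSubmodule N, (g : EndM) v ∈ fixedSubmodule N := by
    intro g hg v hv
    rw [mem_fixedSubmodule] at hv ⊢
    intro a ha
    have ha' : g⁻¹ * a * g ∈ N := by
      have hle : N ≤ conjBy N g := by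
        refine iSup₂_le fun A hA => ?_
        have hA' := hWconj A hA g⁻¹ (inv_mem hg)
        intro x hx
        rw [mem_conjBy]
        refine le_iSup₂ (f := fun (A : Subgroup GLM) (_ : A ∈ W) => A) _ hA' ?_
        rw [mem_conjBy]; simpa [mul_assoc] using hx
      exact mem_conjBy.1 (hle ha)
    have := hv _ ha'
    rw [devMap_apply, sub_eq_zero] at this
    rw [devMap_apply, sub_eq_zero]
    have h4 := congrArg (g : EndM) this
    rwa [apply_mul, apply_mul, apply_inv_apply] at h4
  rcases hirr' (fixedSubmodule N) hinv with h | h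
  · exact hfix h
  · refine hz.ne_zero (LinearMap.ext fun v => ?_)
    have hmem : qunit z ∈ N := by
      refine le_iSup₂ (f := fun (A : Subgroup GLM) (_ : A ∈ W) => A) (rootGroup G z)
        ⟨1, one_mem G, by simp⟩ (qunit_mem_rootGroup (self_mem_classSpace hz.1))
    have := mem_fixedSubmodule.1 (h ▸ (Submodule.mem_top : v ∈ ⊤)) _ hmem
    rwa [devMap_qunit hz.sq] at this

end Cfsg.Agent.RootSub.QP
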