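import Cfsg.Agent.RootSub.QP.Bracket

/-! Classes commute as soon as one pair of members commutes or a member normalizes the other class. -/

set_option autoImplicit false
set_option linter.unusedSimpArgs false

namespace Cfsg.Agent.RootSub.QP

open Cfsg
open scoped commutatorElement

variable {k : Type*} [Field k] {M : Type*} [AddCommGroup M] [Module k M] [FiniteDimensional k M]

local notation "GLM" => LinearMap.GeneralLinearGroup k M
local notation "EndM" => M →ₗ[k] M

variable {G : Subgroup (LinearMap.GeneralLinearGroup k M)} {s t x y : M →ₗ[k] M}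

omit [FiniteDimensional k M] in
theorem qunit_commute_iff (hx : x * x = 0) (hy : y * y = 0) :
    (qunit x * qunit y : GLM) = qunit y * qunit x ↔ x * y = y * x := by
  constructor
  · intro h
    have h' := congrArg (fun g : GLM => (g : EndM)) h
    simp only [Units.val_mul, coe_qunit hx, coe_qunit hy, add_mul, mul_add, one_mul, mul_one] at h'
    linear_combination (norm := abel) h'
  · intro h
    apply Units.ext
    simp only [Units.val_mul, coe_qunit hx, coe_qunit hy, add_mul, mul_add, one_mul, mul_one, h]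
    abel

omit [FiniteDimensional k M] in
theorem commutator_eq_bot_of_commute
    (h : ∀ x ∈ classSpace G s, ∀ y ∈ classSpace G t, x * y = y * x) :
    ⁅rootGroup G s, rootGroup G t⁆ = ⊥ := by
  rw [eq_bot_iff, Subgroup.commutator_le]
  intro a ha b hb
  rw [Subgroup.mem_bot, commutatorElement_eq_one_iff_commute, Commute, SemiconjBy,
    eq_qunit_of_mem ha, eq_qunit_of_mem hb, qunit_commute_iff ha.1.1 hb.1.1]
  exact h _ ha _ hb

variable (h2 : (2 : k) ≠ 0) (h3 : Nat.card k ≠ 3)

include h2 h3 in
theorem commute_of_normalizes (hs : MinQ G s) (ht : MinQ G t)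
    (hn : qunit s ∈ Subgroup.normalizer (rootGroup G t : Set GLM)) : s * t = t * s := by
  have hmem := (Subgroup.mem_normalizer_iff.1 hn (qunit t)).1
    (qunit_mem_rootGroup (self_mem_classSpace ht.1))
  rw [qunit_conj ht.sq, coe_qunit hs.sq, coe_qunit_inv hs.sq] at hmem
  have hsq : ((1 + s) * t * (1 - s)) * ((1 + s) * t * (1 - s)) = 0 := by
    have := (ht.1.conj hs.1.qunit_mem).1
    rwa [coe_qunit hs.sq, coe_qunit_inv hs.sq] at this
  rw [mem_rootGroup, devMap_qunit hsq] at hmem
  obtain ⟨-, hk, hr⟩ := hmem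
  have e : (1 + s) * t * (1 - s) = t + (s * t - t * s) - s * t * s := by noncomm_ring
  rw [e] at hk hr
  have hd := hs.rk_eq ht
  have hdimCD : Module.finrank k (LinearMap.ker s) = Module.finrank k (LinearMap.ker t) := by
    have a := LinearMap.finrank_range_add_finrank_ker s
    have b := LinearMap.finrank_range_add_finrank_ker t
    simp only [rk] at hd
    omega
  set D := LinearMap.ker t
  set C := LinearMap.ker s
  by_cases hi : Inv s t
  · exfalso
    have hsub : D ≤ C := by
      intro v hv
      have h0 := hk (Submodule.mem_sup_left hv)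
      rw [LinearMap.mem_ker] at h0
      have hv0 : t v = 0 := hv
      simp only [LinearMap.sub_apply, LinearMap.add_apply, Module.End.mul_apply, hv0, map_zero,
        zero_add, zero_sub] at h0
      -- `-(t (s v)) - s (t (s v)) = 0`
      have h1 := congrArg s h0
      simp only [map_sub, map_neg, map_zero] at h1
      have hss : ∀ u, s (s u) = 0 := fun u => LinearMap.congr_fun hs.sq u
      rw [hss, sub_zero, neg_eq_zero] at h1
      rw [h1, sub_zero, neg_eq_zero] at h0
      have : s v ∈ LinearMap.range s ⊓ D := ⟨LinearMap.mem_range_self s v, h0⟩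
      rw [hi.1, Submodule.mem_bot] at this
      exact this
    have hDC := Submodule.eq_of_le_of_finrank_le hsub hdimCD.le
    have : LinearMap.range s ≤ LinearMap.range s ⊓ D :=
      le_inf le_rfl (hDC ▸ range_le_ker hs.sq)
    rw [hi.1, le_bot_iff, LinearMap.range_eq_bot] at this
    exact hs.ne_zero this
  have hsts := sts_eq_zero h2 h3 hs ht hi
  rw [hsts, sub_zero] at hk hr
  by_contra hne
  obtain ⟨-, hzr, -, hdis, hst⟩ := z_spec h2 h3 hs ht hi (sub_ne_zero.2 hne)
  have hP : LinearMap.range s ⊓ D ≤ LinearMap.range t := by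
    intro v hv
    obtain ⟨w, hw⟩ : v ∈ LinearMap.range (s * t - t * s) := hzr ▸ Submodule.mem_sup_left hv
    have hm := hr (LinearMap.mem_range_self (t + (s * t - t * s)) w)
    rw [LinearMap.add_apply, hw] at hm
    simpa using sub_mem hm (LinearMap.mem_range_self t w)
  have hP0 : LinearMap.range s ⊓ D = ⊥ := eq_bot_iff.2 fun v hv =>
    hdis.le_bot ⟨hv, ⟨hP hv, range_le_ker hs.sq hv.1⟩⟩
  rw [hP0] at hst
  have hst0 : s * t = 0 := LinearMap.range_eq_bot.1 hst
  have hsub : D ≤ C := by
    intro v hv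
    have h0 := hk (Submodule.mem_sup_left hv)
    have hv0 : t v = 0 := hv
    simp only [LinearMap.mem_ker, LinearMap.add_apply, LinearMap.sub_apply, Module.End.mul_apply,
      hv0, map_zero, zero_sub, zero_add, neg_eq_zero] at h0
    have : s v ∈ LinearMap.range s ⊓ D := ⟨LinearMap.mem_range_self s v, h0⟩
    rw [hP0, Submodule.mem_bot] at this
    exact this
  have hDC := Submodule.eq_of_le_of_finrank_le hsub hdimCD.le
  have : LinearMap.range s ≤ LinearMap.range s ⊓ D := le_inf le_rfl (hDC ▸ range_le_ker hs.sq)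
  rw [hP0, le_bot_iff, LinearMap.range_eq_bot] at this
  exact hs.ne_zero this

include h2 h3 in
theorem rootGroups_commute (hs : MinQ G s) (ht : MinQ G t)
    (h : (∃ e ∈ rootGroup G s, e ≠ 1 ∧ ∃ f ∈ rootGroup G t, f ≠ 1 ∧ e * f = f * e) ∨
      rootGroup G s ⊓ Subgroup.normalizer (rootGroup G t : Set GLM) ≠ ⊥) :
    ⁅rootGroup G s, rootGroup G t⁆ = ⊥ := by
  suffices hkey : ∃ x y, x ∈ classSpace G s ∧ x ≠ 0 ∧ y ∈ classSpace G t ∧ y ≠ 0 ∧ x * y = y * x by
    obtain ⟨x, y, hx, hx0, hy, hy0, hxy⟩ := hkey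
    obtain ⟨hxm, -, -⟩ := hs.class_spec hx hx0
    obtain ⟨hym, -, -⟩ := ht.class_spec hy hy0
    refine commutator_eq_bot_of_commute fun a ha b hb => commute_all h2 h3 hxm hym hxy ?_ ?_
    · rwa [hs.classSpace_eq hx hx0]
    · rwa [ht.classSpace_eq hy hy0]
  have hne : ∀ {u : EndM} {e : GLM}, e ∈ rootGroup G u → e ≠ 1 → devMap e ≠ 0 := fun he he1 h0 =>
    he1 (by rw [eq_qunit_of_mem he, h0, qunit_zero])
  rcases h with ⟨e, he, he1, f, hf, hf1, hef⟩ | hn
  · refine ⟨devMap e, devMap f, he, hne he he1, hf, hne hf hf1, ?_⟩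
    rw [← qunit_commute_iff he.1.1 hf.1.1, ← eq_qunit_of_mem he, ← eq_qunit_of_mem hf]
    exact hef
  · obtain ⟨e, he, he1⟩ := Pair.exists_ne_one hn
    obtain ⟨he, hen⟩ := Subgroup.mem_inf.1 he
    obtain ⟨hxm, -, -⟩ := hs.class_spec he (hne he he1)
    refine ⟨devMap e, t, he, hne he he1, self_mem_classSpace ht.1, ht.ne_zero,
      commute_of_normalizes h2 h3 hxm ht ?_⟩
    rwa [← eq_qunit_of_mem he]

end Cfsg.Agent.RootSub.QP
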