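import Cfsg.Agent.RootSub.QP.Decompose

/-!
# The components of a quadratic pair

Minimal quadratic endomorphisms joined by invertible pairs. Different components commute, each
component is stable under the group, and there are finitely many.
-/

set_option autoImplicit false
set_option linter.unusedSimpArgs false

namespace Cfsg.Agent.RootSub.QP

open Cfsg
open scoped commutatorElement

variable {k : Type*} [Field k] {M : Type*} [AddCommGroup M] [Module k M] [FiniteDimensional k M]

local notation "GLM" => LinearMap.GeneralLinearGroup k M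
local notation "EndM" => M →ₗ[k] M

variable (G : Subgroup (LinearMap.GeneralLinearGroup k M))

/-- Adjacency by invertible pairs. -/
def IAdj (s t : M →ₗ[k] M) : Prop := MinQ G s ∧ MinQ G t ∧ Inv s t

/-- Connectedness by chains of invertible pairs. -/
def Conn : (M →ₗ[k] M) → (M →ₗ[k] M) → Prop := Relation.ReflTransGen (IAdj G)

/-- The component of `a`. -/
def comp (a : M →ₗ[k] M) : Set (M →ₗ[k] M) := {x | MinQ G x ∧ Conn G a x}

/-- The subgroup generated by a component. -/
noncomputable def compGroup (a : M →ₗ[k] M) : Subgroup (LinearMap.GeneralLinearGroup k M) :=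
  Subgroup.closure (qunit '' comp G a)

/-- The root groups in a component. -/
def compPart (a : M →ₗ[k] M) : Set (Subgroup (LinearMap.GeneralLinearGroup k M)) :=
  rootGroup G '' comp G a

variable {G} {s t a b : M →ₗ[k] M}

omit [FiniteDimensional k M] in
theorem conn_refl (s : EndM) : Conn G s s := Relation.ReflTransGen.refl

omit [FiniteDimensional k M] in
theorem Conn.symm (h : Conn G s t) : Conn G t s := by
  induction h with
  | refl => exact conn_refl _
  | tail _ h ih => exact Relation.ReflTransGen.head ⟨h.2.1, h.1, h.2.2.symm⟩ ih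

omit [FiniteDimensional k M] in
theorem Conn.trans {u : EndM} (h : Conn G s t) (h' : Conn G t u) : Conn G s u :=
  Relation.ReflTransGen.trans h h'

omit [FiniteDimensional k M] in
theorem conn_two {y u : EndM} (hs : MinQ G s) (hy : MinQ G y) (hu : MinQ G u) (h1 : Inv s y)
    (h2 : Inv y u) : Conn G s u :=
  Relation.ReflTransGen.head ⟨hs, hy, h1⟩ (Relation.ReflTransGen.single ⟨hy, hu, h2⟩)

omit [FiniteDimensional k M] in
theorem comp_congr (h : Conn G a b) : comp G a = comp G b := by
  ext x
  exact ⟨fun hx => ⟨hx.1, h.symm.trans hx.2⟩, fun hx => ⟨hx.1, h.trans hx.2⟩⟩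

omit [FiniteDimensional k M] in
theorem self_mem_comp (ha : MinQ G a) : a ∈ comp G a := ⟨ha, conn_refl a⟩

omit [FiniteDimensional k M] in
theorem qunit_mem_compGroup {x : EndM} (hx : x ∈ comp G a) : qunit x ∈ compGroup G a :=
  Subgroup.subset_closure ⟨x, hx, rfl⟩

omit [FiniteDimensional k M] in
theorem compGroup_le (a : EndM) : compGroup G a ≤ G := by
  rw [compGroup, Subgroup.closure_le]
  rintro _ ⟨x, hx, rfl⟩
  exact hx.1.1.qunit_mem

omit [FiniteDimensional k M] in
theorem Inv.conj (h : Inv s t) (g : GLM) :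
    Inv ((g : EndM) * s * ((g⁻¹ : GLM) : EndM)) ((g : EndM) * t * ((g⁻¹ : GLM) : EndM)) := by
  have hinj : Function.Injective ((g : GLM) : EndM) :=
    Function.LeftInverse.injective (inv_apply_apply g)
  constructor <;>
    simp only [range_conj, ker_conj, ← Submodule.map_inf _ hinj, h.1, h.2, Submodule.map_bot]

theorem Conn.conj (h : Conn G s t) {g : GLM} (hg : g ∈ G) :
    Conn G ((g : EndM) * s * ((g⁻¹ : GLM) : EndM)) ((g : EndM) * t * ((g⁻¹ : GLM) : EndM)) := by
  induction h with
  | refl => exact conn_refl _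
  | tail _ h ih => exact Relation.ReflTransGen.tail ih ⟨h.1.conj hg, h.2.1.conj hg, h.2.2.conj g⟩

omit [FiniteDimensional k M] in
theorem conj_eq_self {g : GLM} (hs : s * s = 0) (hc : g * qunit s = qunit s * g) :
    (g : EndM) * s * ((g⁻¹ : GLM) : EndM) = s := by
  have e : ∀ x : EndM, ((g : EndM) * x) * ((g⁻¹ : GLM) : EndM) = x ↔ (g : EndM) * x = x * (g : EndM) := by
    intro x
    exact Units.mul_inv_eq_iff_eq_mul g
  rw [e]
  have h := congrArg (fun g : GLM => (g : EndM)) hc
  simpa [Units.val_mul, coe_qunit hs, mul_add, add_mul] using h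

variable (h2 : (2 : k) ≠ 0) (h3 : Nat.card k ≠ 3) (hirr : IsIrreducibleFor G)

include h2 h3 in
theorem inv_of_ne_zero (hs : MinQ G s) (ht : MinQ G t) (h : s * t * s ≠ 0) : Inv s t := by
  by_contra hi
  exact h (sts_eq_zero h2 h3 hs ht hi)

include h2 h3 hirr in
/-- Members of one class are connected. -/
theorem conn_class {x : EndM} (hs : MinQ G s) (hx : x ∈ classSpace G s) (h0 : x ≠ 0) :
    Conn G s x := by
  obtain ⟨hxm, hxk, hxr⟩ := hs.class_spec hx h0
  obtain ⟨y, hy, hi⟩ := exists_inv_partner h2 h3 hirr hs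
  exact conn_two hs hy hxm hi ((inv_congr hxk hxr rfl rfl).2 hi).symm

include h2 h3 hirr in
/-- The bracket of a pair which is neither invertible nor commuting is connected to the pair. -/
theorem conn_bracket (hs : MinQ G s) (ht : MinQ G t) (h : ¬ Inv s t) (hne : s * t ≠ t * s) :
    Conn G s (s * t - t * s) := by
  obtain ⟨hzm, -⟩ := z_spec h2 h3 hs ht h (sub_ne_zero.2 hne)
  have hsts := sts_eq_zero h2 h3 hs ht h
  have htst := sts_eq_zero h2 h3 ht hs fun hi => h hi.symm
  have hp := hs.conjugate ht.neg
  have hm := hs.conjugate ht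
  rw [show s + (-t * s - s * -t) - -t * s * -t = s + (s * t - t * s) by
    simp only [neg_mul, mul_neg, neg_neg, htst, sub_zero]; abel] at hp
  rw [show s + (t * s - s * t) - t * s * t = s - (s * t - t * s) by
    simp only [htst, sub_zero]; abel] at hm
  set z := s * t - t * s with hzdef
  have hzs : z * s = 0 := by
    rw [hzdef, sub_mul, hsts, mul_assoc t s s, hs.sq, mul_zero, sub_zero]
  have hsz : s * z = 0 := by
    rw [hzdef, mul_sub, ← mul_assoc, ← mul_assoc, hs.sq, zero_mul, hsts, sub_zero]
  obtain ⟨y0, hy0, hi0⟩ := exists_inv_partner h2 h3 hirr hzm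
  obtain ⟨y, hy, hzyz, -⟩ := hi0.exists_partner h2 h3 hzm hy0
  have hyne : y ≠ 0 := fun h0 => hzm.ne_zero (by rw [← hzyz, h0, mul_zero, zero_mul])
  obtain ⟨hym, hyk, hyr⟩ := hy0.class_spec hy hyne
  have hi : Inv z y := (inv_congr rfl rfl hyk hyr).2 hi0
  by_cases hsy : Inv s y
  · exact conn_two hs hym hzm hsy hi.symm
  have hsys := sts_eq_zero h2 h3 hs hym hsy
  have hysy := sts_eq_zero h2 h3 hym hs fun hh => hsy hh.symm
  -- `s ± z` are joined to `z`
  have key : ∀ v : EndM, MinQ G (s + v) → (v = z ∨ v = -z) → Conn G (s + v) z := by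
    intro v hv hvz
    refine conn_two hv hym hzm (inv_of_ne_zero h2 h3 hv hym fun h0 => hzm.ne_zero ?_) hi.symm
    have a1 : ∀ x : EndM, x * y * s * y = 0 := fun x => by
      rw [show x * y * s * y = x * (y * s * y) by simp only [mul_assoc], hysy, mul_zero]
    have a2 : ∀ x : EndM, x * z * y * z = x * z := fun x => by
      rw [show x * z * y * z = x * (z * y * z) by simp only [mul_assoc], hzyz]
    have f1 := congrArg (fun x => z * y * x) h0
    have f2 := congrArg (fun x => x * y * z) h0
    rcases hvz with rfl | rfl <;>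
      simp only [mul_add, add_mul, neg_mul, mul_neg, neg_neg, ← mul_assoc, hsys, hzyz, a1, a2,
        mul_zero, zero_mul, zero_add, add_zero, neg_zero] at h0 f1 f2 <;>
      linear_combination (norm := abel) f1 + f2 - h0
  have k1 := key z hp (Or.inl rfl)
  have k2 := key (-z) (by rwa [← sub_eq_add_neg]) (Or.inr rfl)
  obtain ⟨w, hw, hsw⟩ := exists_inv_partner h2 h3 hirr hs
  by_cases c1 : Inv (s + z) w
  · exact (conn_two hs hw hp hsw c1.symm).trans k1
  by_cases c2 : Inv (s + -z) w
  · exact (conn_two hs hw (by rwa [← sub_eq_add_neg]) hsw c2.symm).trans k2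
  -- otherwise `s` lies in the class of `z`
  have d1 := sts_eq_zero h2 h3 hp hw c1
  have d2 := sts_eq_zero h2 h3 (by rwa [← sub_eq_add_neg]) hw c2
  simp only [mul_add, add_mul, neg_mul, mul_neg, neg_neg] at d1 d2
  have d : s * w * s = -(z * w * z) := by
    have h' : (2 : k) • (s * w * s + z * w * z) = 0 := by
      rw [two_smul]; linear_combination (norm := abel) d1 + d2
    exact eq_neg_of_add_eq_zero_left ((smul_eq_zero.1 h').resolve_left h2)
  have hr := hsw.range_sts hs hw
  have hrz : LinearMap.range s ≤ LinearMap.range z := by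
    rw [← hr, d, LinearMap.range_neg, mul_assoc]
    exact LinearMap.range_comp_le_range _ _
  have hker : LinearMap.ker (s * w * s) = LinearMap.ker s := by
    refine (Submodule.eq_of_le_of_finrank_le (fun v hv => ?_) ?_).symm
    · simp [LinearMap.mem_ker.1 hv]
    · have h1 := LinearMap.finrank_range_add_finrank_ker s
      have h2' := LinearMap.finrank_range_add_finrank_ker (s * w * s)
      rw [hr] at h2'
      omega
  have hkz : LinearMap.ker z ≤ LinearMap.ker s := by
    intro v hv
    rw [← hker, d]
    simp [LinearMap.mem_ker.1 hv]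
  refine (conn_class h2 h3 hirr hzm ⟨hs.1, sup_le hkz ?_, hrz⟩ hs.ne_zero).symm
  exact LinearMap.range_le_ker_iff.2 hsz

include h2 h3 hirr in
/-- Different components commute. -/
theorem conn_of_not_commute (hs : MinQ G s) (ht : MinQ G t) (hne : s * t ≠ t * s) : Conn G s t := by
  by_cases hi : Inv s t
  · exact Relation.ReflTransGen.single ⟨hs, ht, hi⟩
  have hi' : ¬ Inv t s := fun h => hi h.symm
  have a1 := conn_bracket h2 h3 hirr hs ht hi hne
  have a2 := conn_bracket h2 h3 hirr ht hs hi' (Ne.symm hne)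
  obtain ⟨hzm, -⟩ := z_spec h2 h3 hs ht hi (sub_ne_zero.2 hne)
  have a3 := conn_class h2 h3 hirr hzm (neg_mem (self_mem_classSpace hzm.1)) (neg_ne_zero.2 hzm.ne_zero)
  rw [neg_sub] at a3
  exact a1.trans (a3.trans a2.symm)

include h2 h3 hirr in
theorem commute_of_not_conn (hs : MinQ G s) (ht : MinQ G t) (h : ¬ Conn G s t) : s * t = t * s :=
  by_contra fun hne => h (conn_of_not_commute h2 h3 hirr hs ht hne)

include h2 h3 hirr in
theorem sup_root_le_cocentral (hgen : Subgroup.closure (quadraticElements G) = G) :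
    G ≤ (⨆ A ∈ quadraticRootSubgroups G, A) ⊔ (G ⊓ Subgroup.centralizer
      ((⨆ A ∈ quadraticRootSubgroups G, A : Subgroup (LinearMap.GeneralLinearGroup k M)) : Set GLM)) := by
  refine le_trans (le_of_eq hgen.symm) ((Subgroup.closure_le _).2 fun σ hσ => ?_)
  obtain ⟨hq, -⟩ := mem_quadraticElements_iff.1 hσ
  rw [eq_qunit hq.1]
  exact qunit_mem_cocentral h2 h3 hirr hq

include h2 h3 hirr in
/-- The group preserves every component. -/
theorem conn_conj (hgen : Subgroup.closure (quadraticElements G) = G) (hs : MinQ G s) {g : GLM}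
    (hg : g ∈ G) : Conn G s ((g : EndM) * s * ((g⁻¹ : GLM) : EndM)) := by
  let St : Subgroup GLM :=
    { carrier := {g | g ∈ G ∧ ∀ s, MinQ G s → Conn G s ((g : EndM) * s * ((g⁻¹ : GLM) : EndM))}
      one_mem' := ⟨one_mem G, fun s _ => by simpa using conn_refl s⟩
      mul_mem' := fun {p q} hp hq => ⟨mul_mem hp.1 hq.1, fun s hs => by
        have := (hq.2 s hs).trans (hp.2 _ (hs.conj hq.1))
        simpa only [mul_inv_rev, Units.val_mul, mul_assoc] using this⟩
      inv_mem' := fun {p} hp => ⟨inv_mem hp.1, fun s hs => by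
        have := hp.2 _ (hs.conj (inv_mem hp.1))
        have e := conj_conj_inv p⁻¹ s
        rw [inv_inv] at e this ⊢
        rw [e] at this
        exact this.symm⟩ }
  suffices hle : G ≤ St from (hle hg).2 s hs
  refine (sup_root_le_cocentral h2 h3 hirr hgen).trans (sup_le (iSup₂_le fun A hA => ?_) ?_)
  · obtain ⟨u, hu, rfl⟩ := mem_quadraticRootSubgroups_iff.1 hA
    intro e he
    refine ⟨rootGroup_le u he, fun r hr => ?_⟩
    rcases eq_or_ne (devMap e) 0 with h0 | h0
    · rw [eq_qunit_of_mem he, h0, qunit_zero]; simpa using conn_refl r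
    have hem := (hu.class_spec he h0).1
    by_cases hc : devMap e * r = r * devMap e
    · rw [conj_eq_self hr.sq]
      · exact conn_refl r
      · rw [eq_qunit_of_mem he, qunit_commute_iff hem.sq hr.sq]; exact hc
    · have h1 := conn_of_not_commute h2 h3 hirr hr hem (Ne.symm hc)
      have h2' := h1.conj (rootGroup_le u he)
      rw [conj_eq_self (s := devMap e) hem.sq (by rw [← eq_qunit_of_mem he])] at h2'
      exact h1.trans h2'.symm
  · rintro e ⟨he, hec⟩
    refine ⟨he, fun r hr => ?_⟩
    rw [conj_eq_self hr.sq]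
    · exact conn_refl r
    · exact (Subgroup.mem_centralizer_iff.1 hec _
        (le_iSup₂ (f := fun (A : Subgroup GLM) (_ : A ∈ quadraticRootSubgroups G) => A) _
          (mem_quadraticRootSubgroups_iff.2 ⟨r, hr, rfl⟩)
          (qunit_mem_rootGroup (self_mem_classSpace hr.1)))).symm

include h2 h3 hirr in
/-- An endomorphism commuting with a component and killing one of its members is zero. -/
theorem eq_zero_of_mul_comp (hgen : Subgroup.closure (quadraticElements G) = G) (ha : MinQ G a)
    (hc : ∀ x ∈ comp G a, b * x = x * b) (h0 : b * a = 0) : b = 0 := by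
  have hall : ∀ x, Conn G a x → b * x = 0 := by
    intro x hx
    induction hx with
    | refl => exact h0
    | @tail x y hpre hxy ih =>
      obtain ⟨hxm, hym, hi⟩ := hxy
      have hy : y ∈ comp G a := ⟨hym, Conn.trans hpre (Relation.ReflTransGen.single ⟨hxm, hym, hi⟩)⟩
      ext v
      obtain ⟨w, hw⟩ : y v ∈ LinearMap.range (y * x) :=
        (hi.map_range hxm hym).symm ▸ LinearMap.mem_range_self y v
      show b (y v) = 0
      rw [← hw]
      have : b * (y * x) = 0 := by rw [← mul_assoc, hc y hy, mul_assoc, ih, mul_zero]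
      exact LinearMap.congr_fun this w
  set D : Submodule k M := ⨆ x ∈ comp G a, LinearMap.range x with hD
  have hinv : ∀ g ∈ G, ∀ w ∈ D, (g : EndM) w ∈ D := by
    intro g hg w hw
    have hle : D.map (g : EndM) ≤ D := by
      rw [hD, Submodule.map_iSup]
      refine iSup_le fun x => ?_
      rw [Submodule.map_iSup]
      refine iSup_le fun hx => ?_
      rw [← range_conj]
      exact le_iSup₂ (f := fun (y : EndM) (_ : y ∈ comp G a) => LinearMap.range y) _
        (⟨hx.1.conj hg, hx.2.trans (conn_conj h2 h3 hirr hgen hx.1 hg)⟩ :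
          (g : EndM) * x * ((g⁻¹ : GLM) : EndM) ∈ comp G a)
    exact hle (Submodule.mem_map_of_mem hw)
  rcases hirr.2 D hinv with h | h
  · refine absurd (LinearMap.range_eq_bot.1 (le_bot_iff.1 ?_)) ha.ne_zero
    rw [← h]
    exact le_iSup₂ (f := fun (y : EndM) (_ : y ∈ comp G a) => LinearMap.range y) a (self_mem_comp ha)
  · refine LinearMap.ker_eq_top.1 (eq_top_iff.2 (h ▸ iSup₂_le fun x hx => ?_))
    exact LinearMap.range_le_ker_iff.2 (hall x hx.2)

include h2 h3 hirr in
/-- At most `dim M` components. -/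
theorem card_components_le (hgen : Subgroup.closure (quadraticElements G) = G) {n : ℕ}
    (f : Fin n → EndM) (hf : ∀ i, MinQ G (f i)) (hne : ∀ i j, i ≠ j → ¬ Conn G (f i) (f j)) :
    n ≤ Module.finrank k M := by
  have key : ∀ j, j ≤ n → ∃ c : EndM, c ≠ 0 ∧ rk c + j ≤ Module.finrank k M ∧
      ∀ i : Fin n, j ≤ (i : ℕ) → ∀ x ∈ comp G (f i), c * x = x * c := by
    intro j
    induction j with
    | zero =>
      obtain ⟨v, hv⟩ := hirr.1
      exact fun _ => ⟨1, fun h => hv (LinearMap.congr_fun h v),
        by simpa [rk] using Submodule.finrank_le _, fun i _ x _ => by rw [one_mul, mul_one]⟩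
    | succ j ih =>
      intro hj
      obtain ⟨c, hc0, hrk, hcc⟩ := ih (by omega)
      set u := f ⟨j, by omega⟩ with hu
      have hum : MinQ G u := hf _
      have hcu : c * u = u * c := hcc _ le_rfl u (self_mem_comp hum)
      refine ⟨u * c, fun h0 => ?_, ?_, fun i hi x hx => ?_⟩
      · rw [← hcu] at h0
        exact hc0 (eq_zero_of_mul_comp h2 h3 hirr hgen hum (hcc ⟨j, by omega⟩ le_rfl) h0)
      · have hlt : rk (u * c) < rk c := by
          have hle : LinearMap.range (u * c) ≤ LinearMap.range c := by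
            rw [← hcu]; exact LinearMap.range_comp_le_range u c
          refine Submodule.finrank_lt_finrank_of_lt (lt_of_le_of_ne hle fun heq => hc0 ?_)
          have e : LinearMap.range (u * (u * c)) = LinearMap.range c := by
            rw [Module.End.mul_eq_comp u (u * c), LinearMap.range_comp, heq,
              ← LinearMap.range_comp, ← Module.End.mul_eq_comp, heq]
          rw [← mul_assoc, hum.sq, zero_mul, LinearMap.range_zero] at e
          exact LinearMap.range_eq_bot.1 e.symm
        omega
      · have hne' : ¬ Conn G u x := fun h => hne ⟨j, by omega⟩ i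
          (fun e => by rw [← e] at hi; simp at hi) (h.trans hx.2.symm)
        rw [mul_assoc, hcc i (by omega) x hx, ← mul_assoc,
          commute_of_not_conn h2 h3 hirr hum hx.1 hne', mul_assoc]
  obtain ⟨c, -, hrk, -⟩ := key n le_rfl
  omega

include h2 h3 hirr in
/-- A finite system of representatives of the components. -/
theorem exists_component_reps (hgen : Subgroup.closure (quadraticElements G) = G) :
    ∃ (r : ℕ) (f : Fin r → EndM), (∀ i, MinQ G (f i)) ∧ (∀ i j, i ≠ j → ¬ Conn G (f i) (f j)) ∧
      ∀ s, MinQ G s → ∃ i, Conn G (f i) s := by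
  classical
  let P : ℕ → Prop := fun n => ∃ f : Fin n → EndM, (∀ i, MinQ G (f i)) ∧
    ∀ i j, i ≠ j → ¬ Conn G (f i) (f j)
  have hP0 : P 0 := ⟨Fin.elim0, fun i => i.elim0, fun i => i.elim0⟩
  obtain ⟨f, hf, hne⟩ := Nat.findGreatest_spec (P := P) (Nat.zero_le (Module.finrank k M)) hP0
  refine ⟨_, f, hf, hne, fun s hs => ?_⟩
  by_contra hno
  push Not at hno
  have hS : P (Nat.findGreatest P (Module.finrank k M) + 1) := by
    refine ⟨Fin.cons s f, ?_, ?_⟩
    · intro i; cases i using Fin.cases with
      | zero => exact hs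
      | succ i => simpa using hf i
    · intro i j hij
      cases i using Fin.cases with
      | zero =>
        cases j using Fin.cases with
        | zero => exact absurd rfl hij
        | succ j => simpa using fun h => hno j (Conn.symm h)
      | succ i =>
        cases j using Fin.cases with
        | zero => simpa using hno i
        | succ j => simpa using hne i j fun e => hij (by rw [e])
  obtain ⟨g, hg, hgne⟩ := hS
  have := card_components_le h2 h3 hirr hgen g hg hgne
  exact Nat.findGreatest_is_greatest (Nat.lt_succ_self _) this ⟨g, hg, hgne⟩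

include h2 h3 hirr in
theorem iSup_compPart (a : EndM) : (⨆ A ∈ compPart G a, A) = compGroup G a := by
  refine le_antisymm (iSup₂_le ?_) ((Subgroup.closure_le _).2 ?_)
  · rintro _ ⟨x, hx, rfl⟩ e he
    rcases eq_or_ne (devMap e) 0 with h0 | h0
    · rw [eq_qunit_of_mem he, h0, qunit_zero]; exact one_mem _
    · rw [eq_qunit_of_mem he]
      exact qunit_mem_compGroup ⟨(hx.1.class_spec he h0).1,
        hx.2.trans (conn_class h2 h3 hirr hx.1 he h0)⟩
  · rintro _ ⟨x, hx, rfl⟩
    exact le_iSup₂ (f := fun (A : Subgroup GLM) (_ : A ∈ compPart G a) => A) (rootGroup G x)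
      ⟨x, hx, rfl⟩ (qunit_mem_rootGroup (self_mem_classSpace hx.1.1))

omit [FiniteDimensional k M] in
theorem commute_compGroup {g : GLM} (h : ∀ x ∈ comp G a, g * qunit x = qunit x * g) :
    ∀ e ∈ compGroup G a, g * e = e * g := by
  have : compGroup G a ≤ Subgroup.centralizer {g} := by
    rw [compGroup, Subgroup.closure_le]
    rintro _ ⟨x, hx, rfl⟩
    exact Subgroup.mem_centralizer_singleton_iff.2 (h x hx).symm
  exact fun e he => (Subgroup.mem_centralizer_singleton_iff.1 (this he)).symm

include h2 h3 hirr in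
theorem commutator_compGroup (hne : ¬ Conn G a b) : ⁅compGroup G a, compGroup G b⁆ = ⊥ := by
  rw [commutator_eq_bot_iff_forall]
  intro p hp q hq
  refine (commute_compGroup (fun x hx => ?_) p hp).symm
  refine (commute_compGroup (fun y hy => ?_) q hq).symm
  rw [qunit_commute_iff hx.1.sq hy.1.sq]
  exact commute_of_not_conn h2 h3 hirr hx.1 hy.1 fun h => hne (hx.2.trans (h.trans hy.2.symm))

include h2 h3 hirr in
theorem conjBy_compGroup (hgen : Subgroup.closure (quadraticElements G) = G) (a : EndM) {g : GLM}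
    (hg : g ∈ G) : conjBy (compGroup G a) g = compGroup G a := by
  have hle : ∀ g ∈ G, conjBy (compGroup G a) g ≤ compGroup G a := by
    intro g hg
    rw [conjBy, compGroup, MonoidHom.map_closure]
    refine Subgroup.closure_mono ?_
    rintro _ ⟨_, ⟨x, hx, rfl⟩, rfl⟩
    refine ⟨_, ⟨hx.1.conj hg, hx.2.trans (conn_conj h2 h3 hirr hgen hx.1 hg)⟩, ?_⟩
    rw [← qunit_conj hx.1.sq]; rfl
  refine le_antisymm (hle g hg) ?_
  have := (conjBy_le_iff (g := g)).2 (hle g⁻¹ (inv_mem hg))
  rwa [conjBy_conjBy, mul_inv_cancel, conjBy_one] at this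

include h2 h3 in
/-- Members of one component are conjugate in the group they generate. -/
theorem exists_conj_of_mem_comp {x : EndM} (hx : x ∈ comp G a) :
    ∃ g ∈ compGroup G a, rootGroup G x = conjBy (rootGroup G a) g := by
  suffices H : ∀ x, Conn G a x → ∃ g ∈ compGroup G a, rootGroup G x = conjBy (rootGroup G a) g from
    H x hx.2
  intro x hx
  induction hx with
  | refl => exact ⟨1, one_mem _, (conjBy_one _).symm⟩
  | @tail x y hpre hxy ih =>
    obtain ⟨g, hg, hge⟩ := ih
    obtain ⟨hxm, hym, hi⟩ := hxy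
    obtain ⟨w, hw, h1, h2'⟩ := hi.exists_partner h2 h3 hxm hym
    have hw0 : w ≠ 0 := fun h0 => hxm.ne_zero (by rw [← h1, h0, mul_zero, zero_mul])
    obtain ⟨hwm, hwk, hwr⟩ := hym.class_spec hw hw0
    have hcx : x ∈ comp G a := ⟨hxm, hpre⟩
    have hcw : -w ∈ comp G a := by
      refine ⟨hwm.neg, Conn.trans hpre (Relation.ReflTransGen.single ⟨hxm, hwm.neg, ?_⟩)⟩
      exact (inv_congr rfl rfl (LinearMap.ker_neg w) (LinearMap.range_neg w)).2
        ((inv_congr rfl rfl hwk hwr).2 hi)
    refine ⟨qunit x * qunit (-w) * qunit x * g,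
      mul_mem (mul_mem (mul_mem (qunit_mem_compGroup hcx) (qunit_mem_compGroup hcw))
        (qunit_mem_compGroup hcx)) hg, ?_⟩
    rw [← conjBy_conjBy, ← hge, conjBy_rootGroup x
      (mul_mem (mul_mem hxm.1.qunit_mem hwm.neg.1.qunit_mem) hxm.1.qunit_mem),
      weyl_conj hxm.sq hw.1.1 h1 h2']
    exact (hym.rootGroup_eq (neg_mem hw) (neg_ne_zero.2 hw0)).symm

end Cfsg.Agent.RootSub.QP
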