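import Cfsg.Agent.RootSub.QP.RootSet

/-!
# Splitting a quadratic endomorphism along the minimal ones

For a quadratic `u` either some minimal `s` has `s u s ≠ 0`, and then a minimal piece splits off
orthogonally, or `u` commutes with every minimal quadratic endomorphism.
-/

set_option autoImplicit false
set_option linter.unusedSimpArgs false

namespace Cfsg.Agent.RootSub.QP

open Cfsg SL2Gen
open scoped commutatorElement

variable {k : Type*} [Field k] {M : Type*} [AddCommGroup M] [Module k M] [FiniteDimensional k M]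

local notation "GLM" => LinearMap.GeneralLinearGroup k M
local notation "EndM" => M →ₗ[k] M

variable {G : Subgroup (LinearMap.GeneralLinearGroup k M)}

theorem MinQ.conjugate_qel {s u : EndM} (hs : MinQ G s) (hu : QEl G u) :
    MinQ G (s + (u * s - s * u) - u * s * u) := by
  have h := hs.conj hu.qunit_mem
  rw [coe_qunit hu.1, coe_qunit_inv hu.1] at h
  convert h using 1
  noncomm_ring

theorem sts_eq_zero_of_two_qel {s t : EndM} (h2 : (2 : k) ≠ 0) (hs : MinQ G s) (ht : QEl G t)
    (h : s * t * s * t * s = 0) : s * t * s = 0 := by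
  have u1 := qel_cross hs.1 ht h
  have u2 := qel_cross hs.1 ht.neg (by simp [h])
  have e1 : ∀ x : EndM, x * s * s = 0 := fun x => by rw [mul_assoc, hs.sq, mul_zero]
  have e2 : ∀ x : EndM, x * s * t * s * t * s = 0 := fun x => by
    rw [show x * s * t * s * t * s = x * (s * t * s * t * s) by simp only [mul_assoc], h, mul_zero]
  have e3 : ∀ x : EndM, x * t * t = 0 := fun x => by rw [mul_assoc, ht.1, mul_zero]
  have hsum := u1.add u2.neg ?_ ?_
  · have hq : QEl G (s * t * s) := by
      have h4 : (4 : k) ≠ 0 := by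
        rw [show (4 : k) = 2 * 2 by norm_num]; exact mul_ne_zero h2 h2
      have := hsum.smul (4 : k)⁻¹
      convert this using 1
      rw [show ∀ (X Y : EndM), (4 : k)⁻¹ • (X + Y) = (4 : k)⁻¹ • X + (4 : k)⁻¹ • Y from
        fun X Y => smul_add _ _ _]
      simp only [neg_mul, mul_neg, neg_neg, neg_add_rev, neg_sub]
      match_scalars <;> field_simp <;> ring
    have hsub : LinearMap.range (s * t * s) ≤ LinearMap.range s := by
      rw [mul_assoc]; exact LinearMap.range_comp_le_range (t * s) s
    refine hs.eq_zero_of_lt hq (lt_of_le_of_ne (Submodule.finrank_mono hsub) fun heq => ?_)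
    have hr := Submodule.eq_of_le_of_finrank_le hsub heq.ge
    apply hs.ne_zero
    rw [← LinearMap.range_eq_bot, ← hr, eq_bot_iff]
    rintro _ ⟨m, rfl⟩
    obtain ⟨x, hx⟩ : s m ∈ LinearMap.range (s * t * s) := hr.symm ▸ LinearMap.mem_range_self s m
    rw [Submodule.mem_bot]
    show s (t (s m)) = 0
    rw [← hx]
    exact LinearMap.congr_fun h x
  all_goals
    simp only [neg_mul, mul_neg, neg_neg, neg_add_rev, neg_sub, mul_sub, sub_mul, mul_add, add_mul,
      ← mul_assoc, hs.sq, ht.1, h, e1, e2, e3, zero_mul, sub_zero, add_zero, zero_add, zero_sub, neg_zero]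

/-- `(s u) ^ n s = 0` forces `s u s = 0`, for any quadratic `u`. -/
theorem sts_eq_zero_of_nilpotent_qel (h2 : (2 : k) ≠ 0) {s u : EndM} (hs : MinQ G s) (hu : QEl G u)
    (n : ℕ) (h : (s * u) ^ n * s = 0) : s * u * s = 0 := by
  have hs' := hs.conjugate_qel hu
  have h0 : (s * (s + (u * s - s * u) - u * s * u)) ^ n * s = 0 := by
    rw [conjugate_pow (k := k) hs.sq, two_mul, pow_add, mul_assoc, h, mul_zero, smul_zero]
  have h1 := sts_eq_zero_of_nilpotent h2 hs _ hs' h0
  have e := conjugate_pow (k := k) (t := u) hs.sq 1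
  rw [pow_one, pow_one, h1] at e
  refine sts_eq_zero_of_two_qel h2 hs hu ?_
  have e2 : (s * u) ^ 2 * s = 0 := by simpa using e.symm
  rw [← e2, pow_two]; simp only [mul_assoc]

variable (h2 : (2 : k) ≠ 0) (h3 : Nat.card k ≠ 3)

include h2 h3 in
theorem sts_eq_zero_or_range_qel {s t : EndM} (hs : MinQ G s) (ht : QEl G t) :
    s * t * s = 0 ∨ LinearMap.range (s * t * s) = LinearMap.range s := by
  rcases eq_or_ne (s * t * s) 0 with h0 | h0
  · exact Or.inl h0
  right
  let r : ℕ → ℕ := fun n => rk ((s * t) ^ n * s)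
  obtain ⟨n, hn⟩ : ∃ n, ∀ j, r n ≤ r j := ⟨Function.argmin r, fun j => Function.argmin_le r j⟩
  set S1 := LinearMap.range ((s * t) ^ n * s) with hS1
  have hmap : S1.map (s * t) = LinearMap.range ((s * t) ^ (n + 1) * s) := by
    rw [hS1, ← LinearMap.range_comp, pow_succ', mul_assoc]; rfl
  have hle : S1.map (s * t) ≤ S1 := by
    rw [hmap]
    rintro _ ⟨v, rfl⟩
    exact ⟨(t * s) v, by rw [pow_succ]; rfl⟩
  have hstab : S1.map (s * t) = S1 := by
    refine Submodule.eq_of_le_of_finrank_le hle ?_
    rw [hmap]; exact hn (n + 1)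
  obtain ⟨m, hi1, hAn⟩ := exists_model hs.sq ht.1 hstab
  have hrem : (m.s0 * m.t0) ^ n * m.s0 = 0 := by
    have h := m.pow_split n
    have e : m.i1 ∘ₗ (m.A ^ n) ∘ₗ m.p2 = (s * t) ^ n * s := by
      ext v; simp only [LinearMap.comp_apply, hi1, Submodule.subtype_apply, hAn]
    rw [e] at h
    exact right_eq_add.1 h
  have hq : QEl G (m.i1 ∘ₗ m.p2) := by
    refine ⟨?_, fun c => ?_⟩
    · ext v; simp [m.p21]
    · have := m.glHom_uu_mem h2 h3 hs.1 ht hrem (algebraMap k m.Alg c)
      convert this using 1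
      apply Units.ext
      rw [m.glHom_uu, coe_qunit (smul_sq_zero (by ext v; simp [m.p21]) c)]
      ext v; simp
  have hXne : (s * t) ^ n * s ≠ 0 := fun h => h0 (sts_eq_zero_of_nilpotent_qel h2 hs ht n h)
  have hne : m.i1 ∘ₗ m.p2 ≠ 0 := by
    intro h
    apply hXne
    ext v
    have hv : m.p2 v = 0 := Subtype.ext (by simpa [hi1] using LinearMap.congr_fun h v)
    rw [← hAn v, hv, map_zero]; rfl
  have hsub : S1 ≤ LinearMap.range s := by
    cases n with
    | zero => rw [hS1, pow_zero, one_mul]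
    | succ i =>
      rintro _ ⟨v, rfl⟩
      exact ⟨t (((s * t) ^ i * s) v), by rw [pow_succ']; rfl⟩
  have heq : S1 = LinearMap.range s := by
    refine Submodule.eq_of_le_of_finrank_le hsub ((hs.2.2 _ hq hne).trans ?_)
    refine (Submodule.finrank_mono (LinearMap.range_comp_le_range m.p2 m.i1)).trans ?_
    rw [hi1, Submodule.range_subtype]
  rw [← heq, ← hstab, heq, ← LinearMap.range_comp]; rfl

include h2 h3 in
/-- If `s u s ≠ 0` then `u = y + t` with `y` minimal, `t` quadratic of smaller rank and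
`y t = t y = 0`. -/
theorem exists_split {s u : EndM} (hs : MinQ G s) (hu : QEl G u) (hne : s * u * s ≠ 0) :
    ∃ y t : EndM, MinQ G y ∧ QEl G t ∧ y * t = 0 ∧ t * y = 0 ∧ u = y + t ∧ rk t < rk u ∧
      s * y * s = s * u * s := by
  have hr := (sts_eq_zero_or_range_qel h2 h3 hs hu).resolve_left hne
  have hstab : (LinearMap.range ((s * u) ^ 0 * s)).map (s * u) = LinearMap.range ((s * u) ^ 0 * s) := by
    rw [pow_zero, one_mul, ← LinearMap.range_comp]; exact hr
  obtain ⟨m, hi1, hAn⟩ := exists_model hs.sq hu.1 hstab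
  have hs0 : ∀ v, m.i1 (m.p2 v) = s v := fun v => by
    have := hAn v
    simp only [pow_zero, one_mul, Module.End.one_apply] at this
    rw [hi1]; exact this
  have hrem : (m.s0 * m.t0) ^ 0 * m.s0 = 0 := by
    rw [pow_zero, one_mul]; ext v; simp [Model.s0, hs0]
  set P := G.comap m.glHom with hP
  have huu : ∀ r, uu r ∈ P := fun r => m.glHom_uu_mem h2 h3 hs.1 hu hrem r
  have hcomm : ∀ (c : k) g, Commute (qunit (c • m.t0) : GLM) (m.glHom g) := by
    intro c g
    apply Units.ext
    rw [Units.val_mul, Units.val_mul, coe_qunit (smul_sq_zero (m.t0_sq hu.1) c), m.coe_glHom]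
    simp only [mul_add, add_mul, mul_sub, sub_mul, mul_one, one_mul,
      (m.act_comm_t0 (g : Matrix (Fin 2) (Fin 2) m.Alg) c).1, (m.act_comm_t0 (g : Matrix (Fin 2) (Fin 2) m.Alg) c).2,
      (m.act_comm_t0 1 c).1, (m.act_comm_t0 1 c).2]
    abel
  -- conjugation by the stable part of `u` normalizes `P`
  have hvn : ∀ c : k, ∀ g ∈ P,
      vv (algebraMap k m.Alg c * m.root) * g * (vv (algebraMap k m.Alg c * m.root))⁻¹ ∈ P := by
    intro c g hg
    show m.glHom _ ∈ G
    set V0 := m.glHom (vv (algebraMap k m.Alg c * m.root)) with hV0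
    have : V0 * m.glHom g * V0⁻¹ = qunit (c • u) * m.glHom g * (qunit (c • u))⁻¹ := by
      rw [m.qunit_split_t hu.1 c, ← hV0, mul_inv_rev]
      calc V0 * m.glHom g * V0⁻¹
          = V0 * (qunit (c • m.t0) * m.glHom g * (qunit (c • m.t0))⁻¹) * V0⁻¹ := by
            rw [(hcomm c g).eq, mul_inv_cancel_right]
        _ = _ := by simp only [mul_assoc]
    rw [map_mul, map_mul, map_inv, ← hV0, this]
    exact mul_mem (mul_mem (hu.2 c) hg) (inv_mem (hu.2 c))
  have hN : gam k m.root ≤ Subgroup.normalizer (P : Set (Matrix.SpecialLinearGroup (Fin 2) m.Alg)) := by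
    rw [gam, Subgroup.closure_le]
    rintro _ (⟨c, rfl⟩ | ⟨c, rfl⟩)
    · exact Subgroup.le_normalizer (huu _)
    · refine Subgroup.mem_normalizer_iff.2 fun g => ⟨hvn c g, fun hg => ?_⟩
      have := hvn (-c) _ hg
      rw [map_neg, neg_mul, ← vv_inv] at this
      simpa [mul_assoc] using this
  have hfull : ∀ r, uu r ∈ gam k m.root ∧ vv r ∈ gam k m.root := fun r =>
    ⟨by rw [← mem_upperSet, m.upperSet_root h2 h3]; exact AddSubgroup.mem_top r,
      vv_mem_of_upperSet m.isUnit_root (m.upperSet_root h2 h3) r⟩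
  have hvv : ∀ r, vv r ∈ P := by
    intro r
    have hw : uu (1 : m.Alg) * vv (-1) * uu 1 ∈ gam k m.root :=
      mul_mem (mul_mem (hfull 1).1 (hfull (-1)).2) (hfull 1).1
    have h := (Subgroup.mem_normalizer_iff.1 (hN hw) (uu (-r))).1 (huu _)
    have e : uu (1 : m.Alg) * vv (-1) * uu 1 * uu (-r) = vv r * (uu 1 * vv (-1) * uu 1) := by
      apply sl_ext <;> simp [Matrix.SpecialLinearGroup.coe_mul, Matrix.mul_apply, Fin.sum_univ_two] <;> ring
    rwa [e, mul_inv_cancel_right] at h
  set y := m.i2 ∘ₗ m.A ∘ₗ m.p1 with hy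
  have hyy : y * y = 0 := by ext v; simp [hy, m.p12]
  have hsplit : ∀ c : k, m.glHom (vv (algebraMap k m.Alg c * m.root)) = qunit (c • y) := fun c => by
    apply Units.ext
    rw [m.glHom_vv, coe_qunit (smul_sq_zero hyy c)]
    ext v; simp [hy, m.rho_root, m.rho_algebraMap]
  have hyq : QEl G y := ⟨hyy, fun c => hsplit c ▸ hvv _⟩
  have htq : QEl G m.t0 := by
    refine ⟨m.t0_sq hu.1, fun c => ?_⟩
    have := m.qunit_split_t hu.1 c
    rw [hsplit, ← inv_mul_eq_iff_eq_mul] at this
    rw [← this]
    exact mul_mem (inv_mem (hyq.2 c)) (hu.2 c)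
  have hsys : s * y * s = s * u * s := by
    ext v
    simp only [Module.End.mul_apply, hy, LinearMap.comp_apply, ← hs0, m.ti1, m.p11]
  have hy0 : y ≠ 0 := fun h0 => hne (by rw [← hsys, h0, mul_zero, zero_mul])
  have hyle : rk y ≤ rk s := by
    refine (Submodule.finrank_mono (LinearMap.range_comp_le_range (m.A ∘ₗ m.p1) m.i2)).trans ?_
    refine (LinearMap.finrank_range_le m.i2).trans (le_of_eq ?_)
    rw [pow_zero, one_mul]; rfl
  refine ⟨y, m.t0, hs.of_rk_le hyq hy0 hyle, htq, ?_, ?_, ?_, ?_, hsys⟩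
  · ext v; simp [hy, Model.t0, m.p1t, m.p12]
  · ext v; simp [hy, Model.t0, m.p12, m.ti2]
  · rw [Model.t0, ← hy, add_sub_cancel]
  · have hle : LinearMap.range m.t0 ≤ LinearMap.range u := by
      rintro _ ⟨v, rfl⟩
      exact ⟨v - m.i1 (m.p1 v), by simp [Model.t0, m.ti1]⟩
    refine Submodule.finrank_lt_finrank_of_lt (lt_of_le_of_ne hle fun heq => hy0 ?_)
    ext v
    obtain ⟨w, hw⟩ : u v ∈ LinearMap.range m.t0 := heq.symm ▸ LinearMap.mem_range_self u v
    have h0 := congrArg m.p2 hw
    simp [Model.t0, m.p2t, m.p22] at h0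
    rw [hy, LinearMap.comp_apply, LinearMap.comp_apply, ← h0, map_zero]; rfl

include h2 h3 in
theorem exists_witness (hirr : IsIrreducibleFor G) {w : EndM} (hw : MinQ G w) :
    ∃ z, MinQ G z ∧ z * w * z ≠ 0 := by
  obtain ⟨z, hz, hi⟩ := exists_inv_partner h2 h3 hirr hw
  refine ⟨z, hz, fun h => hz.ne_zero ?_⟩
  rw [← LinearMap.range_eq_bot, ← hi.symm.range_sts hz hw, h, LinearMap.range_zero]

include h2 h3 in
/-- A quadratic `u` with `s u s = 0` for all minimal `s` commutes with all of them. -/
theorem commute_of_forall_sus (hirr : IsIrreducibleFor G) {u : EndM} (hu : QEl G u)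
    (hall : ∀ s, MinQ G s → s * u * s = 0) {s : EndM} (hs : MinQ G s) : s * u = u * s := by
  -- polarisation
  have hpol : ∀ {y z : EndM}, MinQ G y → MinQ G z → z * u * y * z = z * y * u * z := by
    intro y z hy hz
    have hyc : ∀ c : k, c * c = 1 → MinQ G (c • y) := fun c hc =>
      hy.smul fun h0 => by simp [h0] at hc
    have hp := hall _ (hz.conjugate_qel (hyc 1 (by norm_num)).1)
    have hm := hall _ (hz.conjugate_qel (hyc (-1) (by norm_num)).1)
    have zz : ∀ x : EndM, x * z * u * z = 0 := fun x => by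
      rw [show x * z * u * z = x * (z * u * z) by simp only [mul_assoc], hall z hz, mul_zero]
    have yy : ∀ x : EndM, x * y * u * y = 0 := fun x => by
      rw [show x * y * u * y = x * (y * u * y) by simp only [mul_assoc], hall y hy, mul_zero]
    simp only [one_smul, neg_one_smul, neg_mul, mul_neg, neg_neg, mul_sub, sub_mul, mul_add,
      add_mul, ← mul_assoc, hall z hz, zz, yy, zero_mul, sub_zero, zero_sub, zero_add, add_zero,
      neg_zero] at hp hm
    have hA : (2 : k) • ((z * u * y * z - z * y * u * z) - y * (z * u * y * z - z * y * u * z) * y) = 0 := by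
      rw [two_smul]
      simp only [mul_sub, sub_mul, ← mul_assoc]
      linear_combination (norm := abel) hp - hm
    have hA' := sub_eq_zero.1 ((smul_eq_zero.1 hA).resolve_left h2)
    set B := z * u * y * z - z * y * u * z with hB
    have h0 : y * B = 0 := by
      rw [hA', ← mul_assoc, ← mul_assoc, hy.sq, zero_mul, zero_mul]
    rw [h0, zero_mul] at hA'
    exact sub_eq_zero.1 hA'
  have husu : ∀ {s : EndM}, MinQ G s → QEl G (u * s * u) ∧ QEl G (s * u - u * s) := by
    intro s hs
    have e0 := hall s hs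
    have e1 : ∀ x : EndM, x * s * u * s = 0 := fun x => by
      rw [show x * s * u * s = x * (s * u * s) by simp only [mul_assoc], e0, mul_zero]
    have e2 : ∀ x : EndM, x * s * s = 0 := fun x => by rw [mul_assoc, hs.sq, mul_zero]
    have e3 : ∀ x : EndM, x * u * u = 0 := fun x => by rw [mul_assoc, hu.1, mul_zero]
    have key : ∀ v : EndM, QEl G v → (v = u ∨ v = -u) → QEl G (s * v - v * s + v * s * v) := by
      intro v hv hvu
      have hc := (hs.conjugate_qel hv).1.neg
      have h := hs.1.add hc ?_ ?_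
      · convert h using 1; abel
      all_goals
        rcases hvu with rfl | rfl <;>
        simp only [neg_mul, mul_neg, neg_neg, mul_sub, sub_mul, mul_add, add_mul, ← mul_assoc,
          hs.sq, hu.1, e0, e1, e2, e3, zero_mul, sub_zero, zero_sub, zero_add, add_zero, neg_zero]
    have k1 := key u hu (Or.inl rfl)
    have k2 := key (-u) hu.neg (Or.inr rfl)
    constructor
    · have h := k1.add k2 ?_ ?_
      · convert h.smul (2 : k)⁻¹ using 1
        simp only [neg_mul, mul_neg, neg_neg]
        match_scalars <;> field_simp <;> ring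
      all_goals
        simp only [neg_mul, mul_neg, neg_neg, mul_sub, sub_mul, mul_add, add_mul, ← mul_assoc,
          hs.sq, hu.1, e0, e1, e2, e3, zero_mul, sub_zero, zero_sub, zero_add, add_zero, neg_zero,
          sub_self, neg_add_cancel, add_neg_cancel]
    · have h := k1.add k2.neg ?_ ?_
      · convert h.smul (2 : k)⁻¹ using 1
        simp only [neg_mul, mul_neg, neg_neg]
        match_scalars <;> field_simp <;> ring
      all_goals
        simp only [neg_mul, mul_neg, neg_neg, mul_sub, sub_mul, mul_add, add_mul, ← mul_assoc,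
          hs.sq, hu.1, e0, e1, e2, e3, zero_mul, sub_zero, zero_sub, zero_add, add_zero, neg_zero,
          sub_self, neg_add_cancel, add_neg_cancel]
  -- `u y u = 0`
  have huyu : ∀ {y : EndM}, MinQ G y → u * y * u = 0 := by
    intro y hy
    by_contra h0
    have hle : rk (u * y * u) ≤ rk y := by
      rw [mul_assoc]
      refine (Submodule.finrank_mono (show LinearMap.range (u * (y * u)) ≤
        (LinearMap.range y).map u from ?_)).trans (Submodule.finrank_map_le _ _)
      rintro _ ⟨v, rfl⟩
      exact ⟨y (u v), LinearMap.mem_range_self y _, rfl⟩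
    obtain ⟨z, hz, hzne⟩ := exists_witness h2 h3 hirr (hy.of_rk_le (husu hy).1 h0 hle)
    have hy' := hy.conjugate_qel hu
    have hp := hpol hy' hz
    have e3 : ∀ x : EndM, x * u * u = 0 := fun x => by rw [mul_assoc, hu.1, mul_zero]
    simp only [mul_sub, sub_mul, mul_add, add_mul, neg_mul, mul_neg, ← mul_assoc, e3, zero_mul, sub_zero, zero_sub,
      zero_add, add_zero, hpol hy hz] at hp
    refine hzne ((smul_eq_zero.1 (?_ : (2 : k) • (z * (u * y * u) * z) = 0)).resolve_left h2)
    rw [two_smul]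
    simp only [← mul_assoc]
    linear_combination (norm := abel) -hp
  by_contra hne
  have hsus := hall s hs
  set w := s * u - u * s with hw
  have hle : rk w ≤ rk s := by
    have h1 := rk_mul u s
    have h2' : LinearMap.range (s * u) ≤ LinearMap.range s ⊓ LinearMap.ker u := by
      rintro _ ⟨v, rfl⟩
      exact ⟨LinearMap.mem_range_self s (u v), LinearMap.congr_fun (huyu hs) v⟩
    have h3' : LinearMap.range w ≤ LinearMap.range (s * u) ⊔ LinearMap.range (u * s) := by
      rintro _ ⟨v, rfl⟩
      exact sub_mem (Submodule.mem_sup_left (LinearMap.mem_range_self (s * u) v))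
        (Submodule.mem_sup_right (LinearMap.mem_range_self (u * s) v))
    have h4 := Submodule.finrank_sup_add_finrank_inf_eq (LinearMap.range (s * u)) (LinearMap.range (u * s))
    have h5 := Submodule.finrank_mono h2'
    have h6 := Submodule.finrank_mono h3'
    simp only [rk] at h1 ⊢
    omega
  obtain ⟨z, hz, hzne⟩ := exists_witness h2 h3 hirr
    (hs.of_rk_le (husu hs).2 (sub_ne_zero.2 hne) hle)
  apply hzne
  simp only [hw, mul_sub, sub_mul, ← mul_assoc, hpol hs hz, sub_self]

include h2 h3 in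
/-- Every quadratic element is in the root groups times their centralizer. -/
theorem qunit_mem_cocentral (hirr : IsIrreducibleFor G) {u : EndM} (hu : QEl G u) :
    (qunit u : GLM) ∈ (⨆ A ∈ quadraticRootSubgroups G, A) ⊔
      (G ⊓ Subgroup.centralizer
        ((⨆ A ∈ quadraticRootSubgroups G, A : Subgroup (LinearMap.GeneralLinearGroup k M)) : Set GLM)) := by
  suffices H : ∀ n : ℕ, ∀ u : EndM, QEl G u → rk u = n → (qunit u : GLM) ∈
      (⨆ A ∈ quadraticRootSubgroups G, A) ⊔ (G ⊓ Subgroup.centralizer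
        ((⨆ A ∈ quadraticRootSubgroups G, A : Subgroup (LinearMap.GeneralLinearGroup k M)) : Set GLM)) from
    H _ u hu rfl
  intro n
  induction n using Nat.strong_induction_on with
  | _ n ih =>
  intro u hu hn
  by_cases hex : ∃ s, MinQ G s ∧ s * u * s ≠ 0
  · obtain ⟨s, hs, hne⟩ := hex
    obtain ⟨y, t, hy, ht, hyt, hty, rfl, hlt, -⟩ := exists_split h2 h3 hs hu hne
    rw [← qunit_mul hy.sq ht.1 hyt hty]
    refine mul_mem (Subgroup.mem_sup_left ?_) (ih _ (hn ▸ hlt) t ht rfl)
    exact le_iSup₂ (f := fun (A : Subgroup GLM) (_ : A ∈ quadraticRootSubgroups G) => A) _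
      (mem_quadraticRootSubgroups_iff.2 ⟨y, hy, rfl⟩) (qunit_mem_rootGroup (self_mem_classSpace hy.1))
  · push Not at hex
    refine Subgroup.mem_sup_right (Subgroup.mem_inf.2 ⟨hu.qunit_mem, Subgroup.mem_centralizer_iff.2 ?_⟩)
    intro g hg
    have hle : (⨆ A ∈ quadraticRootSubgroups G, A) ≤ Subgroup.centralizer {(qunit u : GLM)} := by
      refine iSup₂_le fun A hA => ?_
      obtain ⟨s, hs, rfl⟩ := mem_quadraticRootSubgroups_iff.1 hA
      intro x hx
      rw [Subgroup.mem_centralizer_singleton_iff, eq_qunit_of_mem hx, qunit_commute_iff hx.1.1 hu.1]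
      rcases eq_or_ne (devMap x) 0 with h0 | h0
      · simp [h0]
      · exact commute_of_forall_sus h2 h3 hirr hu hex (hs.class_spec hx h0).1
    exact Subgroup.mem_centralizer_singleton_iff.1 (hle hg)

end Cfsg.Agent.RootSub.QP
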