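import Cfsg.Agent.RootSub.QP.Classes

/-!
# Invertible pairs generate `SL₂` over a field
-/

set_option autoImplicit false
set_option linter.unusedSimpArgs false

namespace Cfsg.Agent.RootSub.QP

open Cfsg SL2Gen

variable {k : Type*} [Field k] {M : Type*} [AddCommGroup M] [Module k M] [FiniteDimensional k M]

local notation "GLM" => LinearMap.GeneralLinearGroup k M
local notation "EndM" => M →ₗ[k] M

variable {G : Subgroup (LinearMap.GeneralLinearGroup k M)} {s t : M →ₗ[k] M}

theorem Inv.exists_exact_model (hs : MinQ G s) (ht : MinQ G t) (h : Inv s t) :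
    ∃ m : Model s t (LinearMap.range ((s * t) ^ 0 * s)),
      m.i1 = (LinearMap.range ((s * t) ^ 0 * s)).subtype ∧
      s = m.i1 ∘ₗ m.p2 ∧ t = m.i2 ∘ₗ m.A ∘ₗ m.p1 := by
  have hstab : (LinearMap.range ((s * t) ^ 0 * s)).map (s * t) = LinearMap.range ((s * t) ^ 0 * s) := by
    rw [pow_zero, one_mul, ← LinearMap.range_comp]
    exact h.range_sts hs ht
  obtain ⟨m, hi1, hAn⟩ := exists_model hs.sq ht.sq hstab
  have hseq : s = m.i1 ∘ₗ m.p2 := by
    ext v
    have := hAn v
    simp only [pow_zero, one_mul, Module.End.one_apply] at this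
    rw [LinearMap.comp_apply, hi1]
    exact this.symm
  refine ⟨m, hi1, hseq, ?_⟩
  ext v
  have hv : t v ∈ LinearMap.range (t * s) := h.map_range hs ht ▸ LinearMap.mem_range_self t v
  obtain ⟨w, hw⟩ := hv
  have e : t v = m.i2 (m.A (m.p2 w)) := by
    rw [← hw, Module.End.mul_apply, LinearMap.congr_fun hseq w, LinearMap.comp_apply, m.ti1]
  rw [LinearMap.comp_apply, LinearMap.comp_apply, ← m.p2t v, e, m.p22]

namespace Model

variable {V : Type*} [AddCommGroup V] [Module k V] (m : Model s t V)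

/-- An exact model: nothing outside the stable part. -/
def Exact : Prop := s = m.i1 ∘ₗ m.p2 ∧ t = m.i2 ∘ₗ m.A ∘ₗ m.p1

variable {m}

theorem Exact.map_gen_uu (he : m.Exact) (hs : s * s = 0) (c : k) :
    m.glHom (uu (algebraMap k m.Alg c)) = (qunit (c • s) : GLM) := by
  apply Units.ext
  rw [m.glHom_uu, coe_qunit (smul_sq_zero hs c)]
  ext v
  simp [LinearMap.congr_fun he.1 v]

theorem Exact.map_gen_vv (he : m.Exact) (ht : t * t = 0) (c : k) :
    m.glHom (vv (algebraMap k m.Alg c * m.root)) = (qunit (c • t) : GLM) := by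
  apply Units.ext
  rw [m.glHom_vv, coe_qunit (smul_sq_zero ht c)]
  ext v
  simp [LinearMap.congr_fun he.2 v, m.rho_root]

theorem Exact.map_gam (he : m.Exact) (hs : s * s = 0) (ht : t * t = 0) :
    (gam k m.root).map m.glHom = Subgroup.closure
      (Set.range (fun c : k => (qunit (c • s) : GLM)) ∪ Set.range (fun c : k => qunit (c • t))) := by
  rw [gam, MonoidHom.map_closure, Set.image_union, ← Set.range_comp, ← Set.range_comp]
  congr 2 <;> (congr 1; funext c)
  · exact he.map_gen_uu hs c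
  · exact he.map_gen_vv ht c

theorem Exact.glHom_mem_of_mem_gam (he : m.Exact) (hs : QEl G s) (ht : QEl G t)
    {g : Matrix.SpecialLinearGroup (Fin 2) m.Alg} (hg : g ∈ gam k m.root) : m.glHom g ∈ G := by
  have : m.glHom g ∈ (gam k m.root).map m.glHom := Subgroup.mem_map_of_mem _ hg
  rw [he.map_gam hs.1 ht.1] at this
  refine (Subgroup.closure_le G).2 ?_ this
  rintro _ (⟨c, rfl⟩ | ⟨c, rfl⟩)
  exacts [hs.2 c, ht.2 c]

variable [FiniteDimensional k V]

theorem Exact.mem_classSpace_s (he : m.Exact) (h2 : (2 : k) ≠ 0) (h3 : Nat.card k ≠ 3)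
    (hs : QEl G s) (ht : QEl G t) (r : m.Alg) :
    m.i1 ∘ₗ m.rho r ∘ₗ m.p2 ∈ classSpace G s := by
  have hsq : ∀ r : m.Alg, (m.i1 ∘ₗ m.rho r ∘ₗ m.p2) * (m.i1 ∘ₗ m.rho r ∘ₗ m.p2) = (0 : EndM) :=
    fun r => by ext v; simp [m.p21]
  refine ⟨⟨hsq r, fun c => ?_⟩, ?_, ?_⟩
  · have hu : uu (algebraMap k m.Alg c * r) ∈ gam k m.root := by
      rw [← mem_upperSet, m.upperSet_root h2 h3]; exact AddSubgroup.mem_top _
    convert he.glHom_mem_of_mem_gam hs ht hu using 1
    apply Units.ext
    rw [m.glHom_uu, coe_qunit (smul_sq_zero (hsq r) c)]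
    ext v; simp [map_mul, m.rho_algebraMap]
  · refine sup_le (fun v hv => ?_) ?_
    · have hv' := congrArg m.p1 (LinearMap.mem_ker.1 hv)
      rw [m.p1s, map_zero] at hv'
      simp [hv']
    · rintro _ ⟨w, rfl⟩
      simp [m.p2s]
  · rintro _ ⟨v, rfl⟩
    exact ⟨m.i2 (m.rho r (m.p2 v)), by simp [m.si2]⟩

theorem Exact.mem_classSpace_t (he : m.Exact) (h2 : (2 : k) ≠ 0) (h3 : Nat.card k ≠ 3)
    (hs : QEl G s) (ht : QEl G t) (r : m.Alg) :
    m.i2 ∘ₗ m.rho r ∘ₗ m.p1 ∈ classSpace G t := by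
  have hsq : ∀ r : m.Alg, (m.i2 ∘ₗ m.rho r ∘ₗ m.p1) * (m.i2 ∘ₗ m.rho r ∘ₗ m.p1) = (0 : EndM) :=
    fun r => by ext v; simp [m.p12]
  refine ⟨⟨hsq r, fun c => ?_⟩, ?_, ?_⟩
  · have hu : vv (algebraMap k m.Alg c * r) ∈ gam k m.root :=
      vv_mem_of_upperSet m.isUnit_root (m.upperSet_root h2 h3) _
    convert he.glHom_mem_of_mem_gam hs ht hu using 1
    apply Units.ext
    rw [m.glHom_vv, coe_qunit (smul_sq_zero (hsq r) c)]
    ext v; simp [map_mul, m.rho_algebraMap]
  · refine sup_le (fun v hv => ?_) ?_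
    · have hv' := congrArg m.p2 (LinearMap.mem_ker.1 hv)
      rw [m.p2t, map_zero] at hv'
      have : m.p1 v = 0 := m.bij.1 (by rw [hv', map_zero])
      simp [this]
    · rintro _ ⟨w, rfl⟩
      simp [m.p1t]
  · rintro _ ⟨v, rfl⟩
    obtain ⟨x, hx⟩ := m.bij.2 (m.rho r (m.p1 v))
    exact ⟨m.i1 x, by simp [m.ti1, hx]⟩

theorem Exact.isField (he : m.Exact) (h2 : (2 : k) ≠ 0) (h3 : Nat.card k ≠ 3)
    (hs : MinQ G s) (ht : QEl G t) : IsField m.Alg := by
  refine ⟨?_, mul_comm, fun {r} hr => ?_⟩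
  · refine ⟨1, 0, fun h => hs.ne_zero ?_⟩
    have h0 : ∀ x : V, x = 0 := fun x => by
      have h1 : (1 : Module.End k V) = 0 := by rw [← map_one m.rho, h, map_zero]
      exact LinearMap.congr_fun h1 x
    rw [he.1]; ext v; simp [h0 (m.p2 v)]
  · have hx := he.mem_classSpace_s h2 h3 hs.1 ht r
    rcases eq_or_ne (m.i1 ∘ₗ m.rho r ∘ₗ m.p2) 0 with h0 | h0
    · refine absurd (m.rho_injective ?_) hr
      rw [map_zero]
      ext x
      have := congrArg m.p1 (LinearMap.congr_fun h0 (m.i2 x))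
      simpa [m.p11, m.p22] using this
    · obtain ⟨-, -, hr'⟩ := hs.class_spec hx h0
      have hsurj : Function.Surjective (m.rho r) := by
        intro x
        have : m.i1 x ∈ LinearMap.range s := ⟨m.i2 x, m.si2 x⟩
        rw [← hr'] at this
        obtain ⟨v, hv⟩ := this
        refine ⟨m.p2 v, ?_⟩
        have := congrArg m.p1 hv
        simpa [m.p11] using this
      have hbij : Function.Bijective (m.rho r) := ⟨LinearMap.injective_iff_surjective.2 hsurj, hsurj⟩
      have hinj : Function.Injective (LinearMap.mulLeft k r) := by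
        intro x y hxy
        apply m.rho_injective
        have h := congrArg m.rho (show r * x = r * y from hxy)
        rw [map_mul, map_mul] at h
        exact LinearMap.ext fun v => hbij.1 (LinearMap.congr_fun h v)
      obtain ⟨x, hx⟩ := (LinearMap.injective_iff_surjective.1 hinj) 1
      exact ⟨x, hx⟩

theorem Exact.gam_eq_top (he : m.Exact) (h2 : (2 : k) ≠ 0) (h3 : Nat.card k ≠ 3)
    (hs : MinQ G s) (ht : QEl G t) : gam k m.root = ⊤ := by
  letI := (he.isField h2 h3 hs ht).toField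
  exact eq_top_of_all
    (fun x => by rw [← mem_upperSet, m.upperSet_root h2 h3]; exact AddSubgroup.mem_top x)
    (vv_mem_of_upperSet m.isUnit_root (m.upperSet_root h2 h3))

end Model

variable (h2 : (2 : k) ≠ 0) (h3 : Nat.card k ≠ 3)

include h2 h3 in
/-- An invertible pair has a partner `y` in the class of `t` with `s y s = s` and `y s y = y`. -/
theorem Inv.exists_partner (hs : MinQ G s) (ht : MinQ G t) (h : Inv s t) :
    ∃ y ∈ classSpace G t, s * y * s = s ∧ y * s * y = y := by
  obtain ⟨m, -, he⟩ := h.exists_exact_model hs ht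
  refine ⟨_, Model.Exact.mem_classSpace_t (m := m) he h2 h3 hs.1 ht.1 1, ?_, ?_⟩
  · ext v
    simp [LinearMap.congr_fun he.1, m.p11, m.p12, m.p21, m.p22]
  · ext v
    simp [LinearMap.congr_fun he.1, m.p11, m.p12, m.p21, m.p22]

omit [FiniteDimensional k M] in
/-- The Weyl element of `s y s = s`, `y s y = y` sends `s` to `-y`. -/
theorem weyl_conj {s y : EndM} (hss : s * s = 0) (hyy : y * y = 0) (h1 : s * y * s = s)
    (h2' : y * s * y = y) :
    ((qunit s * qunit (-y) * qunit s : GLM) : EndM) * s *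
      (((qunit s * qunit (-y) * qunit s : GLM)⁻¹ : GLM) : EndM) = -y := by
  rw [mul_inv_rev, mul_inv_rev, Units.val_mul, Units.val_mul, Units.val_mul, Units.val_mul,
    coe_qunit hss, coe_qunit (neg_sq_zero hyy), coe_qunit_inv hss,
    coe_qunit_inv (neg_sq_zero hyy)]
  have e1 : ∀ x : EndM, x * s * s = 0 := fun x => by rw [mul_assoc, hss, mul_zero]
  have e2 : ∀ x : EndM, x * s * y * s = x * s := fun x => by
    rw [show x * s * y * s = x * (s * y * s) by simp only [mul_assoc], h1]
  have e3 : ∀ x : EndM, x * y * y = 0 := fun x => by rw [mul_assoc, hyy, mul_zero]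
  have e4 : ∀ x : EndM, x * y * s * y = x * y := fun x => by
    rw [show x * y * s * y = x * (y * s * y) by simp only [mul_assoc], h2']
  simp only [mul_sub, sub_mul, mul_add, add_mul, one_mul, mul_one, ← mul_assoc, neg_mul, mul_neg,
    neg_neg, hss, hyy, h1, h2', e1, e2, e3, e4, zero_mul, sub_zero, add_zero, zero_add, zero_sub,
    neg_zero]
  abel

include h2 h3 in
theorem Inv.finrank_le (hs : MinQ G s) (ht : MinQ G t) (h : Inv s t) :
    Module.finrank k (classSpace G s) ≤ Module.finrank k (classSpace G t) := by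
  obtain ⟨y, hy, h1, h2'⟩ := h.exists_partner h2 h3 hs ht
  have hy0 : y ≠ 0 := fun h0 => hs.ne_zero (by rw [← h1, h0, mul_zero, zero_mul])
  set g : GLM := qunit s * qunit (-y) * qunit s with hg
  have hgG : g ∈ G := mul_mem (mul_mem hs.1.qunit_mem hy.1.neg.qunit_mem) hs.1.qunit_mem
  have he : classSpace G ((g : EndM) * s * ((g⁻¹ : GLM) : EndM)) = classSpace G t := by
    rw [hg, weyl_conj hs.sq hy.1.1 h1 h2']
    exact ht.classSpace_eq (neg_mem hy) (neg_ne_zero.2 hy0)
  let f : classSpace G s →ₗ[k] classSpace G t :=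
    { toFun := fun x => ⟨_, he ▸ conj_mem_classSpace hgG x.2⟩
      map_add' := fun x y => Subtype.ext (by simp [mul_add, add_mul])
      map_smul' := fun c x => Subtype.ext (by simp) }
  refine LinearMap.finrank_le_finrank_of_injective (f := f) fun x y hxy => Subtype.ext ?_
  have := congrArg (fun z : classSpace G t => ((g⁻¹ : GLM) : EndM) * (z : EndM) * ((g⁻¹⁻¹ : GLM) : EndM)) hxy
  simpa only [f, LinearMap.coe_mk, AddHom.coe_mk, conj_conj_inv] using this

include h2 h3 in
theorem Inv.finrank_eq (hs : MinQ G s) (ht : MinQ G t) (h : Inv s t) :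
    Module.finrank k (classSpace G s) = Module.finrank k (classSpace G t) :=
  le_antisymm (h.finrank_le h2 h3 hs ht) (h.symm.finrank_le h2 h3 ht hs)

end Cfsg.Agent.RootSub.QP
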