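import Cfsg.Agent.RootSub.QP.Nilpotent
import Cfsg.Agent.RootSub.SL2Gen.Perfect

/-!
# A pair of quadratic endomorphisms as upper and lower unitriangular matrices

On the stable part of `s t` the pair becomes `uu 1`, `vv α` over `k[α]`.
-/

set_option autoImplicit false
set_option linter.unusedSimpArgs false

namespace Cfsg.Agent.RootSub.QP

open Cfsg SL2Gen Polynomial
open scoped commutatorElement

variable {k : Type*} [Field k] {M : Type*} [AddCommGroup M] [Module k M]

local notation "GLM" => LinearMap.GeneralLinearGroup k M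
local notation "EndM" => M →ₗ[k] M

/-- Coordinates for the stable part of a pair. -/
structure Model (s t : M →ₗ[k] M) (V : Type*) [AddCommGroup V] [Module k V] where
  i1 : V →ₗ[k] M
  i2 : V →ₗ[k] M
  p1 : M →ₗ[k] V
  p2 : M →ₗ[k] V
  A : V →ₗ[k] V
  p11 : ∀ x, p1 (i1 x) = x
  p12 : ∀ x, p1 (i2 x) = 0
  p21 : ∀ x, p2 (i1 x) = 0
  p22 : ∀ x, p2 (i2 x) = x
  si1 : ∀ x, s (i1 x) = 0
  si2 : ∀ x, s (i2 x) = i1 x
  ti1 : ∀ x, t (i1 x) = i2 (A x)
  ti2 : ∀ x, t (i2 x) = 0
  p1s : ∀ m, p1 (s m) = p2 m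
  p2s : ∀ m, p2 (s m) = 0
  p1t : ∀ m, p1 (t m) = 0
  p2t : ∀ m, p2 (t m) = A (p1 m)
  bij : Function.Bijective A

namespace Model

variable {s t : M →ₗ[k] M} {V : Type*} [AddCommGroup V] [Module k V] (m : Model s t V)

/-- The algebra `k[A]`. -/
abbrev Alg := k[X] ⧸ RingHom.ker (aeval (R := k) m.A)

/-- The generator of `k[A]`. -/
noncomputable def root : m.Alg := Ideal.Quotient.mk _ X

/-- `k[A]` as endomorphisms. -/
noncomputable def rho : m.Alg →ₐ[k] Module.End k V :=
  Ideal.Quotient.liftₐ _ (aeval (R := k) m.A) fun _ ha => RingHom.mem_ker.1 ha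

theorem rho_root : m.rho m.root = m.A := aeval_X (R := k) m.A

theorem rho_injective : Function.Injective m.rho := by
  rw [injective_iff_map_eq_zero]
  intro r
  obtain ⟨p, rfl⟩ := Ideal.Quotient.mk_surjective r
  exact fun h => Ideal.Quotient.eq_zero_iff_mem.2 (RingHom.mem_ker.2 h)

theorem exists_aeval (r : m.Alg) : ∃ p : k[X], aeval m.root p = r := by
  obtain ⟨p, rfl⟩ := Ideal.Quotient.mk_surjective r
  refine ⟨p, ?_⟩
  have := aeval_algHom_apply (Ideal.Quotient.mkₐ k (RingHom.ker (aeval (R := k) m.A))) X p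
  rw [aeval_X_left_apply] at this
  exact this

theorem rho_algebraMap (c : k) (x : V) : m.rho (algebraMap k m.Alg c) x = c • x := by
  rw [AlgHom.commutes]; rfl

instance finite_alg [FiniteDimensional k V] : Module.Finite k m.Alg :=
  Module.Finite.of_injective m.rho.toLinearMap m.rho_injective

theorem isUnit_root [FiniteDimensional k V] : IsUnit m.root := by
  have hinj : Function.Injective (LinearMap.mulLeft k m.root) := by
    intro x y hxy
    apply m.rho_injective
    have h := congrArg m.rho (show m.root * x = m.root * y from hxy)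
    rw [map_mul, map_mul, rho_root] at h
    exact LinearMap.ext fun v => m.bij.1 (LinearMap.congr_fun h v)
  obtain ⟨x, hx⟩ := (LinearMap.injective_iff_surjective.1 hinj) 1
  exact IsUnit.of_mul_eq_one x hx

theorem upperSet_root [FiniteDimensional k V] (h2 : (2 : k) ≠ 0) (h3 : Nat.card k ≠ 3) :
    upperSet (gam k m.root) = ⊤ :=
  upperSet_eq_top h2 h3 m.root m.isUnit_root m.exists_aeval

/-- A matrix over `k[A]` acting on the stable part, zero on the rest. -/
noncomputable def act (g : Matrix (Fin 2) (Fin 2) m.Alg) : EndM :=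
  m.i1 ∘ₗ m.rho (g 0 0) ∘ₗ m.p1 + m.i1 ∘ₗ m.rho (g 0 1) ∘ₗ m.p2 +
    m.i2 ∘ₗ m.rho (g 1 0) ∘ₗ m.p1 + m.i2 ∘ₗ m.rho (g 1 1) ∘ₗ m.p2

theorem act_apply (g : Matrix (Fin 2) (Fin 2) m.Alg) (v : M) :
    m.act g v = m.i1 (m.rho (g 0 0) (m.p1 v)) + m.i1 (m.rho (g 0 1) (m.p2 v)) +
      m.i2 (m.rho (g 1 0) (m.p1 v)) + m.i2 (m.rho (g 1 1) (m.p2 v)) := rfl

theorem act_mul (g h : Matrix (Fin 2) (Fin 2) m.Alg) : m.act g * m.act h = m.act (g * h) := by
  ext v
  simp only [Module.End.mul_apply, act_apply, map_add, m.p11, m.p12, m.p21, m.p22,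
    Matrix.mul_apply, Fin.sum_univ_two, map_mul, LinearMap.add_apply, map_zero, zero_add, add_zero]
  abel

/-- The representation on the whole space. -/
noncomputable def endHom : Matrix.SpecialLinearGroup (Fin 2) m.Alg →* Module.End k M where
  toFun g := 1 - m.act 1 + m.act g
  map_one' := by simp
  map_mul' g h := by
    show 1 - m.act 1 + m.act _ = (1 - m.act 1 + m.act _) * (1 - m.act 1 + m.act _)
    simp only [add_mul, mul_add, sub_mul, mul_sub, one_mul, mul_one, act_mul,
      Matrix.SpecialLinearGroup.coe_mul]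
    abel

/-- The representation as a group homomorphism. -/
noncomputable def glHom : Matrix.SpecialLinearGroup (Fin 2) m.Alg →* GLM := m.endHom.toHomUnits

theorem coe_glHom (g : Matrix.SpecialLinearGroup (Fin 2) m.Alg) :
    ((m.glHom g : GLM) : EndM) = 1 - m.act 1 + m.act g := rfl

theorem glHom_uu (r : m.Alg) :
    ((m.glHom (uu r) : GLM) : EndM) = 1 + m.i1 ∘ₗ m.rho r ∘ₗ m.p2 := by
  rw [coe_glHom]
  ext v
  simp [act_apply]
  abel

theorem glHom_vv (r : m.Alg) :
    ((m.glHom (vv r) : GLM) : EndM) = 1 + m.i2 ∘ₗ m.rho r ∘ₗ m.p1 := by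
  rw [coe_glHom]
  ext v
  simp [act_apply]
  abel

theorem glHom_injective : Function.Injective m.glHom := by
  refine (injective_iff_map_eq_one _).2 fun g hg => ?_
  have h : 1 - m.act 1 + m.act g = 1 := by rw [← coe_glHom, hg]; rfl
  have key : ∀ v, m.act g v = m.act 1 v := fun v => by
    have := LinearMap.congr_fun h v
    simp only [LinearMap.add_apply, LinearMap.sub_apply, Module.End.one_apply] at this
    rwa [sub_add, sub_eq_self, sub_eq_zero, eq_comm] at this
  apply sl_ext <;> apply m.rho_injective <;> ext x <;>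
    first
    | have := congrArg m.p1 (key (m.i1 x)); simpa [act_apply, m.p11, m.p12, m.p21, m.p22] using this
    | have := congrArg m.p1 (key (m.i2 x)); simpa [act_apply, m.p11, m.p12, m.p21, m.p22] using this
    | have := congrArg m.p2 (key (m.i1 x)); simpa [act_apply, m.p11, m.p12, m.p21, m.p22] using this
    | have := congrArg m.p2 (key (m.i2 x)); simpa [act_apply, m.p11, m.p12, m.p21, m.p22] using this

/-- The remainder of `s`. -/
def s0 : EndM := s - m.i1 ∘ₗ m.p2

/-- The remainder of `t`. -/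
def t0 : EndM := t - m.i2 ∘ₗ m.A ∘ₗ m.p1

theorem s0_sq (hs : s * s = 0) : m.s0 * m.s0 = 0 := by
  ext v
  have h := LinearMap.congr_fun hs v
  simp only [Module.End.mul_apply, LinearMap.zero_apply] at h
  simp [s0, h, m.si1, m.p2s, m.p21]

theorem t0_sq (ht : t * t = 0) : m.t0 * m.t0 = 0 := by
  ext v
  have h := LinearMap.congr_fun ht v
  simp only [Module.End.mul_apply, LinearMap.zero_apply] at h
  simp [t0, h, m.ti2, m.p1t, m.p12]

theorem pow_split (n : ℕ) :
    (s * t) ^ n * s = (m.s0 * m.t0) ^ n * m.s0 + m.i1 ∘ₗ (m.A ^ n) ∘ₗ m.p2 := by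
  induction n with
  | zero => ext v; simp [s0]
  | succ n ih =>
    have hP : ∀ v, m.p1 (((m.s0 * m.t0) ^ n * m.s0) v) = 0 ∧
        m.p2 (((m.s0 * m.t0) ^ n * m.s0) v) = 0 := by
      intro v
      cases n with
      | zero => simp [s0, m.p1s, m.p2s, m.p11, m.p21]
      | succ i => rw [pow_succ']; simp [s0, t0, m.p1s, m.p2s, m.p11, m.p21]
    rw [pow_succ', mul_assoc, ih, pow_succ' (m.s0 * m.t0), mul_assoc (m.s0 * m.t0)]
    generalize hZ : (m.s0 * m.t0) ^ n * m.s0 = Z at hP ⊢
    ext v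
    simp [s0, t0, pow_succ', (hP v).1, (hP v).2, m.p11, m.p12, m.p21, m.p22, m.si1, m.si2,
      m.ti1, m.ti2, m.p1t, m.p2t, m.p1s, m.p2s]

variable {G : Subgroup (LinearMap.GeneralLinearGroup k M)}

theorem act_comm_s0 (g : Matrix (Fin 2) (Fin 2) m.Alg) (c : k) :
    m.act g * (c • m.s0) = 0 ∧ (c • m.s0) * m.act g = 0 := by
  constructor <;> ext v <;>
    simp [act_apply, s0, m.p1s, m.p2s, m.p11, m.p21, m.p22, m.si1, m.si2]

theorem act_comm_t0 (g : Matrix (Fin 2) (Fin 2) m.Alg) (c : k) :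
    m.act g * (c • m.t0) = 0 ∧ (c • m.t0) * m.act g = 0 := by
  constructor <;> ext v <;>
    simp [act_apply, t0, m.p1t, m.p2t, m.p11, m.p12, m.p22, m.ti1, m.ti2]

theorem qunit_split_s (hs : s * s = 0) (c : k) :
    qunit (c • s) = m.glHom (uu (algebraMap k m.Alg c)) * (qunit (c • m.s0) : GLM) := by
  apply Units.ext
  rw [Units.val_mul, glHom_uu, coe_qunit (smul_sq_zero hs c),
    coe_qunit (smul_sq_zero (m.s0_sq hs) c)]
  ext v
  simp [s0, m.p2s, m.p21, smul_sub]
  abel

theorem qunit_split_t (ht : t * t = 0) (c : k) :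
    qunit (c • t) = m.glHom (vv (algebraMap k m.Alg c * m.root)) * (qunit (c • m.t0) : GLM) := by
  apply Units.ext
  rw [Units.val_mul, glHom_vv, coe_qunit (smul_sq_zero ht c),
    coe_qunit (smul_sq_zero (m.t0_sq ht) c)]
  ext v
  simp [t0, rho_root, m.p1t, m.p12, smul_sub]
  abel

/-- When the remainders form a nilpotent pair the stable part alone lies in the group. -/
theorem glHom_uu_mem [FiniteDimensional k V] [FiniteDimensional k M] (h2 : (2 : k) ≠ 0)
    (h3 : Nat.card k ≠ 3) (hs : QEl G s) (ht : QEl G t) {n : ℕ}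
    (hn : (m.s0 * m.t0) ^ n * m.s0 = 0) (r : m.Alg) : m.glHom (uu r) ∈ G := by
  have hs0 := m.s0_sq hs.1
  have ht0 := m.t0_sq ht.1
  let S : Set GLM := {qunit m.s0, qunit m.t0}
  have hbot : commIter S (2 * n + 2) = ⊥ := by
    refine eq_bot_iff.2 ((commIter_le_span S _).trans (Submodule.span_le.2 ?_))
    rintro _ ⟨l, hl, hlen, v, rfl⟩
    have hz := word_prod_eq_zero hs0 ht0 hn (l.map devMap) (by
      intro x hx
      obtain ⟨g, hg, rfl⟩ := List.mem_map.1 hx
      rcases hl g hg with rfl | rfl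
      exacts [Or.inl (devMap_qunit hs0), Or.inr (devMap_qunit ht0)]) (by simpa using hlen)
    have := LinearMap.congr_fun hz v
    simpa [show (devMap : GLM → EndM) = fun g : GLM => (g : EndM) - 1 from rfl, List.map_flatMap,
      List.flatMap_singleton', ← List.map_eq_flatMap, Function.comp_def] using this
  -- elements commuting with the stable part and moving the flag down by `j`
  let L : ℕ → GLM → Prop := fun j h =>
    (∀ g, m.glHom g * h = h * m.glHom g) ∧
      ∀ i, ∀ v ∈ commIter S i, devMap h v ∈ commIter S (i + j) ∧ devMap h⁻¹ v ∈ commIter S (i + j)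
  have hLdev : ∀ {j : ℕ} {h : GLM}, L j h → ∀ i, ∀ v ∈ commIter S i,
      (h : EndM) v ∈ commIter S i := fun {j h} hh i v hv => by
    rw [apply_eq_devMap]
    exact add_mem (commIter_le_of_le S (by omega) (hh.2 i v hv).1) hv
  have hLmul : ∀ {j : ℕ} {a b : GLM}, L j a → L j b → L j (a * b) := by
    intro j a b ha hb
    refine ⟨fun g => by rw [← mul_assoc, ha.1, mul_assoc, hb.1, ← mul_assoc], fun i v hv => ?_⟩
    have e : ∀ x y : GLM, devMap (x * y) v = devMap x (devMap y v) + devMap x v + devMap y v := by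
      intro x y; simp only [devMap_apply, apply_mul, map_sub]; abel
    refine ⟨?_, ?_⟩
    · rw [e]
      exact add_mem (add_mem (commIter_le_of_le S (by omega) (ha.2 _ _ (hb.2 i v hv).1).1)
        (ha.2 i v hv).1) (hb.2 i v hv).1
    · rw [mul_inv_rev, e]
      exact add_mem (add_mem (commIter_le_of_le S (by omega) (hb.2 _ _ (ha.2 i v hv).2).2)
        (hb.2 i v hv).2) (ha.2 i v hv).2
  have hLinv : ∀ {j : ℕ} {a : GLM}, L j a → L j a⁻¹ := by
    intro j a ha
    refine ⟨fun g => ?_, fun i v hv => ⟨(ha.2 i v hv).2, by rw [inv_inv]; exact (ha.2 i v hv).1⟩⟩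
    exact ((Commute.inv_right (show Commute (m.glHom g) a from ha.1 g))).eq
  have hLone : ∀ j, L j (1 : GLM) := fun j =>
    ⟨fun g => by simp, fun i v _ => by simp [devMap_one]⟩
  have hLcomm : ∀ {j : ℕ} {a b : GLM}, L j a → L j b → L (j + j) ⁅a, b⁆ := by
    intro j a b ha hb
    have hmain : ∀ {a b : GLM}, L j a → L j b → ∀ i, ∀ v ∈ commIter S i,
        devMap ⁅a, b⁆ v ∈ commIter S (i + (j + j)) := by
      intro a b ha hb i v hv
      have hw : ((a⁻¹ * b⁻¹ : GLM) : EndM) v ∈ commIter S i := hLdev (hLmul (hLinv ha) (hLinv hb)) i v hv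
      have e : devMap ⁅a, b⁆ v = devMap a (devMap b (((a⁻¹ * b⁻¹ : GLM) : EndM) v)) -
          devMap b (devMap a (((a⁻¹ * b⁻¹ : GLM) : EndM) v)) := by
        simp only [devMap_apply, commutatorElement_def, apply_mul, map_sub, apply_inv_apply]; abel
      rw [e, ← add_assoc]
      exact sub_mem (ha.2 _ _ (hb.2 _ _ hw).1).1 (hb.2 _ _ (ha.2 _ _ hw).1).1
    refine ⟨fun g => ?_, fun i v hv => ⟨hmain ha hb i v hv, ?_⟩⟩
    · rw [commutatorElement_def]
      exact (((Commute.mul_right (ha.1 g) (hb.1 g)).mul_right ((hLinv ha).1 g)).mul_right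
        ((hLinv hb).1 g)).eq
    · rw [commutatorElement_inv]; exact hmain hb ha i v hv
  let P : ℕ → Subgroup (Matrix.SpecialLinearGroup (Fin 2) m.Alg) := fun j =>
    { carrier := {g | ∃ h, L j h ∧ m.glHom g * h ∈ G}
      one_mem' := ⟨1, hLone j, by simp⟩
      mul_mem' := by
        rintro a b ⟨h, hh, ha⟩ ⟨h', hh', hb⟩
        refine ⟨h * h', hLmul hh hh', ?_⟩
        convert mul_mem ha hb using 1
        rw [map_mul, mul_assoc, ← mul_assoc (m.glHom b), hh.1]
        simp only [mul_assoc]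
      inv_mem' := by
        rintro a ⟨h, hh, ha⟩
        refine ⟨h⁻¹, hLinv hh, ?_⟩
        convert inv_mem ha using 1
        rw [mul_inv_rev, map_inv, ← map_inv, (hLinv hh).1] }
  have hP1 : gam k m.root ≤ P 1 := by
    have hL : ∀ (x : EndM), (x = m.s0 ∨ x = m.t0) → ∀ c : k, L 1 (qunit (c • x)) := by
      intro x hx c
      have hx2 : x * x = 0 := by rcases hx with rfl | rfl; exacts [hs0, ht0]
      have hxS : qunit x ∈ S := by rcases hx with rfl | rfl; exacts [Or.inl rfl, Or.inr rfl]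
      refine ⟨fun g => Units.ext ?_, fun i v hv => ?_⟩
      · rw [Units.val_mul, Units.val_mul, coe_qunit (smul_sq_zero hx2 c), coe_glHom]
        have h1 : ∀ N, m.act N * (c • x) = 0 ∧ (c • x) * m.act N = 0 := fun N => by
          rcases hx with rfl | rfl; exacts [m.act_comm_s0 N c, m.act_comm_t0 N c]
        simp only [mul_add, add_mul, mul_sub, sub_mul, mul_one, one_mul, (h1 _).1, (h1 _).2]
        abel
      · have hd := devMap_mem_commIter hxS hv
        rw [devMap_qunit hx2] at hd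
        rw [qunit_inv (smul_sq_zero hx2 c), devMap_qunit (smul_sq_zero hx2 c),
          devMap_qunit (neg_sq_zero (smul_sq_zero hx2 c))]
        exact ⟨Submodule.smul_mem _ c hd, neg_mem (Submodule.smul_mem _ c hd)⟩
    rw [gam, Subgroup.closure_le]
    rintro _ (⟨c, rfl⟩ | ⟨c, rfl⟩)
    · exact ⟨_, hL _ (Or.inl rfl) c, m.qunit_split_s hs.1 c ▸ hs.2 c⟩
    · exact ⟨_, hL _ (Or.inr rfl) c, m.qunit_split_t ht.1 c ▸ ht.2 c⟩
  have hperf := gam_le_commutator h2 h3 m.isUnit_root (m.upperSet_root h2 h3)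
  have hP : ∀ i, gam k m.root ≤ P (2 ^ i) := by
    intro i
    induction i with
    | zero => exact hP1
    | succ i ih =>
      refine hperf.trans (Subgroup.commutator_le.2 fun a ha b hb => ?_)
      obtain ⟨h, hh, hga⟩ := ih ha
      obtain ⟨h', hh', hgb⟩ := ih hb
      refine ⟨⁅h, h'⁆, by rw [pow_succ, mul_two]; exact hLcomm hh hh', ?_⟩
      have hab : m.glHom ⁅a, b⁆ * ⁅h, h'⁆ = ⁅m.glHom a * h, m.glHom b * h'⁆ := by
        have c1 : Commute (m.glHom b) h := hh.1 b
        have c2 : Commute (m.glHom a⁻¹) h' := hh'.1 _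
        simp only [commutatorElement_def, map_mul, mul_inv_rev]
        rw [← map_inv, ← map_inv] at *
        have q1 : ∀ x y : Matrix.SpecialLinearGroup (Fin 2) m.Alg, ∀ u w : GLM,
            (∀ g, m.glHom g * u = u * m.glHom g) →
            m.glHom x * u * (m.glHom y * w) = m.glHom (x * y) * (u * w) := by
          intro x y u w hu
          rw [map_mul, mul_assoc, ← mul_assoc u, ← hu, mul_assoc, ← mul_assoc]
        calc m.glHom a * m.glHom b * m.glHom a⁻¹ * m.glHom b⁻¹ * (h * h' * h⁻¹ * h'⁻¹)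
            = m.glHom (a * b * a⁻¹ * b⁻¹) * (h * h' * h⁻¹ * h'⁻¹) := by simp only [map_mul]
          _ = (m.glHom a * h) * (m.glHom b * h') * (m.glHom a⁻¹ * h⁻¹) * (m.glHom b⁻¹ * h'⁻¹) := by
              rw [q1 a b h h' hh.1, q1 _ a⁻¹ (h * h') h⁻¹ (hLmul hh hh').1,
                q1 _ b⁻¹ (h * h' * h⁻¹) h'⁻¹ (hLmul (hLmul hh hh') (hLinv hh)).1]
          _ = _ := by rw [← (hLinv hh).1 a⁻¹, ← (hLinv hh').1 b⁻¹]
      rw [hab, commutatorElement_def]
      exact mul_mem (mul_mem (mul_mem hga hgb) (inv_mem hga)) (inv_mem hgb)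
  have hu : uu r ∈ gam k m.root := by
    rw [← mem_upperSet, m.upperSet_root h2 h3]; exact AddSubgroup.mem_top r
  obtain ⟨h, hh, hg⟩ := hP (2 * n + 2) hu
  have h1 : h = 1 := by
    apply Units.ext
    refine LinearMap.ext fun v => ?_
    have hv := (hh.2 0 v Submodule.mem_top).1
    have hle : 2 * n + 2 ≤ 0 + 2 ^ (2 * n + 2) := by
      have := (Nat.lt_two_pow_self (n := 2 * n + 2)); omega
    have := commIter_le_of_le S hle hv
    rw [hbot, Submodule.mem_bot, devMap_apply, sub_eq_zero] at this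
    exact this
  rwa [h1, mul_one] at hg

end Model

variable [FiniteDimensional k M]

/-- A model on the stable range of `(s t) ^ n s`. -/
theorem exists_model {s t : EndM} (hs : s * s = 0) (ht : t * t = 0) {n : ℕ}
    (hstab : (LinearMap.range ((s * t) ^ n * s)).map (s * t) = LinearMap.range ((s * t) ^ n * s)) :
    ∃ m : Model s t (LinearMap.range ((s * t) ^ n * s)),
      m.i1 = (LinearMap.range ((s * t) ^ n * s)).subtype ∧
      ∀ v, ((m.A ^ n) (m.p2 v) : M) = ((s * t) ^ n * s) v := by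
  set S1 := LinearMap.range ((s * t) ^ n * s) with hS1
  have hmaps : ∀ x ∈ S1, (s * t) x ∈ S1 := fun x hx => hstab ▸ Submodule.mem_map_of_mem hx
  let A : S1 →ₗ[k] S1 := (s * t).restrict hmaps
  have hAsurj : Function.Surjective A := by
    rintro ⟨y, hy⟩
    rw [← hstab] at hy
    obtain ⟨x, hx, rfl⟩ := hy
    exact ⟨⟨x, hx⟩, rfl⟩
  have hA : Function.Bijective A := ⟨LinearMap.injective_iff_surjective.2 hAsurj, hAsurj⟩
  obtain ⟨u, hu⟩ := (Module.End.isUnit_iff A).2 hA
  set Ai : S1 →ₗ[k] S1 := ((u⁻¹ : (Module.End k S1)ˣ) : Module.End k S1) with hAi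
  have hAAi : ∀ x, A (Ai x) = x := fun x => by
    rw [← hu, hAi, ← Module.End.mul_apply, Units.mul_inv]; rfl
  have hAiA : ∀ x, Ai (A x) = x := fun x => by
    rw [← hu, hAi, ← Module.End.mul_apply, Units.inv_mul]; rfl
  have hAn : ∀ (j : ℕ) (x : S1), (((A ^ j) x : S1) : M) = ((s * t) ^ j) (x : M) := by
    intro j
    induction j with
    | zero => intro x; rfl
    | succ j ih => intro x; rw [pow_succ', pow_succ', Module.End.mul_apply, Module.End.mul_apply, ← ih]; rfl
  have hAinj : ∀ j, Function.Injective (A ^ j : Module.End k S1) := fun j => by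
    rw [Module.End.coe_pow]; exact hA.1.iterate j
  have hAiInv : ∀ (j : ℕ) (x : S1), (A ^ j) ((Ai ^ j) x) = x ∧ (Ai ^ j) ((A ^ j) x) = x := by
    intro j x
    rw [← Module.End.mul_apply, ← Module.End.mul_apply, ← hu, hAi, ← Units.val_pow_eq_pow_val,
      ← Units.val_pow_eq_pow_val, ← Units.val_mul, ← Units.val_mul, inv_pow, mul_inv_cancel,
      inv_mul_cancel]
    exact ⟨rfl, rfl⟩
  have hs0 : ∀ x : S1, s (x : M) = 0 := by
    rintro ⟨_, v, rfl⟩
    cases n with
    | zero => simpa using LinearMap.congr_fun hs v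
    | succ i =>
      show s (((s * t) ^ (i + 1) * s) v) = 0
      rw [pow_succ']
      simpa using LinearMap.congr_fun hs (t (((s * t) ^ i * s) v))
  have ht0 : ∀ x : M, t (t x) = 0 := fun x => LinearMap.congr_fun ht x
  have hss : ∀ x : M, s (s x) = 0 := fun x => LinearMap.congr_fun hs x
  -- `(s t) ^ (n + 1)` maps into the stable range
  have hY : ∀ v, ((s * t) ^ (n + 1)) v ∈ S1 := fun v => ⟨t v, by
    rw [pow_succ]; rfl⟩
  let X0 : M →ₗ[k] S1 := LinearMap.codRestrict S1 ((s * t) ^ n * s) fun v => LinearMap.mem_range_self _ v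
  let Y0 : M →ₗ[k] S1 := LinearMap.codRestrict S1 ((s * t) ^ (n + 1)) hY
  refine ⟨{
    i1 := S1.subtype
    i2 := t ∘ₗ S1.subtype ∘ₗ Ai
    p1 := (Ai ^ (n + 1)) ∘ₗ Y0
    p2 := (Ai ^ n) ∘ₗ X0
    A := A
    p11 := fun x => ?_
    p12 := fun x => ?_
    p21 := fun x => ?_
    p22 := fun x => ?_
    si1 := fun x => hs0 x
    si2 := fun x => ?_
    ti1 := fun x => ?_
    ti2 := fun x => ht0 _
    p1s := fun v => ?_
    p2s := fun v => ?_
    p1t := fun v => ?_
    p2t := fun v => ?_
    bij := hA }, rfl, fun v => ?_⟩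
  · apply hAinj (n + 1)
    rw [LinearMap.comp_apply, (hAiInv _ _).1]
    exact Subtype.ext (hAn _ x).symm
  · apply hAinj (n + 1)
    rw [LinearMap.comp_apply, (hAiInv _ _).1, map_zero]
    refine Subtype.ext ?_
    show ((s * t) ^ (n + 1)) (t (Ai x : M)) = 0
    rw [pow_succ, Module.End.mul_apply, Module.End.mul_apply, ht0, map_zero, map_zero]
  · apply hAinj n
    rw [LinearMap.comp_apply, (hAiInv _ _).1, map_zero]
    refine Subtype.ext ?_
    show ((s * t) ^ n) (s (x : M)) = 0
    rw [hs0, map_zero]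
  · apply hAinj n
    rw [LinearMap.comp_apply, (hAiInv _ _).1]
    refine Subtype.ext ?_
    show ((s * t) ^ n) (s (t (Ai x : M))) = _
    rw [hAn]
    exact congrArg _ (congrArg Subtype.val (hAAi x))
  · exact congrArg Subtype.val (hAAi x)
  · show t (x : M) = t (Ai (A x) : M)
    rw [hAiA]
  · apply hAinj (n + 1)
    rw [LinearMap.comp_apply, (hAiInv _ _).1, pow_succ', Module.End.mul_apply, LinearMap.comp_apply,
      (hAiInv _ _).1]
    refine Subtype.ext ?_
    show ((s * t) ^ (n + 1)) (s v) = (s * t) (((s * t) ^ n * s) v)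
    rw [pow_succ']; rfl
  · apply hAinj n
    rw [LinearMap.comp_apply, (hAiInv _ _).1, map_zero]
    refine Subtype.ext ?_
    show ((s * t) ^ n) (s (s v)) = 0
    rw [hss, map_zero]
  · apply hAinj (n + 1)
    rw [LinearMap.comp_apply, (hAiInv _ _).1, map_zero]
    refine Subtype.ext ?_
    show ((s * t) ^ (n + 1)) (t v) = 0
    rw [pow_succ, Module.End.mul_apply, Module.End.mul_apply, ht0, map_zero, map_zero]
  · apply hAinj n
    rw [LinearMap.comp_apply, (hAiInv _ _).1]
    refine Subtype.ext ?_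
    rw [← Module.End.mul_apply, ← pow_succ, LinearMap.comp_apply, (hAiInv _ _).1]
    show ((s * t) ^ n) (s (t v)) = ((s * t) ^ (n + 1)) v
    rw [pow_succ]; rfl
  · rw [LinearMap.comp_apply, (hAiInv _ _).1]; rfl

variable {G : Subgroup (LinearMap.GeneralLinearGroup k M)}

/-- **Dichotomy**: `s t s = 0`, or `s t` is bijective on the range of `s`. -/
theorem sts_eq_zero_or_range (h2 : (2 : k) ≠ 0) (h3 : Nat.card k ≠ 3) {s t : EndM}
    (hs : MinQ G s) (ht : MinQ G t) :
    s * t * s = 0 ∨ LinearMap.range (s * t * s) = LinearMap.range s := by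
  rcases eq_or_ne (s * t * s) 0 with h0 | h0
  · exact Or.inl h0
  right
  let r : ℕ → ℕ := fun n => rk ((s * t) ^ n * s)
  obtain ⟨n, hn⟩ : ∃ n, ∀ j, r n ≤ r j := ⟨Function.argmin r, fun j => Function.argmin_le r j⟩
  set S1 := LinearMap.range ((s * t) ^ n * s) with hS1
  have hmap : S1.map (s * t) = LinearMap.range ((s * t) ^ (n + 1) * s) := by
    rw [hS1, ← LinearMap.range_comp, pow_succ', mul_assoc]; rfl
  have hle : S1.map (s * t) ≤ S1 := by
    rw [hmap]
    rintro _ ⟨v, rfl⟩
    exact ⟨(t * s) v, by rw [pow_succ]; rfl⟩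
  have hstab : S1.map (s * t) = S1 := by
    refine Submodule.eq_of_le_of_finrank_le hle ?_
    rw [hmap]; exact hn (n + 1)
  obtain ⟨m, hi1, hAn⟩ := exists_model hs.sq ht.sq hstab
  have hrem : (m.s0 * m.t0) ^ n * m.s0 = 0 := by
    have h := m.pow_split n
    have e : m.i1 ∘ₗ (m.A ^ n) ∘ₗ m.p2 = (s * t) ^ n * s := by
      ext v; simp only [LinearMap.comp_apply, hi1, Submodule.subtype_apply, hAn]
    rw [e] at h
    exact right_eq_add.1 h
  have hq : QEl G (m.i1 ∘ₗ m.p2) := by
    refine ⟨?_, fun c => ?_⟩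
    · ext v; simp [m.p21]
    · have := m.glHom_uu_mem h2 h3 hs.1 ht.1 hrem (algebraMap k m.Alg c)
      convert this using 1
      apply Units.ext
      rw [m.glHom_uu, coe_qunit (smul_sq_zero (by ext v; simp [m.p21]) c)]
      ext v; simp
  have hXne : (s * t) ^ n * s ≠ 0 := fun h => h0 (sts_eq_zero_of_nilpotent h2 hs n ht h)
  have hne : m.i1 ∘ₗ m.p2 ≠ 0 := by
    intro h
    apply hXne
    ext v
    have hv : m.p2 v = 0 := Subtype.ext (by simpa [hi1] using LinearMap.congr_fun h v)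
    rw [← hAn v, hv, map_zero]; rfl
  have hsub : S1 ≤ LinearMap.range s := by
    cases n with
    | zero => rw [hS1, pow_zero, one_mul]
    | succ i =>
      rintro _ ⟨v, rfl⟩
      exact ⟨t (((s * t) ^ i * s) v), by rw [pow_succ']; rfl⟩
  have heq : S1 = LinearMap.range s := by
    refine Submodule.eq_of_le_of_finrank_le hsub ((hs.2.2 _ hq hne).trans ?_)
    refine (Submodule.finrank_mono (LinearMap.range_comp_le_range m.p2 m.i1)).trans ?_
    rw [hi1, Submodule.range_subtype]
  rw [← heq, ← hstab, heq, ← LinearMap.range_comp]; rfl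

end Cfsg.Agent.RootSub.QP
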