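import Cfsg.Agent.RootSub.QP.Quad

/-!
# A nilpotent pair of minimal quadratic endomorphisms has `s t s = 0`
-/

set_option autoImplicit false
set_option linter.unusedSimpArgs false

namespace Cfsg.Agent.RootSub.QP

open Cfsg

variable {k : Type*} [Field k] {M : Type*} [AddCommGroup M] [Module k M] [FiniteDimensional k M]

local notation "GLM" => LinearMap.GeneralLinearGroup k M
local notation "EndM" => M →ₗ[k] M

variable {G : Subgroup (LinearMap.GeneralLinearGroup k M)}

/-- The conjugate `(1 + t) s (1 - t)`. -/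
theorem MinQ.conjugate {s t : EndM} (hs : MinQ G s) (ht : MinQ G t) :
    MinQ G (s + (t * s - s * t) - t * s * t) := by
  have h := hs.conj ht.1.qunit_mem
  rw [coe_qunit ht.sq, coe_qunit_inv ht.sq] at h
  convert h using 1
  noncomm_ring

omit [FiniteDimensional k M] in
/-- The commutators of `1 + a s` with a conjugate of `1 + s`. -/
theorem qel_bracket {s s' : EndM} (hs : QEl G s) (hs' : QEl G s') (h1 : s * s' * s = 0)
    (h2 : s' * s * s' = 0) : QEl G (s * s' - s' * s) := by
  have hss := hs.1
  have hss' := hs'.1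
  have e1 : ∀ x : EndM, x * s * s = 0 := fun x => by rw [mul_assoc, hss, mul_zero]
  have e2 : ∀ x : EndM, x * s' * s' = 0 := fun x => by rw [mul_assoc, hss', mul_zero]
  have e3 : ∀ x : EndM, x * s * s' * s = 0 := fun x => by
    rw [show x * s * s' * s = x * (s * s' * s) by simp only [mul_assoc], h1, mul_zero]
  have e4 : ∀ x : EndM, x * s' * s * s' = 0 := fun x => by
    rw [show x * s' * s * s' = x * (s' * s * s') by simp only [mul_assoc], h2, mul_zero]
  have hsq : (s * s' - s' * s) * (s * s' - s' * s) = 0 := by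
    simp only [mul_sub, sub_mul, ← mul_assoc, h1, h2, e1, e2, zero_mul, sub_zero, zero_sub,
      neg_zero, sub_self]
  refine ⟨hsq, fun a => ?_⟩
  have key : qunit (a • (s * s' - s' * s)) =
      qunit (a • s) * qunit s' * (qunit (a • s))⁻¹ * (qunit s' : GLM)⁻¹ := by
    apply Units.ext
    rw [Units.val_mul, Units.val_mul, Units.val_mul, coe_qunit (smul_sq_zero hsq a),
      coe_qunit (smul_sq_zero hss a), coe_qunit hss', coe_qunit_inv (smul_sq_zero hss a),
      coe_qunit_inv hss']
    simp only [mul_sub, sub_mul, mul_add, add_mul, one_mul, mul_one, smul_mul_assoc, mul_smul_comm,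
      smul_smul, ← mul_assoc, hss, hss', h1, h2, e1, e2, e3, e4, smul_zero, zero_mul, smul_sub,
      sub_zero, add_zero, zero_add, zero_sub]
    module
  rw [key]
  exact mul_mem (mul_mem (mul_mem (hs.2 a) hs'.qunit_mem) (inv_mem (hs.2 a))) (inv_mem hs'.qunit_mem)

omit [FiniteDimensional k M] in
/-- `2 s t s + (t s t s - s t s t)` is quadratic when `s t s t s = 0`. -/
theorem qel_cross {s t : EndM} (hs : QEl G s) (ht : QEl G t) (h : s * t * s * t * s = 0) :
    QEl G (s * t * s + s * t * s + (t * s * t * s - s * t * s * t)) := by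
  have hc := hs.conj ht.qunit_mem
  rw [coe_qunit ht.1, coe_qunit_inv ht.1] at hc
  have e1 : ∀ x : EndM, x * s * s = 0 := fun x => by rw [mul_assoc, hs.1, mul_zero]
  have e2 : ∀ x : EndM, x * s * t * s * t * s = 0 := fun x => by
    rw [show x * s * t * s * t * s = x * (s * t * s * t * s) by simp only [mul_assoc], h, mul_zero]
  have e3 : ∀ x : EndM, x * t * t = 0 := fun x => by rw [mul_assoc, ht.1, mul_zero]
  have h1 : s * ((1 + t) * s * (1 - t)) * s = 0 := by
    simp only [mul_sub, sub_mul, mul_add, add_mul, one_mul, mul_one, ← mul_assoc, hs.1, ht.1, h,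
      e1, e2, e3, zero_mul, sub_zero, add_zero, zero_add, zero_sub, neg_zero]
  have h2 : ((1 + t) * s * (1 - t)) * s * ((1 + t) * s * (1 - t)) = 0 := by
    simp only [mul_sub, sub_mul, mul_add, add_mul, one_mul, mul_one, ← mul_assoc, hs.1, ht.1, h,
      e1, e2, e3, neg_mul, mul_neg, zero_mul, sub_zero, add_zero, zero_add, zero_sub, neg_zero, neg_neg, sub_self]
  convert qel_bracket hs hc h1 h2 using 1
  simp only [mul_sub, sub_mul, mul_add, add_mul, one_mul, mul_one, ← mul_assoc, hs.1, ht.1, h,
      e1, e2, e3, zero_mul, sub_zero, add_zero, zero_add, zero_sub, neg_zero]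
  abel

theorem sts_eq_zero_of_two {s t : EndM} (h2 : (2 : k) ≠ 0) (hs : MinQ G s) (ht : MinQ G t)
    (h : s * t * s * t * s = 0) : s * t * s = 0 := by
  have u1 := qel_cross hs.1 ht.1 h
  have u2 := qel_cross hs.1 ht.1.neg (by simp [h])
  have e1 : ∀ x : EndM, x * s * s = 0 := fun x => by rw [mul_assoc, hs.sq, mul_zero]
  have e2 : ∀ x : EndM, x * s * t * s * t * s = 0 := fun x => by
    rw [show x * s * t * s * t * s = x * (s * t * s * t * s) by simp only [mul_assoc], h, mul_zero]
  have e3 : ∀ x : EndM, x * t * t = 0 := fun x => by rw [mul_assoc, ht.sq, mul_zero]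
  have hsum := u1.add u2.neg ?_ ?_
  · have hq : QEl G (s * t * s) := by
      have h4 : (4 : k) ≠ 0 := by
        rw [show (4 : k) = 2 * 2 by norm_num]; exact mul_ne_zero h2 h2
      have := hsum.smul (4 : k)⁻¹
      convert this using 1
      rw [show ∀ (X Y : EndM), (4 : k)⁻¹ • (X + Y) = (4 : k)⁻¹ • X + (4 : k)⁻¹ • Y from
        fun X Y => smul_add _ _ _]
      simp only [neg_mul, mul_neg, neg_neg, neg_add_rev, neg_sub]
      match_scalars <;> field_simp <;> ring
    refine hs.eq_zero_of_lt hq ?_
    refine lt_of_le_of_ne (Submodule.finrank_mono ?_) fun heq => ?_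
    · exact LinearMap.range_comp_le_range (t * s) s |>.trans' (le_of_eq (by rw [mul_assoc]; rfl))
    · have hr : LinearMap.range (s * t * s) = LinearMap.range s :=
        Submodule.eq_of_le_of_finrank_le
          (LinearMap.range_comp_le_range (t * s) s |>.trans' (le_of_eq (by rw [mul_assoc]; rfl)))
          heq.ge
      apply hs.ne_zero
      rw [← LinearMap.range_eq_bot, ← hr, eq_bot_iff]
      rintro _ ⟨m, rfl⟩
      have hm : s (t (s m)) ∈ LinearMap.range (s * t * s) := LinearMap.mem_range_self _ m
      obtain ⟨x, hx⟩ : s m ∈ LinearMap.range (s * t * s) := hr ▸ LinearMap.mem_range_self s m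
      rw [Submodule.mem_bot]
      show s (t (s m)) = 0
      rw [← hx]
      exact LinearMap.congr_fun h x
  all_goals
    simp only [neg_mul, mul_neg, neg_neg, neg_add_rev, neg_sub, mul_sub, sub_mul, mul_add, add_mul,
      ← mul_assoc, hs.sq, ht.sq, h, e1, e2, e3, zero_mul, sub_zero, add_zero, zero_add, zero_sub, neg_zero]

omit [FiniteDimensional k M] in
theorem conjugate_pow {s t : EndM} (hs : s * s = 0) (m : ℕ) :
    (s * (s + (t * s - s * t) - t * s * t)) ^ m * s = (-1 : k) ^ m • ((s * t) ^ (2 * m) * s) := by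
  induction m with
  | zero => simp
  | succ m ih =>
    rw [pow_succ', mul_assoc, ih, mul_smul_comm, show 2 * (m + 1) = 2 * m + 2 by ring]
    generalize hj : 2 * m = j
    have e : s * (s + (t * s - s * t) - t * s * t) = s * t * s - s * t * s * t := by
      simp only [mul_add, mul_sub, ← mul_assoc, hs, zero_mul, zero_add, sub_zero]
    have e0 : s * ((s * t) ^ j * s) = 0 := by
      cases j with
      | zero => simpa using hs
      | succ i => rw [pow_succ']; simp only [← mul_assoc, hs, zero_mul]
    have e1 : (s * t * s - s * t * s * t) * ((s * t) ^ j * s) = -((s * t) ^ (j + 2) * s) := by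
      rw [sub_mul, show s * t * s * ((s * t) ^ j * s) = s * t * (s * ((s * t) ^ j * s)) from
        mul_assoc _ _ _, e0, mul_zero, zero_sub, pow_succ', pow_succ']
      simp only [mul_assoc]
    rw [e, e1, smul_neg, ← neg_smul]
    congr 1; ring

/-- **Nilpotent pairs**: if `(s t) ^ n s = 0` for minimal `s`, `t`, then `s t s = 0`. -/
theorem sts_eq_zero_of_nilpotent (h2 : (2 : k) ≠ 0) {s : EndM} (hs : MinQ G s) :
    ∀ n : ℕ, ∀ {t : EndM}, MinQ G t → (s * t) ^ n * s = 0 → s * t * s = 0 := by
  intro n
  induction n using Nat.strong_induction_on with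
  | _ n ih =>
  intro t ht h
  rcases lt_or_ge n 3 with hn | hn
  · refine sts_eq_zero_of_two h2 hs ht ?_
    have : (s * t) ^ 2 * s = 0 := by
      rw [show 2 = (2 - n) + n by omega, pow_add, mul_assoc, h, mul_zero]
    rw [← this, pow_two]; simp only [mul_assoc]
  · have hs' := hs.conjugate ht
    have h0 : (s * (s + (t * s - s * t) - t * s * t)) ^ ((n + 1) / 2) * s = 0 := by
      rw [conjugate_pow (k := k) hs.sq, show 2 * ((n + 1) / 2) = (2 * ((n + 1) / 2) - n) + n by omega,
        pow_add, mul_assoc, h, mul_zero, smul_zero]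
    have h1 := ih _ (by omega) hs' h0
    have e := conjugate_pow (k := k) (t := t) hs.sq 1
    rw [pow_one, pow_one, h1] at e
    refine sts_eq_zero_of_two h2 hs ht ?_
    have e2 : (s * t) ^ 2 * s = 0 := by simpa using e.symm
    rw [← e2, pow_two]; simp only [mul_assoc]

end Cfsg.Agent.RootSub.QP
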