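import Cfsg.Agent.RootSub.QuadPair
import Cfsg.Agent.RootSub.Unipotent

/-!
# Quadratic endomorphisms of a group of linear maps

Working with `s = σ - 1` in place of `σ`.
-/

set_option autoImplicit false

namespace Cfsg.Agent.RootSub.QP

open Cfsg

variable {k : Type*} [Field k] {M : Type*} [AddCommGroup M] [Module k M]

local notation "GLM" => LinearMap.GeneralLinearGroup k M
local notation "EndM" => M →ₗ[k] M

open scoped Classical in
/-- `1 + s` as a unit, for `s * s = 0`. -/
noncomputable def qunit (s : EndM) : GLM :=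
  if h : s * s = 0 then unipUnit s h else 1

theorem coe_qunit {s : EndM} (h : s * s = 0) : ((qunit s : GLM) : EndM) = 1 + s := by
  rw [qunit, dif_pos h]; rfl

theorem coe_qunit_inv {s : EndM} (h : s * s = 0) : (((qunit s)⁻¹ : GLM) : EndM) = 1 - s := by
  rw [qunit, dif_pos h]; rfl

theorem smul_sq_zero {s : EndM} (h : s * s = 0) (c : k) : (c • s) * (c • s) = 0 := by
  rw [smul_mul_smul_comm, h, smul_zero]

theorem neg_sq_zero {s : EndM} (h : s * s = 0) : (-s) * (-s) = 0 := by rw [neg_mul_neg, h]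

theorem qunit_inv {s : EndM} (h : s * s = 0) : (qunit s)⁻¹ = (qunit (-s) : GLM) := by
  apply Units.ext
  rw [coe_qunit_inv h, coe_qunit (neg_sq_zero h), sub_eq_add_neg]

theorem qunit_zero : (qunit (0 : EndM) : GLM) = 1 :=
  Units.ext (by rw [coe_qunit (mul_zero _), add_zero]; rfl)

theorem qunit_mul {s t : EndM} (hs : s * s = 0) (ht : t * t = 0) (hst : s * t = 0)
    (hts : t * s = 0) : qunit s * qunit t = (qunit (s + t) : GLM) := by
  apply Units.ext
  have h : (s + t) * (s + t) = 0 := by simp [mul_add, add_mul, hs, ht, hst, hts]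
  rw [Units.val_mul, coe_qunit hs, coe_qunit ht, coe_qunit h, add_mul, one_mul, mul_add, mul_one,
    hst]
  abel

theorem qunit_conj {s : EndM} (h : s * s = 0) (g : GLM) :
    g * qunit s * g⁻¹ = qunit ((g : EndM) * s * ((g⁻¹ : GLM) : EndM)) := by
  have h' : ((g : EndM) * s * ((g⁻¹ : GLM) : EndM)) * ((g : EndM) * s * ((g⁻¹ : GLM) : EndM)) = 0 := by
    have : ((g⁻¹ : GLM) : EndM) * (g : EndM) = 1 := g.inv_mul
    calc _ = (g : EndM) * s * (((g⁻¹ : GLM) : EndM) * (g : EndM)) * (s * ((g⁻¹ : GLM) : EndM)) := by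
          simp only [mul_assoc]
      _ = (g : EndM) * (s * s) * ((g⁻¹ : GLM) : EndM) := by rw [this]; simp only [mul_assoc, one_mul]
      _ = 0 := by rw [h, mul_zero, zero_mul]
  apply Units.ext
  rw [Units.val_mul, Units.val_mul, coe_qunit h, coe_qunit h', mul_add, mul_one, add_mul]
  exact congrArg (· + _) g.mul_inv

theorem devMap_qunit {s : EndM} (h : s * s = 0) : devMap (qunit s : GLM) = s := by
  rw [devMap, coe_qunit h]; abel

theorem eq_qunit {σ : GLM} (h : devMap σ * devMap σ = 0) : σ = qunit (devMap σ) := by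
  apply Units.ext; rw [coe_qunit h, devMap]; abel

theorem qunit_inj {s t : EndM} (hs : s * s = 0) (ht : t * t = 0)
    (h : (qunit s : GLM) = qunit t) : s = t := by
  rw [← devMap_qunit hs, h, devMap_qunit ht]

/-- The rank of an endomorphism. -/
noncomputable def rk (s : EndM) : ℕ := Module.finrank k (LinearMap.range s)

theorem rk_zero : rk (0 : EndM) = 0 := by rw [rk, LinearMap.range_zero, finrank_bot]

theorem rk_neg (s : EndM) : rk (-s) = rk s := by rw [rk, rk, LinearMap.range_neg]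

theorem range_conj (g : GLM) (s : EndM) :
    LinearMap.range ((g : EndM) * s * ((g⁻¹ : GLM) : EndM)) = (LinearMap.range s).map (g : EndM) := by
  refine le_antisymm ?_ ?_
  · rintro _ ⟨m, rfl⟩
    exact ⟨_, LinearMap.mem_range_self s _, rfl⟩
  · rintro _ ⟨_, ⟨m, rfl⟩, rfl⟩
    exact ⟨(g : EndM) m, by simp [inv_apply_apply]⟩

theorem ker_conj (g : GLM) (s : EndM) :
    LinearMap.ker ((g : EndM) * s * ((g⁻¹ : GLM) : EndM)) = (LinearMap.ker s).map (g : EndM) := by
  ext m
  constructor
  · intro hm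
    refine ⟨((g⁻¹ : GLM) : EndM) m, ?_, apply_inv_apply g m⟩
    have := congrArg ((g⁻¹ : GLM) : EndM) (LinearMap.mem_ker.1 hm)
    simpa [inv_apply_apply] using this
  · rintro ⟨x, hx, rfl⟩
    simp [inv_apply_apply, LinearMap.mem_ker.1 hx]

theorem rk_conj (g : GLM) (s : EndM) : rk ((g : EndM) * s * ((g⁻¹ : GLM) : EndM)) = rk s := by
  rw [rk, range_conj]
  exact ((Submodule.equivMapOfInjective (g : EndM)
    (Function.LeftInverse.injective (inv_apply_apply g)) _).finrank_eq).symm

variable (G : Subgroup (LinearMap.GeneralLinearGroup k M))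

/-- `s` is a quadratic endomorphism of `G`: `s ^ 2 = 0` and `1 + k s ⊆ G`. Zero is allowed. -/
def QEl (s : EndM) : Prop := s * s = 0 ∧ ∀ c : k, qunit (c • s) ∈ G

/-- A nonzero quadratic endomorphism of minimal rank. -/
def MinQ (s : EndM) : Prop := QEl G s ∧ s ≠ 0 ∧ ∀ t, QEl G t → t ≠ 0 → rk s ≤ rk t

variable {G}

theorem QEl.zero : QEl G (0 : EndM) :=
  ⟨mul_zero _, fun c => by rw [smul_zero, qunit_zero]; exact one_mem G⟩

theorem QEl.qunit_mem {s : EndM} (h : QEl G s) : qunit s ∈ G := by simpa using h.2 1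

theorem QEl.smul {s : EndM} (h : QEl G s) (c : k) : QEl G (c • s) :=
  ⟨smul_sq_zero h.1 c, fun e => by rw [smul_smul]; exact h.2 _⟩

theorem QEl.neg {s : EndM} (h : QEl G s) : QEl G (-s) := by simpa using h.smul (-1)

theorem QEl.add {s t : EndM} (hs : QEl G s) (ht : QEl G t) (hst : s * t = 0) (hts : t * s = 0) :
    QEl G (s + t) := by
  refine ⟨by simp [mul_add, add_mul, hs.1, ht.1, hst, hts], fun c => ?_⟩
  rw [smul_add, ← qunit_mul (smul_sq_zero hs.1 c) (smul_sq_zero ht.1 c)
    (by rw [smul_mul_smul_comm, hst, smul_zero]) (by rw [smul_mul_smul_comm, hts, smul_zero])]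
  exact mul_mem (hs.2 c) (ht.2 c)

theorem QEl.conj {s : EndM} (h : QEl G s) {g : GLM} (hg : g ∈ G) :
    QEl G ((g : EndM) * s * ((g⁻¹ : GLM) : EndM)) := by
  refine ⟨?_, fun c => ?_⟩
  · have e : ((g⁻¹ : GLM) : EndM) * (g : EndM) = 1 := g.inv_mul
    calc _ = (g : EndM) * s * (((g⁻¹ : GLM) : EndM) * (g : EndM)) * (s * ((g⁻¹ : GLM) : EndM)) := by
          simp only [mul_assoc]
      _ = (g : EndM) * (s * s) * ((g⁻¹ : GLM) : EndM) := by rw [e]; simp only [mul_assoc, one_mul]
      _ = 0 := by rw [h.1, mul_zero, zero_mul]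
  · rw [show c • ((g : EndM) * s * ((g⁻¹ : GLM) : EndM)) = (g : EndM) * (c • s) * ((g⁻¹ : GLM) : EndM) by
      simp, ← qunit_conj (smul_sq_zero h.1 c)]
    exact mul_mem (mul_mem hg (h.2 c)) (inv_mem hg)

theorem MinQ.qel {s : EndM} (h : MinQ G s) : QEl G s := h.1

theorem MinQ.sq {s : EndM} (h : MinQ G s) : s * s = 0 := h.1.1

theorem MinQ.ne_zero {s : EndM} (h : MinQ G s) : s ≠ 0 := h.2.1

theorem MinQ.eq_zero_of_lt {s t : EndM} (h : MinQ G s) (ht : QEl G t) (hlt : rk t < rk s) :
    t = 0 := by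
  by_contra h0
  exact absurd (h.2.2 t ht h0) (by omega)

theorem MinQ.rk_eq {s t : EndM} (hs : MinQ G s) (ht : MinQ G t) : rk s = rk t :=
  le_antisymm (hs.2.2 t ht.1 ht.2.1) (ht.2.2 s hs.1 hs.2.1)

theorem MinQ.of_rk_le {s t : EndM} (hs : MinQ G s) (ht : QEl G t) (h0 : t ≠ 0) (hle : rk t ≤ rk s) :
    MinQ G t :=
  ⟨ht, h0, fun u hu hu0 => hle.trans (hs.2.2 u hu hu0)⟩

theorem MinQ.neg {s : EndM} (h : MinQ G s) : MinQ G (-s) :=
  h.of_rk_le h.1.neg (neg_ne_zero.2 h.2.1) (rk_neg s).le

theorem MinQ.conj {s : EndM} (h : MinQ G s) {g : GLM} (hg : g ∈ G) :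
    MinQ G ((g : EndM) * s * ((g⁻¹ : GLM) : EndM)) := by
  refine h.of_rk_le (h.1.conj hg) (fun h0 => h.2.1 ?_) (rk_conj g s).le
  have := congrArg (fun x => ((g⁻¹ : GLM) : EndM) * x * (g : EndM)) h0
  simpa [mul_assoc] using this

theorem MinQ.smul {s : EndM} (h : MinQ G s) {c : k} (hc : c ≠ 0) : MinQ G (c • s) := by
  refine h.of_rk_le (h.1.smul c) (smul_ne_zero hc h.2.1) (le_of_eq ?_)
  rw [rk, rk, LinearMap.range_smul _ _ hc]

theorem mem_quadraticElements_iff {σ : GLM} :
    σ ∈ quadraticElements G ↔ QEl G (devMap σ) ∧ devMap σ ≠ 0 := by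
  constructor
  · rintro ⟨-, ⟨hsq, hne⟩, hsub⟩
    refine ⟨⟨hsq, fun c => hsub ⟨c, ?_⟩⟩, hne⟩
    exact coe_qunit (smul_sq_zero hsq c)
  · rintro ⟨⟨hsq, hc⟩, hne⟩
    refine ⟨?_, ⟨hsq, hne⟩, ?_⟩
    · rw [eq_qunit hsq]; simpa using hc 1
    · rintro τ ⟨c, hτ⟩
      have : τ = qunit (c • devMap σ) := Units.ext (by rw [coe_qunit (smul_sq_zero hsq c)]; exact hτ)
      rw [this]; exact hc c

theorem commutatorRank_eq (σ : GLM) : commutatorRank σ = rk (devMap σ) := rfl

theorem mem_minimalQuadraticElements_iff {σ : GLM} :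
    σ ∈ minimalQuadraticElements G ↔ MinQ G (devMap σ) := by
  constructor
  · rintro ⟨h, hmin⟩
    obtain ⟨hq, h0⟩ := mem_quadraticElements_iff.1 h
    refine ⟨hq, h0, fun t ht ht0 => ?_⟩
    have hmem : qunit t ∈ quadraticElements G :=
      mem_quadraticElements_iff.2 ⟨by rwa [devMap_qunit ht.1], by rwa [devMap_qunit ht.1]⟩
    have := hmin _ hmem
    rwa [commutatorRank_eq, commutatorRank_eq, devMap_qunit ht.1] at this
  · rintro ⟨hq, h0, hmin⟩
    refine ⟨mem_quadraticElements_iff.2 ⟨hq, h0⟩, fun τ hτ => ?_⟩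
    obtain ⟨ht, ht0⟩ := mem_quadraticElements_iff.1 hτ
    exact hmin _ ht ht0

/-- The unipotent closure: lists of deviations of length `n` vanish. -/
theorem isUnipotentOn_closure [FiniteDimensional k M] (S : Set GLM) (n : ℕ)
    (h : ∀ l : List GLM, (∀ g ∈ l, g ∈ S) → l.length = n → (l.map devMap).prod = 0) :
    IsUnipotentOn (Subgroup.closure S) := by
  refine isUnipotentOn_of_flag _ (commIter S) (commIter_antitone S) rfl (n := n) ?_ ?_
  · refine eq_bot_iff.2 ((commIter_le_span S n).trans (Submodule.span_le.2 ?_))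
    rintro _ ⟨l, hl, hlen, m, rfl⟩
    have := LinearMap.congr_fun (h l hl hlen) m
    simpa [show (devMap : GLM → EndM) = fun g : GLM => (g : EndM) - 1 from rfl, List.map_flatMap, List.flatMap_singleton', ← List.map_eq_flatMap,
      Function.comp_def] using this
  · rw [Subgroup.closure_le]
    exact fun g hg i m hm => devMap_mem_commIter hg hm

/-- Alternating products. -/
def alt {S : Type*} [Monoid S] : S → S → ℕ → S
  | _, _, 0 => 1
  | a, b, n + 1 => a * alt b a n

theorem alt_odd {S : Type*} [Monoid S] (a b : S) (j : ℕ) : alt a b (2 * j + 1) = (a * b) ^ j * a := by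
  induction j with
  | zero => simp [alt]
  | succ j ih =>
    show a * (b * alt a b (2 * j + 1)) = _
    rw [ih, pow_succ']; simp only [mul_assoc]

/-- Products of two square zero elements with `(a b)^n a = 0`. -/
theorem word_prod_eq_zero {S : Type*} [Semiring S] {a b : S} (ha : a * a = 0) (hb : b * b = 0)
    {n : ℕ} (h : (a * b) ^ n * a = 0) (l : List S) (hl : ∀ x ∈ l, x = a ∨ x = b)
    (hlen : l.length = 2 * n + 2) : l.prod = 0 := by
  have main : ∀ w : List S, (∀ x ∈ w, x = a ∨ x = b) →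
      w.prod = 0 ∨ w.prod = alt a b w.length ∨ w.prod = alt b a w.length := by
    intro w
    induction w with
    | nil => intro _; exact Or.inr (Or.inl rfl)
    | cons x w ih =>
      intro hw
      rcases ih (fun y hy => hw y (List.mem_cons_of_mem _ hy)) with h0 | h0 | h0 <;>
        rcases hw x (List.mem_cons_self ..) with rfl | rfl <;>
        simp only [List.prod_cons, List.length_cons, h0, mul_zero, true_or]
      · cases hw' : w.length with
        | zero => exact Or.inr (Or.inl rfl)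
        | succ m => left; simp only [alt, ← mul_assoc, ha, zero_mul]
      · exact Or.inr (Or.inr rfl)
      · exact Or.inr (Or.inl rfl)
      · cases hw' : w.length with
        | zero => exact Or.inr (Or.inr rfl)
        | succ m => left; simp only [alt, ← mul_assoc, hb, zero_mul]
  have hba : alt b a (2 * n + 2) = 0 := by
    show b * alt a b (2 * n + 1) = 0
    rw [alt_odd, h, mul_zero]
  have hab : alt a b (2 * n + 2) = 0 := by
    show a * alt b a (2 * n + 1) = 0
    rw [alt_odd, ← mul_assoc, show a * (b * a) ^ n = (a * b) ^ n * a from ?_, h, zero_mul]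
    clear h hlen hba
    induction n with
    | zero => simp
    | succ j ih => rw [pow_succ, ← mul_assoc, ih, pow_succ (a * b)]; simp only [mul_assoc]
  rcases main l hl with h0 | h0 | h0
  · exact h0
  · rw [h0, hlen, hab]
  · rw [h0, hlen, hba]

end Cfsg.Agent.RootSub.QP
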