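import Cfsg.Agent.RootSub.QP.Components
import Cfsg.Agent.Components.Basic

/-!
# A component of a quadratic pair generates a quasisimple group
-/

set_option autoImplicit false
set_option linter.unusedSimpArgs false

namespace Cfsg.Agent.RootSub.QP

open Cfsg SL2Gen
open scoped commutatorElement

section SL2

variable {F : Type*} [Field F]

/-- A diagonal element. -/
noncomputable def diagSL (a : F) (ha : a ≠ 0) : Matrix.SpecialLinearGroup (Fin 2) F :=
  ⟨!![a, 0; 0, a⁻¹], by simp [Matrix.det_fin_two, ha]⟩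

theorem diagSL_conj (a : F) (ha : a ≠ 0) (r : F) :
    diagSL a ha * uu r * (diagSL a ha)⁻¹ = uu (a * a * r) := by
  have := conj_uu_of_upper (diagSL a ha) r (by simp [diagSL])
  simpa [diagSL] using this

theorem eq_top_of_uu_one_mem (h2 : (2 : F) ≠ 0) {K : Subgroup (Matrix.SpecialLinearGroup (Fin 2) F)}
    (hK : K.Normal) (h : uu 1 ∈ K) : K = ⊤ := by
  have hsq : ∀ a : F, uu (a * a) ∈ K := by
    intro a
    rcases eq_or_ne a 0 with rfl | ha
    · rw [mul_zero, uu_zero]; exact one_mem K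
    · have := hK.conj_mem _ h (diagSL a ha)
      rwa [diagSL_conj, mul_one] at this
  have hu : ∀ x : F, uu x ∈ K := by
    intro x
    have e : uu x = uu ((x + 1) / 2 * ((x + 1) / 2)) * (uu ((x - 1) / 2 * ((x - 1) / 2)))⁻¹ := by
      rw [uu_inv, uu_add]; congr 1; field_simp; ring
    rw [e]
    exact mul_mem (hsq _) (inv_mem (hsq _))
  refine eq_top_of_all hu fun x => ?_
  have := hK.conj_mem _ (hu (-x)) (uu 1 * vv (-1) * uu 1)
  have e : uu (1 : F) * vv (-1) * uu 1 * uu (-x) = vv x * (uu 1 * vv (-1) * uu 1) := by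
    apply sl_ext <;>
      simp [Matrix.SpecialLinearGroup.coe_mul, Matrix.mul_apply, Fin.sum_univ_two] <;> ring
  rwa [e, mul_inv_cancel_right] at this

theorem exists_uu_mem {K : Subgroup (Matrix.SpecialLinearGroup (Fin 2) F)} (hK : K.Normal) {β : F}
    (h : vv β * uu (-1) ∈ K) {a : F} (ha : a ≠ 0) (ha1 : a * a ≠ 1) :
    ∃ r : F, r ≠ 0 ∧ uu r ∈ K := by
  haveI := hK
  let f := QuotientGroup.mk' K
  have heq : f (vv β) = f (uu 1) := by
    rw [← mul_inv_eq_one, ← map_inv, uu_inv, ← map_mul]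
    exact (QuotientGroup.eq_one_iff _).2 h
  have hc : (Subgroup.centralizer {f (uu 1)}).comap f = ⊤ := by
    refine eq_top_of_all (fun x => ?_) fun x => ?_ <;>
      rw [Subgroup.mem_comap, Subgroup.mem_centralizer_singleton_iff]
    · rw [← map_mul, ← map_mul, uu_add, uu_add, add_comm]
    · rw [← heq, ← map_mul, ← map_mul, vv_add, vv_add, add_comm]
  refine ⟨a * a - 1, sub_ne_zero.2 ha1, (QuotientGroup.eq_one_iff _).1 ?_⟩
  show f _ = 1
  have hd : diagSL a ha ∈ (Subgroup.centralizer {f (uu 1)}).comap f := hc ▸ Subgroup.mem_top _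
  rw [Subgroup.mem_comap, Subgroup.mem_centralizer_singleton_iff] at hd
  rw [sub_eq_add_neg, ← uu_add, ← uu_inv, map_mul, map_inv, ← mul_one (a * a), ← diagSL_conj a ha,
    map_mul, map_mul, map_inv, hd]
  group

end SL2

variable {k : Type*} [Field k] {M : Type*} [AddCommGroup M] [Module k M] [FiniteDimensional k M]

local notation "GLM" => LinearMap.GeneralLinearGroup k M
local notation "EndM" => M →ₗ[k] M

variable {G : Subgroup (LinearMap.GeneralLinearGroup k M)}

omit [FiniteDimensional k M] in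
theorem isUnipotentOn_mono {H K : Subgroup GLM} (h : H ≤ K) (hK : IsUnipotentOn K) :
    IsUnipotentOn H := by
  obtain ⟨n, hn⟩ := hK
  exact ⟨n, fun l hl hlen => hn l (fun g hg => h (hl g hg)) hlen⟩

/-- An irreducible group has no nontrivial invariant unipotent subgroup. -/
theorem eq_bot_of_unipotent (hirr : IsIrreducibleFor G) {N : Subgroup GLM} (hN : IsUnipotentOn N)
    (hinv : ∀ g ∈ G, ∀ h ∈ N, g⁻¹ * h * g ∈ N) : N = ⊥ := by
  obtain ⟨n, hn⟩ := (isUnipotentOn_iff_commIter _).1 hN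
  obtain ⟨⟨v0, hv0⟩, hirr'⟩ := hirr
  have hfix : fixedSubmodule N ≠ ⊥ := by
    have hex : ∃ i, commIter (N : Set GLM) i ≠ ⊥ ∧ commIter (N : Set GLM) (i + 1) = ⊥ := by
      by_contra hh
      push Not at hh
      have : ∀ i, commIter (N : Set GLM) i ≠ ⊥ := by
        intro i
        induction i with
        | zero => exact fun h => hv0 ((Submodule.mem_bot k).1 (h ▸ Submodule.mem_top))
        | succ i ih => exact hh i ih
      exact this n hn
    obtain ⟨i, hi, hi1⟩ := hex
    refine fun h => hi (eq_bot_iff.2 fun v hv => h ▸ ?_)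
    rw [mem_fixedSubmodule]
    intro g hg
    have := devMap_mem_commIter (s := (N : Set GLM)) hg hv
    rwa [hi1, Submodule.mem_bot] at this
  have hinv' : ∀ g ∈ G, ∀ v ∈ fixedSubmodule N, (g : EndM) v ∈ fixedSubmodule N := by
    intro g hg v hv
    rw [mem_fixedSubmodule] at hv ⊢
    intro a ha
    have := hv _ (hinv g hg a ha)
    rw [devMap_apply, sub_eq_zero] at this
    rw [devMap_apply, sub_eq_zero]
    have h4 := congrArg (g : EndM) this
    rwa [apply_mul, apply_mul, apply_inv_apply] at h4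
  rcases hirr' (fixedSubmodule N) hinv' with h | h
  · exact absurd h hfix
  · refine eq_bot_iff.2 fun g hg => Subgroup.mem_bot.2 (Units.ext (LinearMap.ext fun v => ?_))
    have := mem_fixedSubmodule.1 (h ▸ (Submodule.mem_top : v ∈ ⊤)) g hg
    rwa [devMap_apply, sub_eq_zero] at this

variable {a : M →ₗ[k] M}
variable (h2 : (2 : k) ≠ 0) (h3 : Nat.card k ≠ 3) (hirr : IsIrreducibleFor G)

include h2 h3 hirr in
theorem smul_qunit_mem_compGroup {x : EndM} (hx : x ∈ comp G a) (c : k) :
    qunit (c • x) ∈ compGroup G a := by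
  rcases eq_or_ne c 0 with rfl | hc
  · rw [zero_smul, qunit_zero]; exact one_mem _
  · exact qunit_mem_compGroup ⟨hx.1.smul hc, hx.2.trans (conn_class h2 h3 hirr hx.1
      (Submodule.smul_mem _ c (self_mem_classSpace hx.1.1)) (smul_ne_zero hc hx.1.ne_zero))⟩

include h2 h3 hirr in
/-- The `SL₂` of an invertible pair in a component. -/
theorem exists_sl2_in_comp {x y : EndM} (hx : x ∈ comp G a) (hy : MinQ G y) (hi : Inv x y) :
    ∃ m : Model x y (LinearMap.range ((x * y) ^ 0 * x)), m.Exact ∧ gam k m.root = ⊤ ∧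
      (∀ g, m.glHom g ∈ compGroup G a) ∧ m.glHom (uu 1) = qunit x ∧
      m.glHom (vv m.root) = qunit y := by
  obtain ⟨m, -, he⟩ := hi.exists_exact_model hx.1 hy
  have hyc : y ∈ comp G a := ⟨hy, hx.2.trans (Relation.ReflTransGen.single ⟨hx.1, hy, hi⟩)⟩
  have htop := Model.Exact.gam_eq_top (m := m) he h2 h3 hx.1 hy.1
  refine ⟨m, he, htop, fun g => ?_, ?_, ?_⟩
  · have hg : m.glHom g ∈ (gam k m.root).map m.glHom :=
      Subgroup.mem_map_of_mem _ (htop ▸ Subgroup.mem_top g)
    rw [Model.Exact.map_gam (m := m) he hx.1.sq hy.sq] at hg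
    refine (Subgroup.closure_le _).2 ?_ hg
    rintro _ (⟨c, rfl⟩ | ⟨c, rfl⟩)
    exacts [smul_qunit_mem_compGroup h2 h3 hirr hx c, smul_qunit_mem_compGroup h2 h3 hirr hyc c]
  · simpa using Model.Exact.map_gen_uu (m := m) he hx.1.sq (1 : k)
  · simpa using Model.Exact.map_gen_vv (m := m) he hy.sq (1 : k)

include h2 h3 hirr in
theorem compGroup_le_commutator : compGroup G a ≤ ⁅compGroup G a, compGroup G a⁆ := by
  conv_lhs => rw [compGroup]
  rw [Subgroup.closure_le]
  rintro _ ⟨x, hx, rfl⟩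
  obtain ⟨y, hy, hi⟩ := exists_inv_partner h2 h3 hirr hx.1
  obtain ⟨m, -, htop, hmem, hu, -⟩ := exists_sl2_in_comp h2 h3 hirr hx hy hi
  have h1 : uu (1 : m.Alg) ∈ ⁅gam k m.root, gam k m.root⁆ :=
    gam_le_commutator h2 h3 m.isUnit_root (m.upperSet_root h2 h3) (htop ▸ Subgroup.mem_top _)
  have h1' := Subgroup.mem_map_of_mem m.glHom h1
  rw [Subgroup.map_commutator, hu] at h1'
  have hle : (gam k m.root).map m.glHom ≤ compGroup G a := by
    rintro _ ⟨g, -, rfl⟩; exact hmem g
  exact Subgroup.commutator_mono hle hle h1'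

include h2 h3 hirr in
/-- A subgroup normalized by the component group is everything or commutes with it. -/
theorem compGroup_normal_cases (hgen : Subgroup.closure (quadraticElements G) = G)
    {N : Subgroup GLM} (hle : N ≤ compGroup G a)
    (hnorm : ∀ g ∈ compGroup G a, ∀ n ∈ N, g * n * g⁻¹ ∈ N) :
    compGroup G a ≤ N ∨ ∀ n ∈ N, ∀ g ∈ compGroup G a, n * g = g * n := by
  have hcomap : ∀ {x y : EndM} (m : Model x y (LinearMap.range ((x * y) ^ 0 * x))),
      (∀ g, m.glHom g ∈ compGroup G a) → (N.comap m.glHom).Normal := fun m hmem =>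
    ⟨fun n hn g => by
      rw [Subgroup.mem_comap, map_mul, map_mul, map_inv]; exact hnorm _ (hmem g) _ hn⟩
  by_cases hmeet : ∃ x ∈ comp G a, qunit x ∈ N
  · left
    obtain ⟨x, hx, hxN⟩ := hmeet
    have hall : ∀ y, Conn G x y → qunit y ∈ N := by
      intro y hy
      induction hy with
      | refl => exact hxN
      | @tail u v hpre huv ih =>
        obtain ⟨hum, hvm, hi⟩ := huv
        obtain ⟨m, he, -, hmem, hu, hv⟩ :=
          exists_sl2_in_comp h2 h3 hirr (x := u) ⟨hum, hx.2.trans hpre⟩ hvm hi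
        letI := (Model.Exact.isField (m := m) he h2 h3 hum hvm.1).toField
        have h2' : (2 : m.Alg) ≠ 0 := by
          rw [← map_ofNat (algebraMap k m.Alg) 2]
          exact (map_ne_zero_iff _ (algebraMap k m.Alg).injective).2 h2
        have htop := eq_top_of_uu_one_mem h2' (hcomap m hmem) (by rw [Subgroup.mem_comap, hu]; exact ih)
        rw [← hv]
        exact (htop ▸ Subgroup.mem_top _ : vv m.root ∈ N.comap m.glHom)
    rw [compGroup, Subgroup.closure_le]
    rintro _ ⟨y, hy, rfl⟩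
    exact hall y (hx.2.symm.trans hy.2)
  right
  push Not at hmeet
  have hNG : N ≤ G := hle.trans (compGroup_le a)
  -- conjugates under `N` of a member commute
  have hcomm : ∀ x ∈ comp G a, ∀ n ∈ N,
      x * ((n : EndM) * x * ((n⁻¹ : GLM) : EndM)) = (n : EndM) * x * ((n⁻¹ : GLM) : EndM) * x := by
    intro x hx n hn
    have hx'm := hx.1.conj (hNG hn)
    have hw : qunit ((n : EndM) * x * ((n⁻¹ : GLM) : EndM)) * (qunit x)⁻¹ ∈ N := by
      rw [← qunit_conj hx.1.sq, mul_assoc, mul_assoc]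
      refine mul_mem hn ?_
      rw [← mul_assoc]
      exact hnorm _ (qunit_mem_compGroup hx) _ (inv_mem hn)
    set x' := (n : EndM) * x * ((n⁻¹ : GLM) : EndM)
    by_cases hi : Inv x x'
    · exfalso
      obtain ⟨m, he, -, hmem, hu, hv⟩ := exists_sl2_in_comp h2 h3 hirr hx hx'm hi
      letI := (Model.Exact.isField (m := m) he h2 h3 hx.1 hx'm.1).toField
      have hz : vv m.root * uu (-1) ∈ N.comap m.glHom := by
        rw [Subgroup.mem_comap, map_mul, ← uu_inv, map_inv, hu, hv]; exact hw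
      obtain ⟨c, hc0, hc1⟩ := exists_sq_ne_one_of_card h2 h3
      obtain ⟨r, hr0, hr⟩ := exists_uu_mem (hcomap m hmem) hz (a := algebraMap k m.Alg c)
        ((map_ne_zero_iff _ (algebraMap k m.Alg).injective).2 hc0)
        (by rw [← map_mul, ← map_one (algebraMap k m.Alg)]
            exact fun h => hc1 ((algebraMap k m.Alg).injective h))
      have hxr := Model.Exact.mem_classSpace_s (m := m) he h2 h3 hx.1.1 hx'm.1 r
      have hne : m.i1 ∘ₗ m.rho r ∘ₗ m.p2 ≠ 0 := fun h0 => hr0 (m.rho_injective (by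
        rw [map_zero]
        ext v
        have := congrArg m.p1 (LinearMap.congr_fun h0 (m.i2 v))
        simpa [m.p11, m.p22] using this))
      refine hmeet _ ⟨(hx.1.class_spec hxr hne).1, hx.2.trans (conn_class h2 h3 hirr hx.1 hxr hne)⟩ ?_
      have e : (qunit (m.i1 ∘ₗ m.rho r ∘ₗ m.p2) : GLM) = m.glHom (uu r) := by
        apply Units.ext
        rw [coe_qunit hxr.1.1, m.glHom_uu]
      rw [e]; exact hr
    by_contra hne
    obtain ⟨hzm, -⟩ := z_spec h2 h3 hx.1 hx'm hi (sub_ne_zero.2 hne)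
    refine hmeet _ ⟨hzm, hx.2.trans (conn_bracket h2 h3 hirr hx.1 hx'm hi hne)⟩ ?_
    rw [← commutator_qunit hx.1.sq hx'm.sq (sts_eq_zero h2 h3 hx.1 hx'm hi)
      (sts_eq_zero h2 h3 hx'm hx.1 fun h => hi h.symm)]
    have e : ∀ p q : GLM, ⁅p, q⁆ = p * (q * p⁻¹) * p⁻¹ * (q * p⁻¹)⁻¹ := by
      intro p q; simp only [commutatorElement_def]; group
    rw [e]
    exact mul_mem (hnorm _ (qunit_mem_compGroup hx) _ hw) (inv_mem hw)
  -- the groups generated by the commutators with one member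
  let U : EndM → Subgroup GLM := fun x => Subgroup.closure ((fun n => ⁅n, qunit x⁆) '' (N : Set GLM))
  have hUN : ∀ x ∈ comp G a, U x ≤ N := by
    intro x hx
    rw [Subgroup.closure_le]
    rintro _ ⟨n, hn, rfl⟩
    show ⁅n, qunit x⁆ ∈ N
    rw [commutatorElement_def, mul_assoc, mul_assoc, ← mul_assoc (qunit x)]
    exact mul_mem hn (hnorm _ (qunit_mem_compGroup hx) _ (inv_mem hn))
  have hUunip : ∀ x ∈ comp G a, IsUnipotentOn (U x) := by
    intro x hx
    let W : Set (Subgroup GLM) :=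
      {A | ∃ n ∈ N, A = rootGroup G ((n : EndM) * x * ((n⁻¹ : GLM) : EndM))}
    have hWc : ∀ n ∈ N, ∀ n' ∈ N, ((n : EndM) * x * ((n⁻¹ : GLM) : EndM)) *
        ((n' : EndM) * x * ((n'⁻¹ : GLM) : EndM)) = ((n' : EndM) * x * ((n'⁻¹ : GLM) : EndM)) *
        ((n : EndM) * x * ((n⁻¹ : GLM) : EndM)) := by
      intro n hn n' hn'
      have h := hcomm x hx _ (mul_mem (inv_mem hn) hn')
      have hinv : ((n⁻¹ : GLM) : EndM) * (n : EndM) = 1 := n.inv_mul
      simp only [mul_inv_rev, inv_inv, Units.val_mul, ← mul_assoc] at h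
      have h' := congrArg (fun v => (n : EndM) * v * ((n⁻¹ : GLM) : EndM)) h
      have e1 : ∀ v : EndM, v * (n : EndM) * ((n⁻¹ : GLM) : EndM) = v := fun v => by
        rw [mul_assoc, n.mul_inv, mul_one]
      have e2 : ∀ v : EndM, v * ((n⁻¹ : GLM) : EndM) * (n : EndM) = v := fun v => by
        rw [mul_assoc, hinv, mul_one]
      simp only [← mul_assoc, e1, n.mul_inv, one_mul] at h' ⊢
      exact h'
    have hW : IsUnipotentOn (⨆ A ∈ W, A) := by
      refine isUnipotentOn_family ?_ ?_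
      · rintro _ ⟨n, hn, rfl⟩ _ ⟨n', hn', rfl⟩
        refine isUnipotentOn_of_not_inv h2 h3 (hx.1.conj (hNG hn)) (hx.1.conj (hNG hn')) fun hi => ?_
        have h1 := hi.range_sts (hx.1.conj (hNG hn)) (hx.1.conj (hNG hn'))
        rw [mul_assoc, ← hWc n hn n' hn', ← mul_assoc, (hx.1.conj (hNG hn)).sq, zero_mul,
          LinearMap.range_zero] at h1
        exact (hx.1.conj (hNG hn)).ne_zero (LinearMap.range_eq_bot.1 h1.symm)
      · rintro _ ⟨n, hn, rfl⟩ _ ⟨n', hn', rfl⟩ g hg
        refine ⟨n', hn', conjBy_of_commute fun b hb => ?_⟩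
        rw [eq_qunit_of_mem hg, eq_qunit_of_mem hb, qunit_commute_iff hg.1.1 hb.1.1]
        exact commute_all h2 h3 (hx.1.conj (hNG hn)) (hx.1.conj (hNG hn')) (hWc n hn n' hn') hg hb
    refine isUnipotentOn_mono ((Subgroup.closure_le _).2 ?_) hW
    rintro _ ⟨n, hn, rfl⟩
    have hin : ∀ n' ∈ N, qunit ((n' : EndM) * x * ((n'⁻¹ : GLM) : EndM)) ∈ ⨆ A ∈ W, A := fun n' hn' =>
      le_iSup₂ (f := fun (A : Subgroup GLM) (_ : A ∈ W) => A) _ ⟨n', hn', rfl⟩
        (qunit_mem_rootGroup (self_mem_classSpace (hx.1.conj (hNG hn')).1))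
    have h1 := hin 1 (one_mem N)
    rw [show ((1 : GLM) : EndM) * x * (((1 : GLM)⁻¹ : GLM) : EndM) = x by simp] at h1
    show ⁅n, qunit x⁆ ∈ _
    rw [commutatorElement_def, qunit_conj hx.1.sq]
    exact mul_mem (hin n hn) (inv_mem h1)
  have hUnorm : ∀ x ∈ comp G a, N ≤ Subgroup.normalizer (U x : Set GLM) := by
    intro x hx m hm
    have hle : ∀ m ∈ N, conjBy (U x) m ≤ U x := by
      intro m hm
      rw [conjBy, MonoidHom.map_closure, Subgroup.closure_le]
      rintro _ ⟨_, ⟨n, hn, rfl⟩, rfl⟩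
      have e : m * ⁅n, qunit x⁆ * m⁻¹ = ⁅m * n, qunit x⁆ * (⁅m, qunit x⁆)⁻¹ := by
        simp only [commutatorElement_def]; group
      show m * ⁅n, qunit x⁆ * m⁻¹ ∈ U x
      rw [e]
      exact mul_mem (Subgroup.subset_closure ⟨_, mul_mem hm hn, rfl⟩)
        (inv_mem (Subgroup.subset_closure ⟨_, hm, rfl⟩))
    refine conjBy_eq_self_iff.1 (le_antisymm (hle m hm) ?_)
    have := (conjBy_le_iff (g := m)).2 (hle m⁻¹ (inv_mem hm))
    rwa [conjBy_conjBy, mul_inv_cancel, conjBy_one] at this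
  have hGN : ∀ g ∈ G, ∀ n ∈ N, g * n * g⁻¹ ∈ N := by
    have hSt : G ≤ Subgroup.normalizer (N : Set GLM) := by
      refine (sup_root_le_cocentral h2 h3 hirr hgen).trans (sup_le (iSup₂_le fun A hA => ?_) ?_)
      · obtain ⟨u, hu, rfl⟩ := mem_quadraticRootSubgroups_iff.1 hA
        intro e he
        rcases eq_or_ne (devMap e) 0 with h0 | h0
        · rw [eq_qunit_of_mem he, h0, qunit_zero]; exact one_mem _
        have hem := (hu.class_spec he h0).1
        by_cases hc : Conn G a (devMap e)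
        · refine conjBy_eq_self_iff.1 (le_antisymm ?_ ?_)
          · rintro _ ⟨n, hn, rfl⟩
            exact hnorm _ (by rw [eq_qunit_of_mem he]; exact qunit_mem_compGroup ⟨hem, hc⟩) _ hn
          · intro n hn
            rw [mem_conjBy]
            have he' : e ∈ compGroup G a := by
              rw [eq_qunit_of_mem he]; exact qunit_mem_compGroup ⟨hem, hc⟩
            simpa using hnorm _ (inv_mem he') _ hn
        · refine conjBy_eq_self_iff.1 (conjBy_of_commute fun n hn => ?_)
          refine commute_compGroup (a := a) (fun y hy => ?_) n (hle hn)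
          rw [eq_qunit_of_mem he, qunit_commute_iff hem.sq hy.1.sq]
          exact commute_of_not_conn h2 h3 hirr hem hy.1 fun h => hc (hy.2.trans h.symm)
      · rintro e ⟨-, hec⟩
        refine conjBy_eq_self_iff.1 (conjBy_of_commute fun n hn => ?_)
        refine (Subgroup.mem_centralizer_iff.1 hec n ?_).symm
        refine (le_trans hle (le_trans (iSup_compPart h2 h3 hirr a).ge ?_)) hn
        exact iSup₂_le fun A hA => by
          obtain ⟨x, hx, rfl⟩ := hA
          exact le_iSup₂ (f := fun (A : Subgroup GLM) (_ : A ∈ quadraticRootSubgroups G) => A) _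
            (mem_quadraticRootSubgroups_iff.2 ⟨x, hx.1, rfl⟩)
    exact fun g hg n hn => (Subgroup.mem_normalizer_iff.1 (hSt hg) n).1 hn
  have hUconj : ∀ g ∈ G, ∀ x ∈ comp G a,
      conjBy (U x) g = U ((g : EndM) * x * ((g⁻¹ : GLM) : EndM)) := by
    have hle : ∀ g ∈ G, ∀ x ∈ comp G a,
        conjBy (U x) g ≤ U ((g : EndM) * x * ((g⁻¹ : GLM) : EndM)) := by
      intro g hg x hx
      rw [conjBy, MonoidHom.map_closure, Subgroup.closure_le]
      rintro _ ⟨_, ⟨n, hn, rfl⟩, rfl⟩
      refine Subgroup.subset_closure ⟨g * n * g⁻¹, hGN g hg n hn, ?_⟩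
      show ⁅g * n * g⁻¹, qunit _⁆ = g * ⁅n, qunit x⁆ * g⁻¹
      rw [← qunit_conj hx.1.sq]
      simp only [commutatorElement_def]; group
    intro g hg x hx
    refine le_antisymm (hle g hg x hx) ?_
    have := (conjBy_le_iff (g := g)).2 (hle g⁻¹ (inv_mem hg) _
      ⟨hx.1.conj hg, hx.2.trans (conn_conj h2 h3 hirr hgen hx.1 hg)⟩)
    rwa [conjBy_conjBy, mul_inv_cancel, conjBy_one, conj_conj_inv] at this
  let W : Set (Subgroup GLM) := {A | ∃ x ∈ comp G a, A = U x}
  have hWconj : ∀ A ∈ W, ∀ g ∈ G, conjBy A g ∈ W := by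
    rintro _ ⟨x, hx, rfl⟩ g hg
    exact ⟨_, ⟨hx.1.conj hg, hx.2.trans (conn_conj h2 h3 hirr hgen hx.1 hg)⟩, hUconj g hg x hx⟩
  have hWunip : IsUnipotentOn (⨆ A ∈ W, A) := by
    refine isUnipotentOn_family ?_ fun A hA B hB g hg => hWconj B hB g ?_
    · rintro _ ⟨x, hx, rfl⟩ _ ⟨y, hy, rfl⟩
      exact isUnipotentOn_sup (hUunip x hx) (hUunip y hy) ((hUN y hy).trans (hUnorm x hx))
    · obtain ⟨x, hx, rfl⟩ := hA
      exact hNG (hUN x hx hg)
  have hbot := eq_bot_of_unipotent hirr hWunip fun g hg n hn => by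
    have hle : (⨆ A ∈ W, A) ≤ conjBy (⨆ A ∈ W, A) g := by
      refine iSup₂_le fun A hA => ?_
      intro z hz
      rw [mem_conjBy]
      refine le_iSup₂ (f := fun (A : Subgroup GLM) (_ : A ∈ W) => A) _ (hWconj A hA g⁻¹ (inv_mem hg)) ?_
      rw [mem_conjBy]; simpa [mul_assoc] using hz
    exact mem_conjBy.1 (hle hn)
  intro n hn
  refine commute_compGroup fun x hx => ?_
  refine commutatorElement_eq_one_iff_commute.1 ?_
  rw [← Subgroup.mem_bot, ← hbot]
  exact le_iSup₂ (f := fun (A : Subgroup GLM) (_ : A ∈ W) => A) _ ⟨x, hx, rfl⟩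
    (Subgroup.subset_closure ⟨n, hn, rfl⟩)

include h2 h3 hirr in
/-- The group of a component is quasisimple. -/
theorem isQuasisimple_compGroup (hgen : Subgroup.closure (quadraticElements G) = G)
    (ha : MinQ G a) : IsQuasisimple (compGroup G a) := by
  haveI : Nontrivial (compGroup G a) := by
    refine ⟨⟨qunit a, qunit_mem_compGroup (self_mem_comp ha)⟩, 1, fun h => ha.ne_zero ?_⟩
    rw [← devMap_qunit ha.sq, show qunit a = (1 : GLM) from congrArg Subtype.val h, devMap_one]
  haveI : Group.IsPerfect (compGroup G a) := by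
    rw [Group.isPerfect_def]
    apply Subgroup.map_injective (Subgroup.subtype_injective _)
    rw [commutator_def, Subgroup.map_commutator, ← MonoidHom.range_eq_map, Subgroup.range_subtype]
    exact le_antisymm (compGroup G a).commutator_le_self (compGroup_le_commutator h2 h3 hirr)
  refine Cfsg.Agent.Components.quasisimple_of_forall_normal fun N hN => ?_
  rcases compGroup_normal_cases h2 h3 hirr hgen (N := N.map (compGroup G a).subtype)
      (Subgroup.map_subtype_le N) (by
        rintro g hg _ ⟨n, hn, rfl⟩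
        exact ⟨⟨g, hg⟩ * n * ⟨g, hg⟩⁻¹, hN.conj_mem n hn _, rfl⟩) with h | h
  · left
    refine eq_top_iff.2 fun x _ => ?_
    obtain ⟨n, hn, hnx⟩ := h x.2
    exact Subtype.ext hnx ▸ hn
  · right
    exact fun n hn => Subgroup.mem_center_iff.2 fun g =>
      Subtype.ext (h _ ⟨n, hn, rfl⟩ _ g.2).symm

end Cfsg.Agent.RootSub.QP
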