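import Cfsg.Agent.RootSub.QP.Special
import Cfsg.Agent.RootSub.Basic

/-! The root groups of a quadratic pair form a set of abstract root subgroups. -/

set_option autoImplicit false
set_option linter.unusedSimpArgs false

namespace Cfsg.Agent.RootSub.QP

open Cfsg SL2Gen
open scoped commutatorElement

section Transport

variable {G : Type*} [Group G] {S : Set (Subgroup G)} {K A B : Subgroup G}

theorem map_subgroupOf (hA : A ≤ K) : (A.subgroupOf K).map K.subtype = A := by
  rw [Subgroup.map_subgroupOf_eq_of_le hA]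

theorem commutator_subgroupOf (hA : A ≤ K) (hB : B ≤ K) :
    ⁅A.subgroupOf K, B.subgroupOf K⁆ = ⁅A, B⁆.subgroupOf K := by
  apply Subgroup.map_injective (Subgroup.subtype_injective K)
  rw [Subgroup.map_commutator, map_subgroupOf hA, map_subgroupOf hB,
    map_subgroupOf ((Subgroup.commutator_mono hA hB).trans K.commutator_le_self)]

theorem rootCommutatorCase_subgroupOf (hA : A ≤ K) (hB : B ≤ K) (h : RootCommutatorCase S A B) :
    RootCommutatorCase ((fun C : Subgroup G => C.subgroupOf K) '' S) (A.subgroupOf K)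
      (B.subgroupOf K) := by
  obtain ⟨h1, h2, h3, h4⟩ := h
  have hc := commutator_subgroupOf hA hB
  have hAB : ⁅A, B⁆ ≤ K := (Subgroup.commutator_mono hA hB).trans K.commutator_le_self
  refine ⟨⟨_, h1, hc.symm⟩, fun c hc' x hx => Subtype.ext ?_, fun a ha ha1 => ?_, fun b hb hb1 => ?_⟩
  · rw [hc] at hc'
    refine h2 _ hc' _ ?_
    have := Subgroup.mem_map_of_mem K.subtype hx
    rwa [Subgroup.map_sup, map_subgroupOf hA, map_subgroupOf hB] at this
  · apply Subgroup.map_injective (Subgroup.subtype_injective K)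
    rw [hc, map_subgroupOf hAB, MonoidHom.map_closure]
    rw [← h3 _ ha (fun h0 => ha1 (Subtype.ext h0))]
    congr 1
    ext g
    constructor
    · rintro ⟨_, ⟨x, hx, rfl⟩, rfl⟩
      exact ⟨x, hx, rfl⟩
    · rintro ⟨x, hx, rfl⟩
      exact ⟨_, ⟨⟨x, hB hx⟩, hx, rfl⟩, rfl⟩
  · apply Subgroup.map_injective (Subgroup.subtype_injective K)
    rw [hc, map_subgroupOf hAB, MonoidHom.map_closure]
    rw [← h4 _ hb (fun h0 => hb1 (Subtype.ext h0))]
    congr 1
    ext g
    constructor
    · rintro ⟨_, ⟨x, hx, rfl⟩, rfl⟩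
      exact ⟨x, hx, rfl⟩
    · rintro ⟨x, hx, rfl⟩
      exact ⟨_, ⟨⟨x, hA hx⟩, hx, rfl⟩, rfl⟩

end Transport

universe u

variable {k : Type u} [Field k] {M : Type u} [AddCommGroup M] [Module k M] [FiniteDimensional k M]

local notation "GLM" => LinearMap.GeneralLinearGroup k M
local notation "EndM" => M →ₗ[k] M

variable {G : Subgroup (LinearMap.GeneralLinearGroup k M)} {s t : M →ₗ[k] M}
variable (h2 : (2 : k) ≠ 0) (h3 : Nat.card k ≠ 3)

include h2 h3 in
theorem pair_cases (hirr : IsIrreducibleFor G) (hs : MinQ G s) (ht : MinQ G t) :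
    ⁅rootGroup G s, rootGroup G t⁆ = ⊥ ∨ IsRankOnePair (rootGroup G s) (rootGroup G t) ∨
      RootCommutatorCase (quadraticRootSubgroups G) (rootGroup G s) (rootGroup G t) := by
  by_cases hi : Inv s t
  · exact Or.inr (Or.inl (isRankOnePair_of_inv h2 h3 hs ht hi))
  by_cases hne : s * t = t * s
  · exact Or.inl (commutator_eq_bot_of_commute fun x hx y hy => commute_all h2 h3 hs ht hne hx hy)
  obtain ⟨hL, hl, hr, hc, -⟩ := commutator_case h2 h3 hirr hs ht hi hne
  refine Or.inr (Or.inr ⟨?_, hc, hl, hr⟩)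
  rw [hL]
  exact mem_quadraticRootSubgroups_iff.2 ⟨_, (z_spec h2 h3 hs ht hi (sub_ne_zero.2 hne)).1, rfl⟩

include h2 h3 in
theorem inv_of_isRankOnePair (hirr : IsIrreducibleFor G) (hs : MinQ G s) (ht : MinQ G t)
    (hp : IsRankOnePair (rootGroup G s) (rootGroup G t)) : Inv s t := by
  by_contra hi
  by_cases hne : s * t = t * s
  · exact Pair.commutator_ne_bot hp
      (commutator_eq_bot_of_commute fun x hx y hy => commute_all h2 h3 hs ht hne hx hy)
  obtain ⟨-, -, -, hc, -⟩ := commutator_case h2 h3 hirr hs ht hi hne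
  obtain ⟨a, ha, ha1⟩ := Pair.exists_ne_one (rootGroup_ne_bot hs)
  obtain ⟨b, hb, hb1⟩ := Pair.exists_ne_one (rootGroup_ne_bot ht)
  exact Pair.not_commute_commutator hp ha ha1 hb hb1
    (hc _ (Subgroup.commutator_mem_commutator ha hb) b (Subgroup.mem_sup_right hb))

omit [FiniteDimensional k M] in
theorem upperUnipotent_le {K : Type*} [Field K] {H : Subgroup (Matrix.SpecialLinearGroup (Fin 2) K)}
    (h : ∀ x, uu x ∈ H) : upperUnipotentSL2 K ≤ H := by
  rw [upperUnipotentSL2, Subgroup.closure_le]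
  rintro g ⟨h1, h2, h3⟩
  have : g = uu (g 0 1) := by apply sl_ext <;> simp [h1, h2, h3]
  rw [this]; exact h _

omit [FiniteDimensional k M] in
theorem lowerUnipotent_le {K : Type*} [Field K] {H : Subgroup (Matrix.SpecialLinearGroup (Fin 2) K)}
    (h : ∀ x, vv x ∈ H) : lowerUnipotentSL2 K ≤ H := by
  rw [lowerUnipotentSL2, Subgroup.closure_le]
  rintro g ⟨h1, h2, h3⟩
  have : g = vv (g 1 0) := by apply sl_ext <;> simp [h1, h2, h3]
  rw [this]; exact h _

include h2 h3 in
theorem exists_psl2 (hs : MinQ G s) (ht : MinQ G t) (h : Inv s t) :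
    ∃ A₀ B₀ : Subgroup (LinearMap.GeneralLinearGroup k M), A₀ ≤ rootGroup G s ∧ B₀ ≤ rootGroup G t ∧
      ∃ (k₁ : Type u) (_ : Field k₁), 3 < ENat.card k₁ ∧ IsPSL2PairOver k₁ A₀ B₀ := by
  obtain ⟨m, -, he⟩ := h.exists_exact_model hs ht
  letI := (Model.Exact.isField (m := m) he h2 h3 hs ht.1).toField
  refine ⟨(upperUnipotentSL2 m.Alg).map m.glHom, (lowerUnipotentSL2 m.Alg).map m.glHom, ?_, ?_,
    m.Alg, inferInstance, ?_, m.glHom, ?_, ?_, rfl, rfl⟩
  · rw [Subgroup.map_le_iff_le_comap]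
    refine upperUnipotent_le fun r => ?_
    have hm := Model.Exact.mem_classSpace_s (m := m) he h2 h3 hs.1 ht.1 r
    rw [Subgroup.mem_comap, mem_rootGroup, devMap, m.glHom_uu]
    simpa using hm
  · rw [Subgroup.map_le_iff_le_comap]
    refine lowerUnipotent_le fun r => ?_
    have hm := Model.Exact.mem_classSpace_t (m := m) he h2 h3 hs.1 ht.1 r
    rw [Subgroup.mem_comap, mem_rootGroup, devMap, m.glHom_vv]
    simpa using hm
  · refine lt_of_lt_of_le ?_ (ENat.card_le_card_of_injective (algebraMap k m.Alg).injective)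
    rcases finite_or_infinite k with hk | hk
    · haveI := Fintype.ofFinite k
      have h5 := five_le_card h2 h3
      rw [ENat.card_eq_coe_natCard]
      exact_mod_cast (by omega : 3 < Nat.card k)
    · rw [ENat.card_eq_top_of_infinite]; exact ENat.coe_lt_top 3
  · rw [← Subgroup.map_sup, MonoidHom.range_eq_map]
    congr 1
    refine (eq_top_of_all (fun x => Subgroup.mem_sup_left ?_) fun x => Subgroup.mem_sup_right ?_).symm
    · exact Subgroup.subset_closure ⟨by simp, by simp, by simp⟩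
    · exact Subgroup.subset_closure ⟨by simp, by simp, by simp⟩
  · rw [(MonoidHom.ker_eq_bot_iff _).2 m.glHom_injective]; exact bot_le

include h2 h3 in
theorem isRootSubgroupSet_quadratic (hirr : IsIrreducibleFor G) :
    IsRootSubgroupSet ((fun A : Subgroup (LinearMap.GeneralLinearGroup k M) =>
      A.subgroupOf (⨆ B ∈ quadraticRootSubgroups G, B)) '' quadraticRootSubgroups G) := by
  set K := ⨆ B ∈ quadraticRootSubgroups G, B with hK
  have hle : ∀ A ∈ quadraticRootSubgroups G, A ≤ K := fun A hA =>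
    le_iSup₂ (f := fun (B : Subgroup GLM) (_ : B ∈ quadraticRootSubgroups G) => B) A hA
  have hKG : K ≤ G := by
    refine iSup₂_le fun A hA => ?_
    obtain ⟨s, -, rfl⟩ := mem_quadraticRootSubgroups_iff.1 hA
    exact rootGroup_le s
  refine ⟨?_, ?_, ?_, ?_, ?_⟩
  · rintro _ ⟨A, hA, rfl⟩
    obtain ⟨s, -, rfl⟩ := mem_quadraticRootSubgroups_iff.1 hA
    exact ⟨⟨fun a b => Subtype.ext (Subtype.ext (rootGroup_mul_comm a.2 b.2))⟩⟩
  · rintro _ ⟨A, hA, rfl⟩ h0
    obtain ⟨s, hs, rfl⟩ := mem_quadraticRootSubgroups_iff.1 hA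
    refine rootGroup_ne_bot hs ?_
    have h0' : (rootGroup G s).subgroupOf K = ⊥ := h0
    rw [← map_subgroupOf (hle _ hA), h0', Subgroup.map_bot]
  · apply Subgroup.map_injective (Subgroup.subtype_injective K)
    rw [← MonoidHom.range_eq_map, Subgroup.range_subtype, Subgroup.map_iSup]
    refine le_antisymm (iSup_le fun C => ?_) ?_
    · rw [Subgroup.map_iSup]
      exact iSup_le fun _ => Subgroup.map_subtype_le C
    · refine iSup₂_le fun A hA => ?_
      refine le_trans (le_of_eq (map_subgroupOf (hle A hA)).symm) (le_iSup_of_le (A.subgroupOf K) ?_)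
      rw [Subgroup.map_iSup]
      exact le_iSup_of_le (⟨A, hA, rfl⟩ : A.subgroupOf K ∈ (fun A : Subgroup GLM => A.subgroupOf K) '' _) le_rfl
  · rintro _ ⟨A, hA, rfl⟩ g
    obtain ⟨s, hs, rfl⟩ := mem_quadraticRootSubgroups_iff.1 hA
    refine ⟨conjBy (rootGroup G s) (g : GLM), ?_, ?_⟩
    · rw [conjBy_rootGroup s (hKG g.2)]
      exact mem_quadraticRootSubgroups_iff.2 ⟨_, hs.conj (hKG g.2), rfl⟩
    · apply Subgroup.map_injective (Subgroup.subtype_injective K)
      rw [map_conjBy, map_subgroupOf (hle _ hA), map_subgroupOf]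
      · rfl
      · exact conjBy_le_of_mem (hle _ hA) g.2
  · rintro _ ⟨A, hA, rfl⟩ _ ⟨B, hB, rfl⟩
    obtain ⟨s, hs, rfl⟩ := mem_quadraticRootSubgroups_iff.1 hA
    obtain ⟨t, ht, rfl⟩ := mem_quadraticRootSubgroups_iff.1 hB
    rcases pair_cases h2 h3 hirr hs ht with h | h | h
    · left
      rw [commutator_subgroupOf (hle _ hA) (hle _ hB), h, Subgroup.bot_subgroupOf]
    · exact Or.inr (Or.inl ((isRankOnePair_subgroupOf (hle _ hA) (hle _ hB)).2 h))
    · exact Or.inr (Or.inr (rootCommutatorCase_subgroupOf (hle _ hA) (hle _ hB) h))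

end Cfsg.Agent.RootSub.QP
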