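import Cfsg.Agent.RootSub.QP.ClassTwo

/-! An invertible pair of classes gives a special rank one group with a central involution. -/

set_option autoImplicit false
set_option linter.unusedSimpArgs false

namespace Cfsg.Agent.RootSub.QP

open Cfsg

variable {k : Type*} [Field k] {M : Type*} [AddCommGroup M] [Module k M] [FiniteDimensional k M]

local notation "GLM" => LinearMap.GeneralLinearGroup k M
local notation "EndM" => M →ₗ[k] M

variable {G : Subgroup (LinearMap.GeneralLinearGroup k M)} {s t x y : M →ₗ[k] M}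

omit [FiniteDimensional k M] in
theorem isNilpotent_rootGroup (s : M →ₗ[k] M) : Group.IsNilpotent (rootGroup G s) := by
  letI : CommGroup (rootGroup G s) :=
    { (inferInstance : Group (rootGroup G s)) with
      mul_comm := fun a b => Subtype.ext (by
        show (a : GLM) * b = b * a
        rw [eq_qunit_of_mem a.2, eq_qunit_of_mem b.2, qunit_commute_iff a.2.1.1 b.2.1.1,
          mul_eq_zero_of_mem a.2 b.2, mul_eq_zero_of_mem b.2 a.2]) }
  exact CommGroup.isNilpotent

omit [FiniteDimensional k M] in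
theorem rootGroup_mul_comm {a b : GLM} (ha : a ∈ rootGroup G s) (hb : b ∈ rootGroup G s) :
    a * b = b * a := by
  rw [eq_qunit_of_mem ha, eq_qunit_of_mem hb, qunit_commute_iff ha.1.1 hb.1.1,
    mul_eq_zero_of_mem ha hb, mul_eq_zero_of_mem hb ha]

theorem rootGroup_ne_of_inv (hs : MinQ G s) (h : Inv s t) :
    rootGroup G s ≠ rootGroup G t := by
  intro he
  have hm := he ▸ qunit_mem_rootGroup (self_mem_classSpace hs.1)
  rw [mem_rootGroup, devMap_qunit hs.sq] at hm
  have hle : LinearMap.range s ≤ LinearMap.range s ⊓ LinearMap.ker t := by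
    refine le_inf le_rfl ?_
    have h1 : LinearMap.ker t ≤ LinearMap.ker s := le_sup_left.trans hm.2.1
    intro v hv
    obtain ⟨w, hw⟩ := hm.2.2 hv
    have hT : v ∈ LinearMap.range t ⊓ LinearMap.ker s :=
      ⟨⟨w, hw⟩, range_le_ker hs.sq hv⟩
    rw [h.2, Submodule.mem_bot] at hT
    simp [hT]
  rw [h.1, le_bot_iff, LinearMap.range_eq_bot] at hle
  exact hs.ne_zero hle

omit [FiniteDimensional k M] in
theorem conj_partner_eq (hx : x * x = 0) (hy : y * y = 0) (h1 : x * y * x = x)
    (h2' : y * x * y = y) :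
    ((qunit y)⁻¹ * qunit x * qunit y : GLM) = qunit (-((1 - x) * y * (1 + x))) ∧
      (1 - y) * x * (1 + y) = -((1 - x) * y * (1 + x)) ∧
      ((qunit x)⁻¹ * (qunit y)⁻¹ * qunit x : GLM) = qunit (-((1 - x) * y * (1 + x))) := by
  have e : (1 - y) * x * (1 + y) = -((1 - x) * y * (1 + x)) := by
    simp only [sub_mul, mul_sub, mul_add, add_mul, one_mul, mul_one, h1, h2']
    abel
  refine ⟨?_, e, ?_⟩
  · have h := qunit_conj hx ((qunit y)⁻¹ : GLM)
    rw [inv_inv, coe_qunit_inv hy, coe_qunit hy, e] at h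
    exact h
  · have h := qunit_conj (neg_sq_zero hy) ((qunit x)⁻¹ : GLM)
    rw [inv_inv, coe_qunit_inv hx, coe_qunit hx] at h
    rw [qunit_inv hy, h]
    congr 1
    simp only [sub_mul, mul_sub, mul_add, add_mul, one_mul, mul_one, neg_mul, mul_neg]
    abel

variable (h2 : (2 : k) ≠ 0) (h3 : Nat.card k ≠ 3)

include h2 h3 in
theorem rankOneCondition_of_inv (hs : MinQ G s) (ht : MinQ G t) (h : Inv s t)
    {a : GLM} (ha : a ∈ rootGroup G s) (ha1 : a ≠ 1) :
    ∃ y ∈ classSpace G t, y ≠ 0 ∧ devMap a * y * devMap a = devMap a ∧ y * devMap a * y = y ∧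
      conjBy (rootGroup G s) (qunit y : GLM)⁻¹ = conjBy (rootGroup G t) a⁻¹ := by
  have hx0 : devMap a ≠ 0 := fun h0 => ha1 (by rw [eq_qunit_of_mem ha, h0, qunit_zero])
  obtain ⟨hxm, hxk, hxr⟩ := hs.class_spec ha hx0
  obtain ⟨y, hy, h1, h2'⟩ := ((inv_congr hxk hxr rfl rfl).2 h).exists_partner h2 h3 hxm ht
  have hy0 : y ≠ 0 := fun h0 => hx0 (by rw [← h1, h0, mul_zero, zero_mul])
  refine ⟨y, hy, hy0, h1, h2', ?_⟩
  rw [← hs.rootGroup_eq ha hx0, ← ht.rootGroup_eq hy hy0,
    conjBy_rootGroup _ (inv_mem hy.1.qunit_mem), conjBy_rootGroup _ (inv_mem (rootGroup_le s ha)),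
    inv_inv, inv_inv, coe_qunit_inv hy.1.1, coe_qunit hy.1.1]
  have hav : (a : EndM) = 1 + devMap a := by rw [devMap]; abel
  have hai : ((a⁻¹ : GLM) : EndM) = 1 - devMap a := by
    conv_lhs => rw [eq_qunit_of_mem ha]
    exact coe_qunit_inv ha.1.1
  rw [hav, hai, (conj_partner_eq ha.1.1 hy.1.1 h1 h2').2.1]
  exact rootGroup_congr (LinearMap.ker_neg _) (LinearMap.range_neg _)

include h2 h3 in
theorem isRankOnePair_of_inv (hs : MinQ G s) (ht : MinQ G t) (h : Inv s t) :
    IsRankOnePair (rootGroup G s) (rootGroup G t) := by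
  refine ⟨rootGroup_ne_of_inv hs h, isNilpotent_rootGroup s, isNilpotent_rootGroup t, ?_, ?_⟩
  · intro a ha ha1
    obtain ⟨y, hy, hy0, -, -, he⟩ := rankOneCondition_of_inv h2 h3 hs ht h ha ha1
    exact ⟨_, qunit_mem_rootGroup hy,
      fun h0 => hy0 (by rw [← devMap_qunit hy.1.1, h0, devMap_one]), he⟩
  · intro a ha ha1
    obtain ⟨y, hy, hy0, -, -, he⟩ := rankOneCondition_of_inv h2 h3 ht hs h.symm ha ha1
    exact ⟨_, qunit_mem_rootGroup hy,
      fun h0 => hy0 (by rw [← devMap_qunit hy.1.1, h0, devMap_one]), he⟩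

include h2 h3 in
theorem isSpecial_of_inv (hs : MinQ G s) (ht : MinQ G t) (h : Inv s t) :
    IsSpecialRankOnePair (rootGroup G s) (rootGroup G t) := by
  have hp := isRankOnePair_of_inv h2 h3 hs ht h
  refine ⟨hp, fun a ha ha1 b hb hb1 he => ?_⟩
  obtain ⟨y, hy, -, h1, h2', he'⟩ := rankOneCondition_of_inv h2 h3 hs ht h ha ha1
  obtain rfl : b = qunit y :=
    Pair.partner_unique hp hb (qunit_mem_rootGroup hy) (he.trans he'.symm)
  obtain ⟨e1, -, e2⟩ := conj_partner_eq ha.1.1 hy.1.1 h1 h2'
  rw [eq_qunit_of_mem ha, e1, e2]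

omit [FiniteDimensional k M] in
theorem commutatorSubmodule_sup (hs : QEl G s) (ht : QEl G t) :
    commutatorSubmodule (rootGroup G s ⊔ rootGroup G t) = LinearMap.range s ⊔ LinearMap.range t := by
  refine le_antisymm (iSup₂_le fun g hg => ?_) (sup_le ?_ ?_)
  · rw [Subgroup.sup_eq_closure] at hg
    induction hg using Subgroup.closure_induction'' with
    | mem g hg =>
      rcases hg with hg | hg
      exacts [hg.2.2.trans le_sup_left, hg.2.2.trans le_sup_right]
    | inv_mem g hg =>
      rcases hg with hg | hg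
      exacts [(inv_mem hg : g⁻¹ ∈ rootGroup G s).2.2.trans le_sup_left,
        (inv_mem hg : g⁻¹ ∈ rootGroup G t).2.2.trans le_sup_right]
    | one => simp
    | mul p q _ _ hp hq =>
      rintro _ ⟨m, rfl⟩
      have e : (((p * q : GLM) : EndM) - 1) m =
          ((p : EndM) - 1) ((q : EndM) m) + ((q : EndM) - 1) m := by
        simp [apply_mul]
      rw [e]
      exact add_mem (hp (LinearMap.mem_range_self _ _)) (hq (LinearMap.mem_range_self _ _))
  · rw [← commutatorSubmodule_rootGroup hs]
    exact biSup_mono fun g hg => Subgroup.mem_sup_left hg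
  · rw [← commutatorSubmodule_rootGroup ht]
    exact biSup_mono fun g hg => Subgroup.mem_sup_right hg

omit [FiniteDimensional k M] in
theorem fixedSubmodule_sup (hs : QEl G s) (ht : QEl G t) :
    fixedSubmodule (rootGroup G s ⊔ rootGroup G t) = LinearMap.ker s ⊓ LinearMap.ker t := by
  refine le_antisymm (le_inf ?_ ?_) fun v hv => mem_fixedSubmodule.2 fun g hg => ?_
  · rw [← fixedSubmodule_rootGroup hs]
    exact fun v hv => mem_fixedSubmodule.2 fun g hg => mem_fixedSubmodule.1 hv g (Subgroup.mem_sup_left hg)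
  · rw [← fixedSubmodule_rootGroup ht]
    exact fun v hv => mem_fixedSubmodule.2 fun g hg => mem_fixedSubmodule.1 hv g (Subgroup.mem_sup_right hg)
  · rw [Subgroup.sup_eq_closure] at hg
    induction hg using Subgroup.closure_induction'' with
    | mem g hg =>
      rcases hg with hg | hg
      exacts [hg.2.1 (Submodule.mem_sup_left hv.1), hg.2.1 (Submodule.mem_sup_left hv.2)]
    | inv_mem g hg =>
      rcases hg with hg | hg
      exacts [(inv_mem hg : g⁻¹ ∈ rootGroup G s).2.1 (Submodule.mem_sup_left hv.1),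
        (inv_mem hg : g⁻¹ ∈ rootGroup G t).2.1 (Submodule.mem_sup_left hv.2)]
    | one => simp [devMap_one]
    | mul p q _ _ hp hq =>
      rw [devMap_apply, sub_eq_zero] at hp hq ⊢
      rw [apply_mul, hq, hp]

include h2 h3 in
theorem central_involution (hs : MinQ G s) (ht : MinQ G t) (h : Inv s t) :
    IsCompl (fixedSubmodule (rootGroup G s ⊔ rootGroup G t))
        (commutatorSubmodule (rootGroup G s ⊔ rootGroup G t)) ∧
    ∃! i : GLM, i ∈ rootGroup G s ⊔ rootGroup G t ∧ i ≠ 1 ∧ i * i = 1 ∧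
      (∀ g ∈ rootGroup G s ⊔ rootGroup G t, i * g = g * i) ∧
      (∀ m ∈ commutatorSubmodule (rootGroup G s ⊔ rootGroup G t), (i : EndM) m = -m) ∧
      (∀ m ∈ fixedSubmodule (rootGroup G s ⊔ rootGroup G t), (i : EndM) m = m) := by
  obtain ⟨y, hy, h1, h2'⟩ := h.exists_partner h2 h3 hs ht
  have hy0 : y ≠ 0 := fun h0 => hs.ne_zero (by rw [← h1, h0, mul_zero, zero_mul])
  obtain ⟨hym, hyk, hyr⟩ := ht.class_spec hy hy0
  set P := s * y + y * s with hP
  -- the projection fixes both classes
  have key : ∀ {a b : EndM}, MinQ G a → a * b * a = a → ∀ x ∈ classSpace G a,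
      (a * b + b * a) * x = x ∧ x * (a * b + b * a) = x := by
    intro a b ha hab x hx
    constructor
    · ext v
      obtain ⟨w, hw⟩ := hx.2.2 (LinearMap.mem_range_self x v)
      simp only [Module.End.mul_apply, LinearMap.add_apply, ← hw]
      have e1 : a (a w) = 0 := LinearMap.congr_fun ha.sq w
      have e2 : a (b (a w)) = a w := LinearMap.congr_fun hab w
      rw [e1, e2, map_zero, add_zero]
    · ext v
      simp only [Module.End.mul_apply, LinearMap.add_apply, map_add]
      have h0 : x (a (b v)) = 0 := hx.2.1 (Submodule.mem_sup_right (LinearMap.mem_range_self a _))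
      have h1 : x (v - b (a v)) = 0 := by
        refine hx.2.1 (Submodule.mem_sup_left ?_)
        rw [LinearMap.mem_ker, map_sub, sub_eq_zero]
        exact (LinearMap.congr_fun hab v).symm
      rw [map_sub, sub_eq_zero] at h1
      rw [h0, zero_add, ← h1]
  have keys := fun x hx => key hs h1 x hx
  have keyt : ∀ x ∈ classSpace G t, P * x = x ∧ x * P = x := by
    intro x hx
    rw [hP, add_comm]
    exact key hym h2' x (by rwa [classSpace_congr hyk hyr])
  have e1 : ∀ v : EndM, v * s * s = 0 := fun v => by rw [mul_assoc, hs.sq, mul_zero]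
  have e2 : ∀ v : EndM, v * y * y = 0 := fun v => by rw [mul_assoc, hy.1.1, mul_zero]
  have e3 : ∀ v : EndM, v * s * y * s = v * s := fun v => by
    rw [show v * s * y * s = v * (s * y * s) by simp only [mul_assoc], h1]
  have e4 : ∀ v : EndM, v * y * s * y = v * y := fun v => by
    rw [show v * y * s * y = v * (y * s * y) by simp only [mul_assoc], h2']
  have hPP : P * P = P := by
    simp only [hP, mul_add, add_mul, ← mul_assoc, hs.sq, hy.1.1, h1, h2', e1, e2, e3, e4, zero_mul,
      add_zero, zero_add]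
  set w : GLM := qunit s * qunit (-y) * qunit s with hw
  have hww : ((w * w : GLM) : EndM) = 1 - P - P := by
    rw [hw, Units.val_mul, Units.val_mul, Units.val_mul, coe_qunit hs.sq,
      coe_qunit (neg_sq_zero hy.1.1)]
    simp only [hP, mul_add, add_mul, one_mul, mul_one, ← mul_assoc, neg_mul, mul_neg, neg_neg, hs.sq,
      hy.1.1, h1, h2', e1, e2, e3, e4, zero_mul, add_zero, zero_add, neg_zero]
    abel
  have hwX : w * w ∈ rootGroup G s ⊔ rootGroup G t := by
    have hwmem : w ∈ rootGroup G s ⊔ rootGroup G t := by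
      have hsm : qunit s ∈ rootGroup G s ⊔ rootGroup G t :=
        Subgroup.mem_sup_left (qunit_mem_rootGroup (self_mem_classSpace hs.1))
      exact mul_mem (mul_mem hsm (Subgroup.mem_sup_right (qunit_mem_rootGroup (neg_mem hy)))) hsm
    exact mul_mem hwmem hwmem
  rw [commutatorSubmodule_sup hs.1 ht.1, fixedSubmodule_sup hs.1 ht.1]
  have hfixP : ∀ v ∈ LinearMap.ker s ⊓ LinearMap.ker t, P v = 0 := by
    intro v hv
    have a1 : s v = 0 := hv.1
    have a2 : y v = 0 := (hyk.symm ▸ hv.2 : v ∈ LinearMap.ker y)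
    simp [hP, a1, a2]
  have hcomP : ∀ v ∈ LinearMap.range s ⊔ LinearMap.range t, P v = v := by
    intro v hv
    obtain ⟨_, ⟨a, rfl⟩, _, ⟨b, rfl⟩, rfl⟩ := Submodule.mem_sup.1 hv
    rw [map_add, ← Module.End.mul_apply, ← Module.End.mul_apply,
      (keys s (self_mem_classSpace hs.1)).1, (keyt t (self_mem_classSpace ht.1)).1]
  have hdec : ∀ v : M, v - P v ∈ LinearMap.ker s ⊓ LinearMap.ker t ∧
      P v ∈ LinearMap.range s ⊔ LinearMap.range t := by
    intro v
    refine ⟨⟨?_, ?_⟩, ?_⟩
    · rw [SetLike.mem_coe, LinearMap.mem_ker, map_sub, ← Module.End.mul_apply,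
        (keys s (self_mem_classSpace hs.1)).2, sub_self]
    · rw [SetLike.mem_coe, LinearMap.mem_ker, map_sub, ← Module.End.mul_apply,
        (keyt t (self_mem_classSpace ht.1)).2, sub_self]
    · rw [hP, LinearMap.add_apply]
      exact add_mem (Submodule.mem_sup_left (LinearMap.mem_range_self s (y v)))
        (Submodule.mem_sup_right (hyr ▸ LinearMap.mem_range_self y (s v)))
  refine ⟨⟨?_, ?_⟩, w * w, ⟨hwX, ?_, ?_, ?_, ?_, ?_⟩, ?_⟩
  · rw [disjoint_iff, eq_bot_iff]
    intro v hv
    rw [Submodule.mem_bot, ← hcomP v hv.2, hfixP v hv.1]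
  · rw [codisjoint_iff, eq_top_iff]
    intro v _
    exact Submodule.mem_sup.2 ⟨_, (hdec v).1, _, (hdec v).2, by abel⟩
  · intro h0
    refine hs.ne_zero ?_
    have h4 : (1 : EndM) - P - P = 1 := by rw [← hww, h0]; rfl
    have hP2 : (2 : k) • P = 0 := by
      rw [two_smul]; linear_combination (norm := abel) -h4
    have hP0 : P = 0 := (smul_eq_zero.1 hP2).resolve_left h2
    rw [← (keys s (self_mem_classSpace hs.1)).1, ← hP, hP0, zero_mul]
  · apply Units.ext
    rw [Units.val_mul (w * w), hww, Units.val_one]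
    simp only [mul_sub, sub_mul, one_mul, mul_one, hPP]
    abel
  · have hc : ∀ {u : EndM} {g : GLM}, (∀ x ∈ classSpace G u, P * x = x ∧ x * P = x) →
        g ∈ rootGroup G u → (w * w) * g = g * (w * w) := by
      intro u g hu hg
      apply Units.ext
      have hg' : (g : EndM) = 1 + devMap g := by rw [devMap]; abel
      rw [Units.val_mul (w * w), Units.val_mul g, hww, hg']
      simp only [mul_add, add_mul, mul_sub, sub_mul, one_mul, mul_one, (hu _ hg).1, (hu _ hg).2]
      abel
    exact forall_sup_commute (fun g hg => hc keys hg) fun g hg => hc keyt hg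
  · intro m hm
    rw [hww]; simp [hcomP m hm]
  · intro m hm
    rw [hww]; simp [hfixP m hm]
  · rintro i ⟨-, -, -, -, hneg, hfix⟩
    apply Units.ext
    refine LinearMap.ext fun v => ?_
    conv_lhs => rw [show v = (v - P v) + P v by abel]
    rw [map_add, hfix _ (hdec v).1, hneg _ (hdec v).2, hww]
    simp only [LinearMap.sub_apply, Module.End.one_apply]
    abel

end Cfsg.Agent.RootSub.QP
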